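import Mathlib
import Cfsg.Agent.Lib.Helper3.MaxClass
import Cfsg.Agent.Lib.Helper70.Kulakoff
import Cfsg.Agent.S0126

set_option autoImplicit false

/-! RUNG A5 of the ladder BLK. -/

namespace Cfsg.Agent.Lib.Helper62.Blk

open Cfsg.Agent.Lib.Helper3

universe u

/-- the second centre of a `p`-group of maximal class (`p` odd, order at least `p ^ 4`) has
exponent `p` and is not central -/
theorem second_center_maxClass {X : Type u} [Group X] [Finite X] {p : ℕ} [Fact p.Prime]
    (hp2 : p ≠ 2) {m : ℕ} (hm : 4 ≤ m) (hX : Nat.card X = p ^ m)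
    (hc : Group.nilpotencyClass X = m - 1) :
    (∀ x : X, (∀ y, x * y * x⁻¹ * y⁻¹ ∈ Subgroup.center X) → x ^ p = 1) ∧
      ∃ x : X, x ∉ Subgroup.center X ∧ ∀ y, x * y * x⁻¹ * y⁻¹ ∈ Subgroup.center X := by
  have hp : p.Prime := Fact.out
  have hPG : IsPGroup p X := IsPGroup.of_card hX
  haveI hnil : Group.IsNilpotent X := hPG.isNilpotent
  have hZ : Nat.card (Subgroup.center X) = p := card_center_of_maxClass (by omega) hX hc
  have hQ : Nat.card (X ⧸ Subgroup.center X) = p ^ (m - 1) :=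
    card_quotient_center_of_maxClass (by omega) hX hc
  have hQc : Group.nilpotencyClass (X ⧸ Subgroup.center X) = m - 1 - 1 := by
    rw [Group.nilpotencyClass_quotient_center, hc]
  have hZQ : Nat.card (Subgroup.center (X ⧸ Subgroup.center X)) = p :=
    card_center_of_maxClass (n := m - 1) (by omega) hQ hQc
  set Z2 : Subgroup X :=
    (Subgroup.center (X ⧸ Subgroup.center X)).comap (QuotientGroup.mk' (Subgroup.center X)) with hZ2
  have hmem : ∀ x : X, (∀ y, x * y * x⁻¹ * y⁻¹ ∈ Subgroup.center X) → x ∈ Z2 := by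
    intro x hx
    rw [hZ2, Subgroup.mem_comap, Subgroup.mem_center_iff]
    intro g
    obtain ⟨y, rfl⟩ := QuotientGroup.mk'_surjective _ g
    rw [← map_mul, ← map_mul]
    change (QuotientGroup.mk (y * x) : X ⧸ Subgroup.center X) = QuotientGroup.mk (x * y)
    rw [QuotientGroup.eq]
    have h1 : (y * x)⁻¹ * (x * y) = (y * x)⁻¹ * (x * y * x⁻¹ * y⁻¹) * ((y * x)⁻¹)⁻¹ := by group
    rw [h1]
    exact (inferInstance : (Subgroup.center X).Normal).conj_mem _ (hx y) _
  have hcard2 : Nat.card Z2 = p ^ 2 := by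
    have h1 : Z2.index = (Subgroup.center (X ⧸ Subgroup.center X)).index :=
      Subgroup.index_comap_of_surjective _ (QuotientGroup.mk'_surjective _)
    have h3 := Z2.card_mul_index
    have h4 := (Subgroup.center (X ⧸ Subgroup.center X)).card_mul_index
    rw [h1, hX] at h3
    rw [hZQ, hQ] at h4
    have h5 : p ^ m = p * p ^ (m - 1) := by
      rw [← pow_succ']
      congr 1
      omega
    rw [h5, ← h4, ← mul_assoc] at h3
    have hpos : 0 < (Subgroup.center (X ⧸ Subgroup.center X)).index := by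
      rcases Nat.eq_zero_or_pos (Subgroup.center (X ⧸ Subgroup.center X)).index with h0 | h0
      · rw [h0, mul_zero] at h4
        exact absurd h4.symm (pow_pos hp.pos _).ne'
      · exact h0
    rw [sq]
    exact Nat.eq_of_mul_eq_mul_right hpos h3
  have hnc : ¬ IsCyclic X := by
    intro hcyc
    have hcm : IsMulCommutative X := IsCyclic.isMulCommutative
    have := Group.IsNilpotent.nilpotencyClass_le_one_iff.mpr hcm
    omega
  obtain ⟨E, hEn, hEe, hEc⟩ := Cfsg.Agent.S0126.result hp2 hPG hnc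
  have hEZ2 : E = Z2 := by
    apply Subgroup.eq_of_le_of_card_ge
    · intro e he
      exact hmem e (fun y =>
        Cfsg.Agent.Lib.Helper70.commutator_central_of_normal_card_sq hPG E hEc e he y)
    · rw [hcard2, hEc]
  refine ⟨fun x hx => hEe.2 x (hEZ2 ▸ hmem x hx), ?_⟩
  by_contra hcon
  push Not at hcon
  have hle : E ≤ Subgroup.center X := by
    intro e he
    by_contra hne
    obtain ⟨y, hy⟩ := hcon e hne
    exact hy
      (Cfsg.Agent.Lib.Helper70.commutator_central_of_normal_card_sq hPG E hEc e he y)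
  have := Subgroup.card_le_of_le hle
  rw [hEc, hZ] at this
  have := hp.one_lt
  nlinarith

theorem quot_facts {R : Type*} [Group R] [Finite R] {p : ℕ} [Fact p.Prime]
    (hp2 : p ≠ 2) (n : ℕ) (hn : 5 ≤ n) (hR : Nat.card R = p ^ n)
    (N : Subgroup R) (hNc : Nat.card N = p ^ 2) (hNe : ∀ a ∈ N, a ^ p = 1)
    (hNZ : N ≤ Subgroup.center R) (t : R) (ht : t ∈ N) (ht1 : t ≠ 1)
    [(Subgroup.zpowers t).Normal]
    (h1 : Group.nilpotencyClass (R ⧸ Subgroup.zpowers t) = n - 2) :
    (∀ g : R, (∀ h, g * h * g⁻¹ * h⁻¹ ∈ N) → g ^ p ∈ Subgroup.zpowers t) ∧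
      ∃ g : R, g ∉ N ∧ ∀ h, g * h * g⁻¹ * h⁻¹ ∈ N := by
  have hp : p.Prime := Fact.out
  have hto : orderOf t = p := orderOf_eq_prime (hNe t ht) ht1
  have htc : Nat.card (Subgroup.zpowers t) = p ^ 1 := by rw [Nat.card_zpowers, hto, pow_one]
  have hX : Nat.card (R ⧸ Subgroup.zpowers t) = p ^ (n - 1) :=
    (card_quotient_of_card hp (Subgroup.zpowers t) hR htc).2
  have hcl : Group.nilpotencyClass (R ⧸ Subgroup.zpowers t) = n - 1 - 1 := by
    rw [h1]
    omega
  obtain ⟨MC1, x, hx1, hx2⟩ := second_center_maxClass hp2 (m := n - 1) (by omega) hX hcl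
  have hZ : Nat.card (Subgroup.center (R ⧸ Subgroup.zpowers t)) = p :=
    card_center_of_maxClass (by omega) hX hcl
  have htN : Subgroup.zpowers t ≤ N := by
    rw [Subgroup.zpowers_le]
    exact ht
  have hNmap : ∀ a ∈ N, (QuotientGroup.mk a : R ⧸ Subgroup.zpowers t) ∈
      Subgroup.center (R ⧸ Subgroup.zpowers t) := by
    intro a ha
    rw [Subgroup.mem_center_iff]
    intro g
    obtain ⟨y, rfl⟩ := QuotientGroup.mk_surjective g
    rw [← QuotientGroup.mk_mul, ← QuotientGroup.mk_mul, Subgroup.mem_center_iff.mp (hNZ ha) y]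
  have hmapeq : N.map (QuotientGroup.mk' (Subgroup.zpowers t)) =
      Subgroup.center (R ⧸ Subgroup.zpowers t) := by
    have hle : N.map (QuotientGroup.mk' (Subgroup.zpowers t)) ≤
        Subgroup.center (R ⧸ Subgroup.zpowers t) := by
      rintro _ ⟨a, ha, rfl⟩
      exact hNmap a ha
    apply Subgroup.eq_of_le_of_card_ge hle
    have hdvd := Subgroup.card_dvd_of_le hle
    rw [hZ] at hdvd ⊢
    rcases (Nat.dvd_prime hp).mp hdvd with h3 | h3
    · exfalso
      have hbot := Subgroup.eq_bot_of_card_eq _ h3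
      have hle2 : N ≤ Subgroup.zpowers t := by
        intro a ha
        have h4 : QuotientGroup.mk' (Subgroup.zpowers t) a ∈
            N.map (QuotientGroup.mk' (Subgroup.zpowers t)) := ⟨a, ha, rfl⟩
        rw [hbot, Subgroup.mem_bot] at h4
        exact (QuotientGroup.eq_one_iff a).mp h4
      have h5 := Subgroup.card_le_of_le hle2
      rw [hNc, htc] at h5
      have := hp.one_lt
      nlinarith
    · exact h3.ge
  constructor
  · intro g hg
    have h3 : (QuotientGroup.mk g : R ⧸ Subgroup.zpowers t) ^ p = 1 := by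
      apply MC1
      intro y
      obtain ⟨h, rfl⟩ := QuotientGroup.mk_surjective y
      exact hNmap _ (hg h)
    rw [← QuotientGroup.mk_pow] at h3
    exact (QuotientGroup.eq_one_iff _).mp h3
  · obtain ⟨g, rfl⟩ := QuotientGroup.mk_surjective x
    refine ⟨g, fun hgN => hx1 (hNmap g hgN), fun h => ?_⟩
    have h3 := hx2 (QuotientGroup.mk h)
    rw [← hmapeq] at h3
    obtain ⟨a, ha, hae⟩ := h3
    have h4 : (QuotientGroup.mk a : R ⧸ Subgroup.zpowers t) =
        QuotientGroup.mk (g * h * g⁻¹ * h⁻¹) := hae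
    rw [QuotientGroup.eq] at h4
    have h5 : g * h * g⁻¹ * h⁻¹ = a * (a⁻¹ * (g * h * g⁻¹ * h⁻¹)) := by group
    rw [h5]
    exact N.mul_mem ha (htN h4)

/-- RUNG A5: the two quotients -/
theorem no_two_maxClass_quotients {R : Type*} [Group R] [Finite R] {p : ℕ} [Fact p.Prime]
    (hp2 : p ≠ 2) (n : ℕ) (hn : 5 ≤ n) (hR : Nat.card R = p ^ n)
    (N : Subgroup R) (hNc : Nat.card N = p ^ 2) (hNe : ∀ a ∈ N, a ^ p = 1)
    (hΩ : ∀ g : R, g ^ p = 1 → g ∈ N) (hNZ : N ≤ Subgroup.center R)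
    (z z' : R) (hz : z ∈ N) (hz' : z' ∈ N) (hz1 : z ≠ 1) (hzz' : z' ∉ Subgroup.zpowers z)
    [(Subgroup.zpowers z).Normal] [(Subgroup.zpowers z').Normal]
    (h1 : Group.nilpotencyClass (R ⧸ Subgroup.zpowers z) = n - 2)
    (h2 : Group.nilpotencyClass (R ⧸ Subgroup.zpowers z') = n - 2) : False := by
  have hp : p.Prime := Fact.out
  have hz'1 : z' ≠ 1 := by
    rintro rfl
    exact hzz' (Subgroup.one_mem _)
  obtain ⟨A1, g, hgN, hg⟩ := quot_facts hp2 n hn hR N hNc hNe hNZ z hz hz1 h1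
  obtain ⟨A2, -⟩ := quot_facts hp2 n hn hR N hNc hNe hNZ z' hz' hz'1 h2
  have hinf : Subgroup.zpowers z ⊓ Subgroup.zpowers z' = ⊥ := by
    have hc' : Nat.card (Subgroup.zpowers z') = p := by
      rw [Nat.card_zpowers]
      exact orderOf_eq_prime (hNe z' hz') hz'1
    have hdvd := Subgroup.card_dvd_of_le
      (inf_le_right : Subgroup.zpowers z ⊓ Subgroup.zpowers z' ≤ Subgroup.zpowers z')
    rw [hc'] at hdvd
    rcases (Nat.dvd_prime hp).mp hdvd with h3 | h3
    · exact Subgroup.eq_bot_of_card_eq _ h3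
    · exfalso
      have h4 : Subgroup.zpowers z ⊓ Subgroup.zpowers z' = Subgroup.zpowers z' :=
        Subgroup.eq_of_le_of_card_ge inf_le_right (by rw [h3, hc'])
      apply hzz'
      have h5 : z' ∈ Subgroup.zpowers z ⊓ Subgroup.zpowers z' := by
        rw [h4]
        exact Subgroup.mem_zpowers z'
      exact h5.1
  have h6 : g ^ p ∈ Subgroup.zpowers z ⊓ Subgroup.zpowers z' := ⟨A1 g hg, A2 g hg⟩
  rw [hinf, Subgroup.mem_bot] at h6
  exact hgN (hΩ g h6)

end Cfsg.Agent.Lib.Helper62.Blk
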