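import Cfsg.Agent.Lib.Helper99.BalPSU.Defs
import Cfsg.Agent.Lib.Helper14.PConstrained

set_option autoImplicit false

/-! RUNG A of the ladder BAL-PSU (abstract part). -/

namespace Cfsg.Agent.Lib.Helper62.BalPSU

open Cfsg.Agent.Lib.Helper99.BalPSU Cfsg.Agent.Lib.Helper14

variable {K : Type*} [Group K]

theorem conj_mem_centralizer {β : MulAut K} {k : K} (hk : k ∈ fixS β) :
    MulAut.conj k ∈ Subgroup.centralizer ({β} : Set (MulAut K)) := by
  rw [Subgroup.mem_centralizer_singleton_iff]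
  ext x
  have hk' : β k = k := hk
  simp [MulAut.mul_apply, MulAut.conj_apply, hk']

theorem aut_conj (α : MulAut K) (k : K) : α * MulAut.conj k * α⁻¹ = MulAut.conj (α k) := by
  ext x
  simp [MulAut.mul_apply, MulAut.conj_apply]

theorem conj_eq_one_iff (hZ : Subgroup.center K = ⊥) {k : K} : MulAut.conj k = 1 ↔ k = 1 := by
  constructor
  · intro h
    have : k ∈ Subgroup.center K := by
      rw [Subgroup.mem_center_iff]
      intro g
      have h1 := DFunLike.congr_fun h g
      rw [MulAut.conj_apply, MulAut.one_apply] at h1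
      calc g * k = k * g * k⁻¹ * k := by rw [h1]
        _ = k * g := by group
    rw [hZ] at this
    exact Subgroup.mem_bot.mp this
  · rintro rfl
    simp

theorem conj_injective (hZ : Subgroup.center K = ⊥) :
    Function.Injective (MulAut.conj : K →* MulAut K) := by
  rw [injective_iff_map_eq_one]
  intro k hk
  exact (conj_eq_one_iff hZ).mp hk

theorem mem_fixS_of_comm {α β : MulAut K} (h : α * β = β * α) {k : K} (hk : k ∈ fixS β) :
    α k ∈ fixS β := by
  have hk' : β k = k := hk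
  change β (α k) = α k
  have := DFunLike.congr_fun h k
  rw [MulAut.mul_apply, MulAut.mul_apply, hk'] at this
  exact this.symm

variable [Finite K]

theorem core_ne_bot (hZ : Subgroup.center K = ⊥) (𝒢 : Subgroup (MulAut K))
    (hinn : ∀ k : K, MulAut.conj k ∈ 𝒢) (p : ℕ) [Fact p.Prime] (β : MulAut K)
    (hfix : fixS β ≠ ⊥) (hcop : Nat.Coprime p (Nat.card ↥(fixS β))) :
    Cfsg.pPrimeCore p ↥(𝒢 ⊓ Subgroup.centralizer {β}) ≠ ⊥ := by
  set C : Subgroup (MulAut K) := 𝒢 ⊓ Subgroup.centralizer {β} with hC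
  set I : Subgroup (MulAut K) := (fixS β).map (MulAut.conj : K →* MulAut K) with hI
  have hIC : I ≤ C := by
    rintro _ ⟨k, hk, rfl⟩
    exact ⟨hinn k, conj_mem_centralizer hk⟩
  have hnorm : (I.subgroupOf C).Normal := by
    constructor
    rintro ⟨a, ha⟩ ha' ⟨c, hc⟩
    rw [Subgroup.mem_subgroupOf] at ha' ⊢
    obtain ⟨k, hk, rfl⟩ := ha'
    change c * MulAut.conj k * c⁻¹ ∈ I
    rw [aut_conj]
    refine ⟨c k, mem_fixS_of_comm ?_ hk, rfl⟩
    exact Subgroup.mem_centralizer_singleton_iff.mp hc.2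
  have hcard : (Nat.card (I.subgroupOf C)).Coprime p := by
    rw [Nat.card_congr (Subgroup.subgroupOfEquivOfLe hIC).toEquiv]
    exact (Nat.Coprime.coprime_dvd_right (Subgroup.card_map_dvd _ _) hcop).symm
  have hle := le_pPrimeCore hnorm hcard
  intro hbot
  rw [hbot, le_bot_iff] at hle
  obtain ⟨⟨k, hk⟩, hk1⟩ := (Subgroup.ne_bot_iff_exists_ne_one).mp hfix
  have h1 : (⟨MulAut.conj k, hIC ⟨k, hk, rfl⟩⟩ : ↥C) ∈ I.subgroupOf C := by
    rw [Subgroup.mem_subgroupOf]
    exact ⟨k, hk, rfl⟩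
  rw [hle, Subgroup.mem_bot] at h1
  have h2 : MulAut.conj k = 1 := congrArg Subtype.val h1
  apply hk1
  ext
  exact (conj_eq_one_iff hZ).mp h2

/-- an automorphism commuting with `β` restricted to the fixed points of `β` -/
def resFix {α β : MulAut K} (h : α * β = β * α) : ↥(fixS β) ≃* ↥(fixS β) where
  toFun x := ⟨α x.1, mem_fixS_of_comm h x.2⟩
  invFun x := ⟨α⁻¹ x.1, mem_fixS_of_comm (by
    calc α⁻¹ * β = α⁻¹ * (β * α) * α⁻¹ := by group
      _ = α⁻¹ * (α * β) * α⁻¹ := by rw [h]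
      _ = β * α⁻¹ := by group) x.2⟩
  left_inv x := by
    ext
    simp
  right_inv x := by
    ext
    simp
  map_mul' x y := by
    ext
    simp

theorem core_fixS_eq_bot (p : ℕ) (β : MulAut K) (hI : HI p β) :
    Cfsg.pPrimeCore p ↥(fixS β) = ⊥ := by
  have h1 : (Cfsg.pPrimeCore p ↥(fixS β)).map (fixS β).subtype = ⊥ := by
    apply hI
    · rintro _ ⟨x, -, rfl⟩
      exact x.2
    · rw [Subgroup.card_map_of_injective (fixS β).subtype_injective]
      exact card_pPrimeCore_coprime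
    · rintro α hα _ ⟨x, hx, rfl⟩
      exact ⟨resFix hα x, map_pPrimeCore_le (resFix hα) ⟨x, hx, rfl⟩, rfl⟩
  exact (Subgroup.map_eq_bot_iff_of_injective _ (fixS β).subtype_injective).mp h1

theorem core_eq_bot (hZ : Subgroup.center K = ⊥) (𝒢 : Subgroup (MulAut K))
    (hinn : ∀ k : K, MulAut.conj k ∈ 𝒢) (p : ℕ) [Fact p.Prime] (β : MulAut K)
    (hI : HI p β) (hII : HII p β) :
    Cfsg.pPrimeCore p ↥(𝒢 ⊓ Subgroup.centralizer {β}) = ⊥ := by
  set C : Subgroup (MulAut K) := 𝒢 ⊓ Subgroup.centralizer {β} with hC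
  set N : Subgroup ↥C := Cfsg.pPrimeCore p ↥C with hN
  have hNn : N.Normal := inferInstance
  have hNc : (Nat.card N).Coprime p := card_pPrimeCore_coprime
  have hcC : ∀ k ∈ fixS β, MulAut.conj k ∈ C := fun k hk => ⟨hinn k, conj_mem_centralizer hk⟩
  -- the map `fixS β → C`
  let f : ↥(fixS β) →* ↥C :=
    { toFun := fun x => ⟨MulAut.conj x.1, hcC x.1 x.2⟩
      map_one' := by
        ext
        simp
      map_mul' := fun x y => by
        ext
        simp }
  have hf : Function.Injective f := by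
    intro x y hxy
    have h1 : MulAut.conj x.1 = MulAut.conj y.1 := congrArg Subtype.val hxy
    ext
    exact conj_injective hZ h1
  have hM : N.comap f = ⊥ := by
    rw [← le_bot_iff, ← core_fixS_eq_bot p β hI]
    apply le_pPrimeCore inferInstance
    have h1 : Nat.card (N.comap f) ∣ Nat.card N := by
      rw [← Subgroup.card_map_of_injective hf]
      exact Subgroup.card_dvd_of_le (Subgroup.map_comap_le f N)
    exact Nat.Coprime.coprime_dvd_left h1 hNc
  rw [Subgroup.eq_bot_iff_forall]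
  rintro ⟨ν, hνC⟩ hν
  have hνβ : ν * β = β * ν := Subgroup.mem_centralizer_singleton_iff.mp hνC.2
  have h1 : ν = 1 := by
    apply hII
    · intro k hk
      have hk2 : ν k * k⁻¹ ∈ fixS β :=
        (fixS β).mul_mem (mem_fixS_of_comm hνβ hk) ((fixS β).inv_mem hk)
      have h3 : (⟨ν k * k⁻¹, hk2⟩ : ↥(fixS β)) ∈ N.comap f := by
        rw [Subgroup.mem_comap]
        have h4 : f ⟨ν k * k⁻¹, hk2⟩ =
            (⟨ν, hνC⟩ : ↥C) * (f ⟨k, hk⟩ * (⟨ν, hνC⟩ : ↥C)⁻¹ * (f ⟨k, hk⟩)⁻¹) := by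
          apply Subtype.ext
          change MulAut.conj (ν k * k⁻¹) = ν * (MulAut.conj k * ν⁻¹ * (MulAut.conj k)⁻¹)
          rw [map_mul, ← aut_conj, map_inv]
          group
        rw [h4]
        exact N.mul_mem hν (hNn.conj_mem _ (N.inv_mem hν) _)
      rw [hM, Subgroup.mem_bot] at h3
      have h5 : ν k * k⁻¹ = 1 := congrArg Subtype.val h3
      exact mul_inv_eq_one.mp h5
    · have h2 : orderOf ν ∣ Nat.card N := by
        have h3 : orderOf (⟨⟨ν, hνC⟩, hν⟩ : ↥N) = orderOf ν := by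
          rw [← Subgroup.orderOf_coe, ← Subgroup.orderOf_coe]
        rw [← h3]
        exact orderOf_dvd_natCard _
      exact Nat.Coprime.coprime_dvd_left h2 hNc
  apply Subtype.ext
  exact h1

theorem mem_fixS_conj {h β : MulAut K} {k : K} : k ∈ fixS (h * β * h⁻¹) ↔ h⁻¹ k ∈ fixS β := by
  change (h * β * h⁻¹) k = k ↔ β (h⁻¹ k) = h⁻¹ k
  rw [MulAut.mul_apply, MulAut.mul_apply]
  constructor
  · intro h1
    calc β (h⁻¹ k) = h⁻¹ (h (β (h⁻¹ k))) := (MulAut.inv_apply_self _ _ _).symm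
      _ = h⁻¹ k := by rw [h1]
  · intro h1
    rw [h1]
    simp

theorem fixS_conj (h β : MulAut K) : fixS (h * β * h⁻¹) = (fixS β).map h.toMonoidHom := by
  ext k
  rw [mem_fixS_conj]
  constructor
  · intro h1
    exact ⟨h⁻¹ k, h1, by simp⟩
  · rintro ⟨x, hx, rfl⟩
    simpa using hx

theorem card_fixS_conj (h β : MulAut K) :
    Nat.card ↥(fixS (h * β * h⁻¹)) = Nat.card ↥(fixS β) := by
  rw [fixS_conj, Subgroup.card_map_of_injective h.injective]

theorem HI_conj (p : ℕ) (h β : MulAut K) (hI : HI p β) : HI p (h * β * h⁻¹) := by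
  intro M hM hc hinv
  have h1 : M.map (h⁻¹ : MulAut K).toMonoidHom = ⊥ := by
    apply hI
    · rintro _ ⟨k, hk, rfl⟩
      exact mem_fixS_conj.mp (hM hk)
    · rw [Subgroup.card_map_of_injective (h⁻¹ : MulAut K).injective]
      exact hc
    · rintro α hα _ ⟨k, hk, rfl⟩
      refine ⟨(h * α * h⁻¹) k, hinv (h * α * h⁻¹) ?_ k hk, ?_⟩
      · calc h * α * h⁻¹ * (h * β * h⁻¹) = h * (α * β) * h⁻¹ := by group
          _ = h * (β * α) * h⁻¹ := by rw [hα]
          _ = h * β * h⁻¹ * (h * α * h⁻¹) := by group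
      · simp [MulAut.mul_apply]
  exact (Subgroup.map_eq_bot_iff_of_injective _ (h⁻¹ : MulAut K).injective).mp h1

theorem HII_conj (p : ℕ) (h β : MulAut K) (hI : HII p β) : HII p (h * β * h⁻¹) := by
  intro α hα hc
  have h1 : h⁻¹ * α * h = 1 := by
    apply hI
    · intro k hk
      have h2 : h k ∈ fixS (h * β * h⁻¹) := by
        rw [mem_fixS_conj]
        simpa using hk
      have h3 := hα _ h2
      rw [MulAut.mul_apply, MulAut.mul_apply, h3]
      simp
    · have h2 : orderOf (h⁻¹ * α * h) = orderOf α := by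
        have := orderOf_injective (MulAut.conj h⁻¹).toMonoidHom (MulAut.conj h⁻¹).injective α
        rw [← this]
        simp
      rw [h2]
      exact hc
  calc α = h * (h⁻¹ * α * h) * h⁻¹ := by group
    _ = 1 := by rw [h1]; group

end Cfsg.Agent.Lib.Helper62.BalPSU
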