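import Cfsg.Agent.Lib.Helper62.AutOCard
import Cfsg.Agent.Lib.Helper75.AutOPts
import Cfsg.Agent.Lib.Helper74.AutOF7

set_option autoImplicit false

namespace Cfsg.Agent.Lib.Helper62

open QuadraticMap Module Cfsg.Agent.Lib.Helper49 Cfsg.Agent.Lib.Helper95 Cfsg.Agent.Lib.Helper95.AutO

variable {F V : Type*} [Field F] [Fintype F] [AddCommGroup V] [Module F V] [FiniteDimensional F V]
  {Q : QuadraticForm F V}

/-- RUNG S1 -/
theorem permPts (hQ : (polarBilin Q).Nondegenerate) (hd : 7 ≤ finrank F V)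
    (hL : ∀ W : Submodule F V, (∀ x ∈ W, Q x = 0) → 2 * finrank F W = finrank F V →
      10 ≤ finrank F V) (α : PT Q ≃* PT Q) : PermPts Q α :=
  permPts_core hQ hd hL
    (fun he0 he W hW0 hW h => Cfsg.Agent.Lib.Helper75.AutOPts.eq_span_of_stab_le hQ hd he0 he W hW0 hW h)
    (fun W hW hab => finrank_le_one_or_lagr hQ hd W hW hab)
    (fun W hW0 hW => two_lt_card_img_QW hQ hd W hW0 hW)
    (fun he0 he hne => card_img_QS_inf_le hQ hd he0 he hne)
    (fun h10 W hW hWd => Cfsg.Agent.Lib.Helper74.AutO.exists_conj_lagr hQ h10 W hW hWd)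
    (fun he0 he => Cfsg.Agent.Lib.Helper75.AutOPts.normalizer_img_QS hQ hd he0 he)
    α

end Cfsg.Agent.Lib.Helper62
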