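import Mathlib

set_option autoImplicit false

namespace Cfsg.Agent.Lib.Helper62

section Fix

variable {F V : Type*} [Field F] [AddCommGroup V] [Module F V]

/-- the action of a group of linear maps stabilising `D` and `C` on the image of `C` in `V ⧸ D` -/
@[reducible] def relAction (R : Subgroup (V ≃ₗ[F] V)) (D C : Submodule F V)
    (hD : ∀ r ∈ R, ∀ x ∈ D, r x ∈ D) (hC : ∀ r ∈ R, ∀ x ∈ C, r x ∈ C) :
    MulAction R (C.map D.mkQ) where
  smul r y := ⟨D.mapQ D (r.1 : V →ₗ[F] V) (fun x hx => hD r.1 r.2 x hx) y.1, by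
    obtain ⟨x, hx, hxy⟩ := y.2
    rw [← hxy]
    exact ⟨r.1 x, hC r.1 r.2 x hx, rfl⟩⟩
  one_smul y := by
    obtain ⟨x, hx, hxy⟩ := y.2
    apply Subtype.ext
    change D.mapQ D _ _ y.1 = y.1
    rw [← hxy]
    rfl
  mul_smul r s y := by
    obtain ⟨x, hx, hxy⟩ := y.2
    apply Subtype.ext
    change D.mapQ D _ _ y.1 = D.mapQ D _ _ (D.mapQ D _ _ y.1)
    rw [← hxy]
    rfl

/-- RUNG FIX -/
theorem exists_rel_fixed {F V : Type*} [Field F] [Fintype F] [AddCommGroup V] [Module F V]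
    [FiniteDimensional F V] {p : ℕ} [Fact p.Prime] [CharP F p]
    (R : Subgroup (V ≃ₗ[F] V)) (hR : IsPGroup p R) (D C : Submodule F V) (hDC : D < C)
    (hD : ∀ r ∈ R, ∀ x ∈ D, r x ∈ D) (hC : ∀ r ∈ R, ∀ x ∈ C, r x ∈ C) :
    ∃ x ∈ C, x ∉ D ∧ ∀ r ∈ R, r x - x ∈ D := by
  classical
  letI := relAction R D C hD hC
  haveI : Finite V := Module.finite_of_finite F
  haveI : Finite (V ⧸ D) := Quotient.finite _
  haveI : Finite (C.map D.mkQ) := Subtype.finite
  obtain ⟨c, hcC, hcD⟩ := SetLike.exists_of_lt hDC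
  have hp : p ∣ Nat.card (C.map D.mkQ) := by
    let y : C.map D.mkQ := ⟨D.mkQ c, c, hcC, rfl⟩
    have hy0 : y ≠ 0 := by
      intro h
      have h1 : D.mkQ c = 0 := congrArg Subtype.val h
      rw [Submodule.mkQ_apply, Submodule.Quotient.mk_eq_zero] at h1
      exact hcD h1
    have hpy : p • y = 0 := by
      rw [← Nat.cast_smul_eq_nsmul F p y, CharP.cast_eq_zero F p, zero_smul]
    have := addOrderOf_eq_prime hpy hy0
    rw [← this]
    exact addOrderOf_dvd_natCard y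
  have h0 : (0 : C.map D.mkQ) ∈ MulAction.fixedPoints R (C.map D.mkQ) := by
    intro r
    apply Subtype.ext
    change D.mapQ D _ _ (0 : V ⧸ D) = 0
    exact map_zero _
  obtain ⟨b, hb, hb0⟩ := hR.exists_fixed_point_of_prime_dvd_card_of_fixed_point _ hp h0
  obtain ⟨x, hx, hxb⟩ := b.2
  refine ⟨x, hx, ?_, ?_⟩
  · intro hxD
    apply hb0
    apply Subtype.ext
    rw [← hxb]
    change (0 : V ⧸ D) = D.mkQ x
    rw [Submodule.mkQ_apply, eq_comm, Submodule.Quotient.mk_eq_zero]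
    exact hxD
  · intro r hr
    have h1 := congrArg Subtype.val (hb ⟨r, hr⟩)
    change D.mapQ D _ _ b.1 = b.1 at h1
    rw [← hxb] at h1
    change D.mkQ (r x) = D.mkQ x at h1
    rw [Submodule.mkQ_apply, Submodule.mkQ_apply, Submodule.Quotient.eq] at h1
    exact h1

end Fix

end Cfsg.Agent.Lib.Helper62
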