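import Mathlib
import Cfsg.Agent.Lib.Helper49.WittOmega
import Cfsg.Agent.Lib.Helper62.AutOFix

set_option autoImplicit false

namespace Cfsg.Agent.Lib.Helper62

open QuadraticMap Module Cfsg.Agent.Lib.Helper49

namespace BT

variable {F V : Type*} [Field F] [AddCommGroup V] [Module F V] (Q : QuadraticForm F V)

/-- vectors moved by `R` only inside `D` -/
def relFix (R : Subgroup (OG Q)) (D : Submodule F V) : Submodule F V where
  carrier := {x | ∀ r ∈ R, r.1 x - x ∈ D}
  add_mem' {a b} ha hb := by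
    intro r hr
    have : r.1 (a + b) - (a + b) = (r.1 a - a) + (r.1 b - b) := by rw [map_add]; abel
    rw [this]
    exact D.add_mem (ha r hr) (hb r hr)
  zero_mem' := by
    intro r hr
    simp
  smul_mem' c x hx := by
    intro r hr
    have : r.1 (c • x) - c • x = c • (r.1 x - x) := by rw [map_smul, smul_sub]
    rw [this]
    exact D.smul_mem c (hx r hr)

/-- singular vectors of a totally isotropic subspace -/
def singSub (W : Submodule F V) (hW : ∀ x ∈ W, ∀ y ∈ W, polar Q x y = 0) : Submodule F V where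
  carrier := {x | x ∈ W ∧ Q x = 0}
  add_mem' {a b} ha hb := by
    refine ⟨W.add_mem ha.1 hb.1, ?_⟩
    have := hW a ha.1 b hb.1
    rw [polar, ha.2, hb.2] at this
    simpa using this
  zero_mem' := ⟨W.zero_mem, by simp⟩
  smul_mem' c x hx := ⟨W.smul_mem c hx.1, by rw [QuadraticMap.map_smul, hx.2, smul_zero]⟩

/-- the orthogonal complement with respect to the polar form -/
abbrev perp (W : Submodule F V) : Submodule F V :=
  LinearMap.BilinForm.orthogonal (polarBilin Q) W

theorem mem_perp {W : Submodule F V} {y : V} : y ∈ perp Q W ↔ ∀ n ∈ W, polar Q n y = 0 :=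
  LinearMap.BilinForm.mem_orthogonal_iff

theorem perp_anti {W W' : Submodule F V} (h : W ≤ W') : perp Q W' ≤ perp Q W :=
  LinearMap.BilinForm.orthogonal_le h

theorem isRefl : (polarBilin Q).IsRefl := by
  intro x y h
  rw [polarBilin_apply_apply] at h ⊢
  rw [polar_comm]
  exact h

theorem perp_perp [FiniteDimensional F V] (hQ : (polarBilin Q).Nondegenerate)
    (W : Submodule F V) : perp Q (perp Q W) = W :=
  LinearMap.BilinForm.orthogonal_orthogonal hQ (isRefl Q) W

/-- invariance under the normaliser of `R` -/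
def Inv (R : Subgroup (OG Q)) (W : Submodule F V) : Prop :=
  ∀ h ∈ Subgroup.normalizer (R : Set (OG Q)), ∀ x ∈ W, h.1 x ∈ W

variable {Q}

theorem inv_relFix {R : Subgroup (OG Q)} {D : Submodule F V} (hD : Inv Q R D) :
    Inv Q R (relFix Q R D) := by
  intro h hh x hx r hr
  have hh' : h⁻¹ ∈ Subgroup.normalizer (R : Set (OG Q)) := inv_mem hh
  have h1 : h⁻¹ * r * h ∈ R := by
    have := (Subgroup.mem_normalizer_iff.mp hh' r).mp hr
    simpa using this
  have h2 := hx _ h1
  have h3 := hD h hh _ h2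
  have h4 : h.1 ((h⁻¹ * r * h).1 x - x) = r.1 (h.1 x) - h.1 x := by
    rw [map_sub]
    congr 1
    change (h * (h⁻¹ * r * h)).1 x = (r * h).1 x
    have : h * (h⁻¹ * r * h) = r * h := by group
    rw [this]
  rwa [h4] at h3

theorem inv_perp {R : Subgroup (OG Q)} {W : Submodule F V} (hW : Inv Q R W) :
    Inv Q R (perp Q W) := by
  intro h hh y hy
  rw [mem_perp] at hy ⊢
  intro n hn
  have h1 := hW h⁻¹ (inv_mem hh) n hn
  have h2 := hy _ h1
  rw [← OG_polar Q h] at h2
  have h3 : h.1 (h⁻¹.1 n) = n := by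
    change (h * h⁻¹).1 n = n
    rw [mul_inv_cancel]; rfl
  rwa [h3] at h2

theorem inv_inf {R : Subgroup (OG Q)} {W W' : Submodule F V} (hW : Inv Q R W)
    (hW' : Inv Q R W') : Inv Q R (W ⊓ W') :=
  fun h hh x hx => ⟨hW h hh x hx.1, hW' h hh x hx.2⟩

theorem inv_singSub {R : Subgroup (OG Q)} {W : Submodule F V}
    (hiso : ∀ x ∈ W, ∀ y ∈ W, polar Q x y = 0) (hW : Inv Q R W) :
    Inv Q R (singSub Q W hiso) :=
  fun h hh x hx => ⟨hW h hh x hx.1, by rw [OG_apply]; exact hx.2⟩

theorem inv_bot {R : Subgroup (OG Q)} : Inv Q R ⊥ := by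
  intro h _ x hx
  rw [Submodule.mem_bot] at hx ⊢
  rw [hx, map_zero]

theorem fix' [Fintype F] [FiniteDimensional F V] {p : ℕ} [Fact p.Prime] [CharP F p]
    (R : Subgroup (OG Q)) (hR : IsPGroup p R) (D C : Submodule F V) (hDC : D < C)
    (hD : Inv Q R D) (hC : Inv Q R C) : ∃ x ∈ C, x ∉ D ∧ x ∈ relFix Q R D := by
  obtain ⟨x, h1, h2, h3⟩ := exists_rel_fixed (R.map (OG Q).subtype) (hR.map _) D C hDC
    (by
      rintro _ ⟨r, hr, rfl⟩ x hx
      exact hD r (Subgroup.le_normalizer hr) x hx)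
    (by
      rintro _ ⟨r, hr, rfl⟩ x hx
      exact hC r (Subgroup.le_normalizer hr) x hx)
  exact ⟨x, h1, h2, fun r hr => h3 _ ⟨r, hr, rfl⟩⟩

end BT

/-- RUNG BT -/
theorem borel_tits {F V : Type*} [Field F] [Fintype F] [AddCommGroup V] [Module F V]
    [FiniteDimensional F V] (Q : QuadraticForm F V) (hQ : (polarBilin Q).Nondegenerate)
    {p : ℕ} [Fact p.Prime] [CharP F p]
    (R : Subgroup (OG Q)) (hR : IsPGroup p R) (hcard : 2 < Nat.card R) :
    ∃ W : Submodule F V, W ≠ ⊥ ∧ (∀ x ∈ W, Q x = 0) ∧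
      ∀ h : OG Q, (∀ r, r ∈ R ↔ h * r * h⁻¹ ∈ R) → ∀ x ∈ W, h.1 x ∈ W := by
  classical
  suffices H : ∃ W : Submodule F V, W ≠ ⊥ ∧ (∀ x ∈ W, Q x = 0) ∧ BT.Inv Q R W by
    obtain ⟨W, h1, h2, h3⟩ := H
    exact ⟨W, h1, h2, fun h hh => h3 h (Subgroup.mem_normalizer_iff.mpr hh)⟩
  by_contra hno
  have key : ∀ (W : Submodule F V) (_ : ∀ x ∈ W, ∀ y ∈ W, polar Q x y = 0), BT.Inv Q R W →
      ∀ x ∈ W, Q x = 0 → x = 0 := by
    intro W hW hinv x hx hQx
    by_contra hx0
    apply hno
    refine ⟨BT.singSub Q W hW, ?_, fun y hy => hy.2, BT.inv_singSub hW hinv⟩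
    intro hbot
    have : x ∈ BT.singSub Q W hW := ⟨hx, hQx⟩
    rw [hbot] at this
    exact hx0 ((Submodule.mem_bot F).mp this)
  set A := BT.relFix Q R ⊥ with hA
  have invA : BT.Inv Q R A := BT.inv_relFix BT.inv_bot
  have invAp : BT.Inv Q R (BT.perp Q A) := BT.inv_perp invA
  set W0 := A ⊓ BT.perp Q A with hW0def
  have invW0 : BT.Inv Q R W0 := BT.inv_inf invA invAp
  have iso0 : ∀ x ∈ W0, ∀ y ∈ W0, polar Q x y = 0 :=
    fun x hx y hy => (BT.mem_perp Q).mp hy.2 x hx.1
  have memA : ∀ x, x ∈ A ↔ ∀ r ∈ R, r.1 x = x := by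
    intro x
    constructor
    · intro hx r hr
      have := hx r hr
      rw [Submodule.mem_bot, sub_eq_zero] at this
      exact this
    · intro hx r hr
      rw [Submodule.mem_bot, sub_eq_zero]
      exact hx r hr
  have hW0 : W0 ≠ ⊥ := by
    intro hbot
    have hAp : BT.perp Q A = ⊥ := by
      by_contra hne
      obtain ⟨x, hxC, hxD, hxf⟩ := BT.fix' R hR ⊥ (BT.perp Q A) (bot_lt_iff_ne_bot.mpr hne)
        BT.inv_bot invAp
      apply hxD
      have : x ∈ W0 := ⟨hxf, hxC⟩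
      rw [hbot] at this
      exact this
    have hAtop : ∀ x, x ∈ A := by
      intro x
      have := BT.perp_perp Q hQ A
      rw [hAp] at this
      rw [← this, BT.mem_perp]
      intro n hn
      rw [(Submodule.mem_bot F).mp hn]
      simp
    have hR1 : R = ⊥ := by
      rw [Subgroup.eq_bot_iff_forall]
      intro r hr
      apply Subtype.ext
      ext x
      exact (memA x).mp (hAtop x) r hr
    rw [hR1, Subgroup.card_bot] at hcard
    omega
  obtain ⟨w, hwW0, hw0⟩ := Submodule.exists_mem_ne_zero_of_ne_bot hW0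
  have hQw : Q w ≠ 0 := fun h => hw0 (key W0 iso0 invW0 w hwW0 h)
  have h2 : (2 : F) = 0 := by
    have := iso0 w hwW0 w hwW0
    rw [polar_self, nsmul_eq_mul] at this
    rcases mul_eq_zero.mp this with h | h
    · exact_mod_cast h
    · exact absurd h hQw
  have hp2 : p = 2 := by
    have h3 : ((2 : ℕ) : F) = 0 := by exact_mod_cast h2
    have := (CharP.cast_eq_zero_iff F p 2).mp h3
    exact (Nat.prime_dvd_prime_iff_eq (Fact.out) Nat.prime_two).mp this
  subst hp2
  have hsq : ∀ a : F, IsSquare a := FiniteField.isSquare_of_char_two (ringChar.eq F 2)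
  have key2 : ∀ (W : Submodule F V) (_ : ∀ x ∈ W, ∀ y ∈ W, polar Q x y = 0), BT.Inv Q R W →
      w ∈ W → ∀ y ∈ W, ∃ c : F, y = c • w := by
    intro W hW hinv hwW y hy
    obtain ⟨c, hc⟩ := hsq (Q y / Q w)
    refine ⟨c, ?_⟩
    have h1 : Q (y - c • w) = 0 := by
      rw [Q_sub_smul, hW w hwW y hy, mul_zero, sub_zero]
      have : c ^ 2 * Q w = Q y := by
        rw [_root_.sq, ← hc]
        field_simp
      rw [this, ← two_mul, h2, zero_mul]
    have := key W hW hinv _ (W.sub_mem hy (W.smul_mem c hwW)) h1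
    exact sub_eq_zero.mp this
  set A1 := BT.perp Q W0 ⊓ BT.relFix Q R W0 with hA1def
  have invA1 : BT.Inv Q R A1 := BT.inv_inf (BT.inv_perp invW0) (BT.inv_relFix invW0)
  have hAA1 : A ≤ A1 := by
    intro x hx
    refine ⟨?_, ?_⟩
    · apply (BT.mem_perp Q).mpr
      intro n hn
      rw [polar_comm]
      exact (BT.mem_perp Q).mp hn.2 x hx
    · intro r hr
      rw [(memA x).mp hx r hr, sub_self]
      exact W0.zero_mem
  have hW0A1 : W0 ≤ A1 := inf_le_left.trans hAA1
  have hW0A1p : W0 ≤ BT.perp Q A1 := by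
    intro n hn
    rw [BT.mem_perp]
    intro x hx
    rw [polar_comm]
    exact (BT.mem_perp Q).mp hx.1 n hn
  set W1 := A1 ⊓ BT.perp Q A1 with hW1def
  have invW1 : BT.Inv Q R W1 := BT.inv_inf invA1 (BT.inv_perp invA1)
  have iso1 : ∀ x ∈ W1, ∀ y ∈ W1, polar Q x y = 0 :=
    fun x hx y hy => (BT.mem_perp Q).mp hy.2 x hx.1
  have hW1 : W1 ≤ W0 := by
    intro y hy
    obtain ⟨c, rfl⟩ := key2 W1 iso1 invW1 ⟨hW0A1 hwW0, hW0A1p hwW0⟩ y hy
    exact W0.smul_mem c hwW0
  have hA1p : BT.perp Q A1 ≤ W0 := by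
    by_contra hne
    have hlt : W0 < BT.perp Q A1 := lt_of_le_not_ge hW0A1p hne
    obtain ⟨x, hxC, hxD, hxf⟩ := BT.fix' R hR W0 (BT.perp Q A1) hlt invW0 (BT.inv_perp invA1)
    apply hxD
    apply hW1
    exact ⟨⟨BT.perp_anti Q hW0A1 hxC, hxf⟩, hxC⟩
  have hW0p : BT.perp Q W0 ≤ A1 := by
    have := BT.perp_anti Q hA1p
    rwa [BT.perp_perp Q hQ] at this
  have hfixW0p : BT.perp Q W0 ≤ A := by
    intro x hx
    rw [memA]
    intro r hr
    have hd := (hW0p hx).2 r hr
    have hQd : Q (r.1 x - x) = 0 := by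
      have h1 : Q (r.1 x) = Q x := OG_apply Q r x
      have h3 : polar Q (r.1 x - x) x = 0 := (BT.mem_perp Q).mp hx _ hd
      rw [polar, sub_add_cancel, h1] at h3
      linear_combination -h3
    exact sub_eq_zero.mp (key W0 iso0 invW0 _ hd hQd)
  have hApW0 : BT.perp Q A ≤ W0 := by
    have := BT.perp_anti Q hfixW0p
    rwa [BT.perp_perp Q hQ] at this
  have hmove : ∀ r ∈ R, ∀ v, r.1 v - v ∈ W0 := by
    intro r hr v
    apply hApW0
    rw [BT.mem_perp]
    intro n hn
    rw [polar_sub_right]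
    have : polar Q n (r.1 v) = polar Q (r.1 n) (r.1 v) := by rw [(memA n).mp hn r hr]
    rw [this, OG_polar, sub_self]
  obtain ⟨v0, hv0⟩ : ∃ v0, polar Q w v0 ≠ 0 := by
    by_contra hcon
    push Not at hcon
    exact hw0 (hQ.1 w hcon)
  have hinj : ∀ r ∈ R, ∀ r' ∈ R, r.1 v0 = r'.1 v0 → r = r' := by
    intro r hr r' hr' h
    apply Subtype.ext
    ext v
    set c := polar Q w v / polar Q w v0 with hc
    have hx : v - c • v0 ∈ BT.perp Q W0 := by
      rw [BT.mem_perp]
      intro n hn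
      obtain ⟨a, rfl⟩ := key2 W0 iso0 invW0 hwW0 n hn
      rw [polar_smul_left, polar_sub_right, polar_smul_right, hc]
      simp only [smul_eq_mul]
      field_simp
      ring
    have h1 := (memA _).mp (hfixW0p hx) r hr
    have h1' := (memA _).mp (hfixW0p hx) r' hr'
    rw [map_sub, map_smul] at h1 h1'
    have e1 : r.1 v = (v - c • v0) + c • r.1 v0 := by rw [← h1]; abel
    have e2 : r'.1 v = (v - c • v0) + c • r'.1 v0 := by rw [← h1']; abel
    rw [e1, e2, h]
  have hopt : ∀ r ∈ R, r.1 v0 = v0 ∨ r.1 v0 = v0 - (-(polar Q w v0) / Q w) • w := by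
    intro r hr
    obtain ⟨c, hc⟩ := key2 W0 iso0 invW0 hwW0 _ (hmove r hr v0)
    have h1 : r.1 v0 = v0 - (-c) • w := by
      rw [neg_smul, ← hc]
      abel
    have h3 : Q (v0 - (-c) • w) = Q v0 := by
      rw [← h1]
      exact OG_apply Q r v0
    rw [Q_sub_smul] at h3
    have h4 : c * (c * Q w + polar Q w v0) = 0 := by linear_combination h3
    rcases mul_eq_zero.mp h4 with h | h
    · left
      rw [h1, h, neg_zero, zero_smul, sub_zero]
    · right
      rw [h1]
      congr 2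
      field_simp
      linear_combination -h + (polar Q w v0) * h2
  have hle : Nat.card R ≤ Nat.card Bool := by
    apply Nat.card_le_card_of_injective (fun r : R => decide (r.1.1 v0 = v0))
    intro r r' h
    simp only [decide_eq_decide] at h
    apply Subtype.ext
    apply hinj r.1 r.2 r'.1 r'.2
    rcases hopt r.1 r.2 with h1 | h1
    · rw [h1, h.mp h1]
    · rcases hopt r'.1 r'.2 with h2' | h2'
      · rw [h2', h.mpr h2']
      · rw [h1, h2']
  have hb : Nat.card Bool = 2 := by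
    rw [Nat.card_eq_fintype_card, Fintype.card_bool]
  omega

end Cfsg.Agent.Lib.Helper62
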