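import Cfsg.Agent.Lib.Helper95.AutO.Perm
import Cfsg.Agent.Lib.Helper62.AutOBT
import Cfsg.Agent.Lib.Helper62.AutOLift
import Cfsg.Agent.Lib.Helper29.AutOIrr
import Cfsg.Agent.Lib.Helper74.AutOSemiB
import Cfsg.Agent.Lib.Helper49.Perp2

set_option autoImplicit false

namespace Cfsg.Agent.Lib.Helper62

open QuadraticMap Module Cfsg.Agent.Lib.Helper49 Cfsg.Agent.Lib.Helper95 Cfsg.Agent.Lib.Helper95.AutO

variable {F V : Type*} [Field F] [Fintype F] [AddCommGroup V] [Module F V] [FiniteDimensional F V]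
  {Q : QuadraticForm F V}

theorem finite_OG (Q : QuadraticForm F V) : Finite (OG Q) := by
  have : Finite V := Module.finite_of_finite F
  have : Finite (V ≃ₗ[F] V) := Finite.of_injective (fun g => (g : V → V)) DFunLike.coe_injective
  infer_instance

/-- canonical lift of a `p`-subgroup of `PΩ` to `Ω` -/
theorem exists_lift_PT (hQ : (polarBilin Q).Nondegenerate) (hd : 7 ≤ finrank F V)
    {p : ℕ} [Fact p.Prime] [CharP F p] (R : Subgroup (PT Q)) (hR : IsPGroup p R) :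
    ∃ B : Subgroup ↥(Om Q), IsPGroup p B ∧ B.map (pr Q) = R ∧
      ∀ g : ↥(Om Q), pr Q g ∈ Subgroup.normalizer (R : Set (PT Q)) →
        ∀ b, b ∈ B ↔ g * b * g⁻¹ ∈ B := by
  have := finite_OG Q
  obtain ⟨B, h1, h2, h3⟩ := exists_lift_pgroup (Subgroup.center ↥(Om Q)) le_rfl
    (card_center_coprime p hQ hd) R hR
  refine ⟨B, h1, h2, ?_⟩
  intro g hg
  exact h3 g (Subgroup.mem_normalizer_iff.mp hg)

/-- RUNG BTB -/
theorem borel_tits_PT (hQ : (polarBilin Q).Nondegenerate) (hd : 7 ≤ finrank F V)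
    {p : ℕ} [Fact p.Prime] [CharP F p] (R : Subgroup (PT Q)) (hR : IsPGroup p R)
    (hcard : 2 < Nat.card R) :
    ∃ W : Submodule F V, W ≠ ⊥ ∧ (∀ x ∈ W, Q x = 0) ∧
      Subgroup.normalizer (R : Set (PT Q)) ≤ img Q (stabSub Q W) := by
  have := finite_OG Q
  obtain ⟨B, hBp, hmap, hnorm⟩ := exists_lift_PT hQ hd R hR
  set R0 : Subgroup (OG Q) := B.map (Om Q).subtype with hR0
  have hR0p : IsPGroup p R0 := hBp.map _
  have hc1 : Nat.card R ≤ Nat.card B := by
    rw [← hmap]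
    exact Nat.le_of_dvd Nat.card_pos (Subgroup.card_map_dvd _ _)
  have hc2 : Nat.card R0 = Nat.card B :=
    Subgroup.card_map_of_injective (Subgroup.subtype_injective _)
  obtain ⟨W, hW0, hWs, hWinv⟩ := borel_tits Q hQ R0 hR0p (by omega)
  refine ⟨W, hW0, hWs, ?_⟩
  intro t ht
  obtain ⟨g, rfl⟩ := pr_surjective t
  apply pr_mem_img
  apply mem_stabSub_of_forall
  apply hWinv g.1
  intro r
  have hg := hnorm g ht
  constructor
  · rintro ⟨b, hb, rfl⟩
    exact ⟨g * b * g⁻¹, (hg b).mp hb, rfl⟩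
  · rintro ⟨b', hb', hbr⟩
    refine ⟨g⁻¹ * b' * g, ?_, ?_⟩
    · apply (hg _).mpr
      have : g * (g⁻¹ * b' * g) * g⁻¹ = b' := by group
      rw [this]
      exact hb'
    · change g.1⁻¹ * b'.1 * g.1 = r
      have h1 : b'.1 = g.1 * r * g.1⁻¹ := hbr
      rw [h1]
      group

end Cfsg.Agent.Lib.Helper62
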