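import Cfsg.Agent.Lib.Helper62.AutOS1Core

set_option autoImplicit false

namespace Cfsg.Agent.Lib.Helper62

open QuadraticMap Module Cfsg.Agent.Lib.Helper49 Cfsg.Agent.Lib.Helper95 Cfsg.Agent.Lib.Helper95.AutO

variable {F V : Type*} [Field F] [Fintype F] [AddCommGroup V] [Module F V] [FiniteDimensional F V]
  {Q : QuadraticForm F V}

theorem exists_not_mem_of_finrank_lt {S T : Submodule F V} (hST : S ≤ T)
    (h : finrank F S < finrank F T) : ∃ x ∈ T, x ∉ S :=
  SetLike.exists_of_lt (lt_of_le_of_ne hST (fun h' => by rw [h'] at h; exact lt_irrefl _ h))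

theorem polar_eq_zero_of_sing {W : Submodule F V} (hW : ∀ x ∈ W, Q x = 0) {x y : V} (hx : x ∈ W)
    (hy : y ∈ W) : polar Q x y = 0 := by
  rw [polar, hW _ (W.add_mem hx hy), hW x hx, hW y hy]
  simp

theorem le_perp_of_sing {W : Submodule F V} (hW : ∀ x ∈ W, Q x = 0) : W ≤ BT.perp Q W := by
  intro y hy
  rw [BT.mem_perp]
  intro n hn
  exact polar_eq_zero_of_sing hW hn hy

theorem finrank_perp (hQ : (polarBilin Q).Nondegenerate) (W : Submodule F V) :
    finrank F (BT.perp Q W) = finrank F V - finrank F W :=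
  LinearMap.BilinForm.finrank_orthogonal hQ W

theorem sb_mem_img_QW (hQ : (polarBilin Q).Nondegenerate) (hd : 7 ≤ finrank F V)
    {W : Submodule F V} (hW : ∀ x ∈ W, Q x = 0) {u w : V} (hu : u ∈ W)
    (hw : w ∈ BT.perp Q W) : sb hQ hd u w ∈ img Q (QW Q W) :=
  pr_mem_img (g := ⟨si Q u w, si_mem_commutator hQ (by omega) u w⟩)
    (si_mem_QW hW hu ((BT.mem_perp Q).mp hw))

/-- RUNG CARD1 -/
theorem two_lt_card_img_QW (hQ : (polarBilin Q).Nondegenerate) (hd : 7 ≤ finrank F V)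
    (W : Submodule F V) (hW0 : W ≠ ⊥) (hW : ∀ x ∈ W, Q x = 0) :
    2 < Nat.card (img Q (QW Q W)) := by
  classical
  have := finite_OG Q
  obtain ⟨u, huW, hu0⟩ := Submodule.exists_mem_ne_zero_of_ne_bot hW0
  have hle := le_perp_of_sing hW
  have hfr := finrank_perp hQ W
  have hfr2 : finrank F W ≤ finrank F (BT.perp Q W) := Submodule.finrank_mono hle
  have hfrV : finrank F W ≤ finrank F V := Submodule.finrank_le W
  have h4 : 3 ≤ finrank F (BT.perp Q W) := by omega
  have huP : u ∈ BT.perp Q W := hle huW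
  obtain ⟨w1, hw1P, hw1u⟩ := exists_not_mem_of_finrank_lt
    (S := Submodule.span F {u}) (T := BT.perp Q W)
    (by rw [Submodule.span_singleton_le_iff_mem]; exact huP)
    (by rw [finrank_span_singleton hu0]; omega)
  have hw10 : w1 ≠ 0 := by
    rintro rfl
    exact hw1u (Submodule.zero_mem _)
  obtain ⟨w2, hw2P, hw2u⟩ := exists_not_mem_of_finrank_lt
    (S := Submodule.span F {u} ⊔ Submodule.span F {w1}) (T := BT.perp Q W)
    (by
      apply sup_le
      · rw [Submodule.span_singleton_le_iff_mem]; exact huP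
      · rw [Submodule.span_singleton_le_iff_mem]; exact hw1P)
    (by
      have := Submodule.finrank_add_le_finrank_add_finrank (Submodule.span F {u})
        (Submodule.span F {w1})
      rw [finrank_span_singleton hu0, finrank_span_singleton hw10] at this
      omega)
  have hQu : Q u = 0 := hW u huW
  have hp1 : polar Q u w1 = 0 := (BT.mem_perp Q).mp hw1P u huW
  have hp2 : polar Q u w2 = 0 := (BT.mem_perp Q).mp hw2P u huW
  have hs1 : sb hQ hd u w1 ≠ 1 := by
    intro h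
    obtain ⟨c, hc⟩ := (sb_eq_one_iff hQ hd hQu hu0 hp1).mp h
    apply hw1u
    rw [hc]
    exact Submodule.smul_mem _ c (Submodule.mem_span_singleton_self u)
  have hs2 : sb hQ hd u w2 ≠ 1 := by
    intro h
    obtain ⟨c, hc⟩ := (sb_eq_one_iff hQ hd hQu hu0 hp2).mp h
    apply hw2u
    rw [hc]
    exact Submodule.mem_sup_left (Submodule.smul_mem _ c (Submodule.mem_span_singleton_self u))
  have hs12 : sb hQ hd u w2 ≠ sb hQ hd u w1 := by
    intro h
    obtain ⟨c, hc⟩ := (sb_eq_sb_iff hQ hd hQu hu0 hp2 hp1).mp h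
    apply hw2u
    rw [hc, add_comm]
    exact Submodule.add_mem_sup (Submodule.smul_mem _ c (Submodule.mem_span_singleton_self u))
      (Submodule.mem_span_singleton_self w1)
  letI := Fintype.ofFinite ↥(img Q (QW Q W))
  rw [Nat.card_eq_fintype_card, Fintype.two_lt_card_iff]
  refine ⟨1, ⟨_, sb_mem_img_QW hQ hd hW huW hw1P⟩, ⟨_, sb_mem_img_QW hQ hd hW huW hw2P⟩, ?_, ?_, ?_⟩
  · intro h
    exact hs1 (congrArg Subtype.val h).symm
  · intro h
    exact hs2 (congrArg Subtype.val h).symm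
  · intro h
    exact hs12 (congrArg Subtype.val h).symm

/-- RUNG CARD2 -/
theorem card_img_QS_inf_le (hQ : (polarBilin Q).Nondegenerate) (hd : 7 ≤ finrank F V)
    {e e' : V} (he0 : e ≠ 0) (he : Q e = 0) (hne : ∀ c : F, e' ≠ c • e) :
    Nat.card ↥(img Q (QS Q e) ⊓ img Q (QS Q e')) ≤ Fintype.card F := by
  classical
  have hex : ∀ t : ↥(img Q (QS Q e) ⊓ img Q (QS Q e')), ∃ c : F, t.1 = sb hQ hd e (c • e') := by
    intro t
    obtain ⟨h1, h2⟩ := Subgroup.mem_inf.mp t.2
    rcases mem_img_QS_inf hQ hd he he0 hne h1 h2 with h | ⟨-, c, hc⟩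
    · refine ⟨0, ?_⟩
      rw [h, zero_smul, eq_comm, sb_eq_one_iff hQ hd he he0 (by simp)]
      exact ⟨0, by simp⟩
    · exact ⟨c, hc⟩
  choose f hf using hex
  rw [← Nat.card_eq_fintype_card]
  apply Nat.card_le_card_of_injective f
  intro t t' h
  apply Subtype.ext
  rw [hf t, hf t', h]

/-- RUNG F6 -/
theorem finrank_le_one_or_lagr (hQ : (polarBilin Q).Nondegenerate) (hd : 7 ≤ finrank F V)
    (W : Submodule F V) (hW : ∀ x ∈ W, Q x = 0)
    (hab : ∀ s ∈ img Q (QW Q W), ∀ t ∈ img Q (QW Q W), s * t = t * s) :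
    finrank F W ≤ 1 ∨ 2 * finrank F W = finrank F V := by
  by_contra hcon
  push Not at hcon
  obtain ⟨h1, h2⟩ := hcon
  have hle := le_perp_of_sing hW
  have hfr := finrank_perp hQ W
  have hfrV : finrank F W ≤ finrank F V := Submodule.finrank_le W
  have hW0 : W ≠ ⊥ := by
    rintro rfl
    rw [finrank_bot] at h1
    omega
  obtain ⟨u2, hu2W, hu20⟩ := Submodule.exists_mem_ne_zero_of_ne_bot hW0
  obtain ⟨u1, hu1W, hu1u⟩ := exists_not_mem_of_finrank_lt
    (S := Submodule.span F {u2}) (T := W)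
    (by rw [Submodule.span_singleton_le_iff_mem]; exact hu2W)
    (by rw [finrank_span_singleton hu20]; omega)
  obtain ⟨y, hy, y', hy', hyy'⟩ : ∃ y ∈ BT.perp Q W, ∃ y' ∈ BT.perp Q W, polar Q y y' ≠ 0 := by
    by_contra hno
    push Not at hno
    have h3 : BT.perp Q W ≤ W := by
      intro y' hy'
      rw [← BT.perp_perp Q hQ W, BT.mem_perp]
      intro y hy
      exact hno y hy y' hy'
    have h4 : BT.perp Q W = W := le_antisymm h3 hle
    rw [h4] at hfr
    omega
  have hQ1 : Q u1 = 0 := hW u1 hu1W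
  have hQ2 : Q u2 = 0 := hW u2 hu2W
  have h12 : polar Q u1 u2 = 0 := polar_eq_zero_of_sing hW hu1W hu2W
  have h1y : polar Q u1 y = 0 := (BT.mem_perp Q).mp hy u1 hu1W
  have h1y' : polar Q u1 y' = 0 := (BT.mem_perp Q).mp hy' u1 hu1W
  have h2y : polar Q u2 y = 0 := (BT.mem_perp Q).mp hy u2 hu2W
  have h2y' : polar Q u2 y' = 0 := (BT.mem_perp Q).mp hy' u2 hu2W
  have hcomm := hab _ (sb_mem_img_QW hQ hd hW hu1W hy) _ (sb_mem_img_QW hQ hd hW hu2W hy')
  have hconj := sb_conj hQ hd u2 y' ⟨si Q u1 y, si_mem_commutator hQ (by omega) u1 y⟩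
  have e1 : pr Q ⟨si Q u1 y, si_mem_commutator hQ (by omega) u1 y⟩ = sb hQ hd u1 y := rfl
  rw [e1, hcomm, mul_inv_cancel_right] at hconj
  have e2 : (si Q u1 y).1 u2 = u2 := by
    rw [si_apply hQ1 h1y, h12, polar_comm Q y u2, h2y]
    simp
  have e3 : (si Q u1 y).1 y' = y' - polar Q y y' • u1 := by
    rw [si_apply hQ1 h1y, h1y']
    simp
  change sb hQ hd u2 y' = sb hQ hd ((si Q u1 y).1 u2) ((si Q u1 y).1 y') at hconj
  rw [e2, e3] at hconj
  have h2z : polar Q u2 (y' - polar Q y y' • u1) = 0 := by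
    rw [polar_sub_right, polar_smul_right, h2y', polar_comm Q u2 u1, h12]
    simp
  obtain ⟨d, hd'⟩ := (sb_eq_sb_iff hQ hd hQ2 hu20 h2y' h2z).mp hconj
  apply hu1u
  have h5 : polar Q y y' • u1 = d • u2 := by
    have : y' - (y' - polar Q y y' • u1 + d • u2) = 0 := by rw [← hd', sub_self]
    have h6 : polar Q y y' • u1 - d • u2 = 0 := by rw [← this]; abel
    exact sub_eq_zero.mp h6
  have h7 : u1 = ((polar Q y y')⁻¹ * d) • u2 := by
    rw [mul_smul, ← h5, smul_smul, inv_mul_cancel₀ hyy', one_smul]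
  rw [h7]
  exact Submodule.smul_mem _ _ (Submodule.mem_span_singleton_self u2)

end Cfsg.Agent.Lib.Helper62
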