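import Cfsg.Agent.Lib.Helper62.AutOBTB

set_option autoImplicit false

namespace Cfsg.Agent.Lib.Helper62

open QuadraticMap Module Cfsg.Agent.Lib.Helper49 Cfsg.Agent.Lib.Helper95 Cfsg.Agent.Lib.Helper95.AutO

variable {F V : Type*} [Field F] [Fintype F] [AddCommGroup V] [Module F V] [FiniteDimensional F V]
  {Q : QuadraticForm F V}

/-- RUNG F2 -/
theorem le_img_QS_of_normal (hQ : (polarBilin Q).Nondegenerate) (hd : 7 ≤ finrank F V)
    {p : ℕ} [Fact p.Prime] [CharP F p] {e : V} (he0 : e ≠ 0) (he : Q e = 0)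
    (N : Subgroup (PT Q)) (hN : IsPGroup p N)
    (hle : N ≤ img Q (stabSub Q (Submodule.span F {e})))
    (hnorm : img Q (stabSub Q (Submodule.span F {e})) ≤ Subgroup.normalizer (N : Set (PT Q))) :
    N ≤ img Q (QS Q e) := by
  have := finite_OG Q
  obtain ⟨B, hBp, hmap, hBn⟩ := exists_lift_PT hQ hd N hN
  set D : Submodule F V := Submodule.span F {e} with hD
  have heD : e ∈ D := Submodule.mem_span_singleton_self e
  have hee : polar Q e e = 0 := polar_self_of_Q he
  -- elements of `B` fix `e`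
  have hfix : ∀ b ∈ B, b.1.1 e = e := by
    intro b hb
    have h1 : pr Q b ∈ N := by
      rw [← hmap]
      exact ⟨b, hb, rfl⟩
    have h2 : b.1 ∈ stabSub Q D := (pr_mem_img_stab_iff hQ hd).mp (hle h1)
    obtain ⟨c, hc⟩ := Submodule.mem_span_singleton.mp (stabSub_apply_mem h2 heD)
    obtain ⟨k, hk⟩ := hBp ⟨b, hb⟩
    have hk' : b ^ p ^ k = 1 := congrArg Subtype.val hk
    have hpow : ∀ m : ℕ, (b ^ m).1.1 e = c ^ m • e := by
      intro m
      induction m with
      | zero => simp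
      | succ m ih =>
        rw [pow_succ]
        change (b ^ m).1.1 (b.1.1 e) = _
        rw [← hc, map_smul, ih, smul_smul, pow_succ, mul_comm]
    have h3 := hpow (p ^ k)
    rw [hk'] at h3
    have h4 : (c ^ p ^ k - 1) • e = 0 := by
      rw [sub_smul, ← h3, one_smul]
      exact sub_self _
    have h5 : c = 1 :=
      eq_one_of_pow_char p (sub_eq_zero.1 ((smul_eq_zero.1 h4).resolve_right he0))
    rw [← hc, h5, one_smul]
  set R0 : Subgroup (OG Q) := B.map (Om Q).subtype with hR0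
  set E : Submodule F V := BT.perp Q D with hE
  have memE : ∀ x, x ∈ E ↔ polar Q e x = 0 := by
    intro x
    rw [hE, BT.mem_perp]
    constructor
    · intro h
      exact h e heD
    · intro h n hn
      obtain ⟨c, rfl⟩ := Submodule.mem_span_singleton.mp hn
      rw [polar_smul_left, h, smul_zero]
  have hDE : D < E := by
    obtain ⟨w, hw, hQw⟩ := qexists_perp_nonsing Q hQ ![e] (by omega)
    have hew : polar Q e w = 0 := by rw [polar_comm]; exact hw 0
    refine lt_of_le_of_ne ?_ ?_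
    · intro x hx
      obtain ⟨c, rfl⟩ := Submodule.mem_span_singleton.mp hx
      rw [memE, polar_smul_right, hee, smul_zero]
    · intro h
      have : w ∈ D := by rw [h, memE]; exact hew
      obtain ⟨c, rfl⟩ := Submodule.mem_span_singleton.mp this
      apply hQw
      rw [QuadraticMap.map_smul, he, smul_zero]
  have hfixD : ∀ g : OG Q, g.1 e = e → ∀ x ∈ D, g.1 x ∈ D := by
    intro g hg x hx
    obtain ⟨c, rfl⟩ := Submodule.mem_span_singleton.mp hx
    rw [map_smul, hg]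
    exact D.smul_mem c heD
  have hfixE : ∀ g : OG Q, g.1 e = e → ∀ x ∈ E, g.1 x ∈ E := by
    intro g hg x hx
    rw [memE] at hx ⊢
    rw [← hx, ← OG_polar Q g e x, hg]
  obtain ⟨x0, hx0E, hx0D, hx0f⟩ := exists_rel_fixed (R0.map (OG Q).subtype)
    ((hBp.map _).map _) D E hDE
    (by
      rintro _ ⟨_, ⟨b, hb, rfl⟩, rfl⟩ x hx
      exact hfixD b.1 (hfix b hb) x hx)
    (by
      rintro _ ⟨_, ⟨b, hb, rfl⟩, rfl⟩ x hx
      exact hfixE b.1 (hfix b hb) x hx)
  set C : Submodule F V := E ⊓ BT.relFix Q R0 D with hC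
  have hall := Cfsg.Agent.Lib.Helper29.AutO.irr_point Q hQ hd he he0 C
    (by
      refine ⟨(memE e).mpr hee, ?_⟩
      rintro _ ⟨b, hb, rfl⟩
      change b.1.1 e - e ∈ D
      rw [hfix b hb, sub_self]
      exact D.zero_mem)
    (by
      refine ⟨x0, ⟨hx0E, ?_⟩, ?_⟩
      · intro r hr
        exact hx0f _ ⟨r, hr, rfl⟩
      · rintro c rfl
        exact hx0D (D.smul_mem c heD))
    (fun x hx => (memE x).mp hx.1)
    (by
      intro g hg hge x hx
      refine ⟨hfixE g hge x hx.1, ?_⟩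
      rintro _ ⟨b, hb, rfl⟩
      have hgs : g ∈ stabSub Q D := mem_stabSub_of_forall Q (hfixD g hge)
      have hgn : pr Q ⟨g, hg⟩ ∈ Subgroup.normalizer (N : Set (PT Q)) :=
        hnorm (pr_mem_img (g := ⟨g, hg⟩) hgs)
      have hgn' : pr Q (⟨g, hg⟩ : ↥(Om Q))⁻¹ ∈ Subgroup.normalizer (N : Set (PT Q)) := by
        rw [map_inv]
        exact inv_mem hgn
      have hb' := (hBn _ hgn' b).mp hb
      have h1 := hx.2 _ ⟨_, hb', rfl⟩
      have h2 := hfixD g hge _ h1
      have h3 : g.1 (((Om Q).subtype ((⟨g, hg⟩ : ↥(Om Q))⁻¹ * b * (⟨g, hg⟩ : ↥(Om Q))⁻¹⁻¹)).1 x - x)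
          = ((Om Q).subtype b).1 (g.1 x) - g.1 x := by
        rw [map_sub]
        congr 1
        change (g * (g⁻¹ * b.1 * g⁻¹⁻¹)).1 x = (b.1 * g).1 x
        have : g * (g⁻¹ * b.1 * g⁻¹⁻¹) = b.1 * g := by group
        rw [this]
      rw [h3] at h2
      exact h2)
  intro t ht
  rw [← hmap] at ht
  obtain ⟨b, hb, rfl⟩ := ht
  apply pr_mem_img
  rw [mem_QS]
  refine ⟨hfix b hb, ?_⟩
  intro x hx
  have h1 := (hall x hx).2 b.1 ⟨b, hb, rfl⟩
  obtain ⟨c, hc⟩ := Submodule.mem_span_singleton.mp h1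
  exact ⟨c, by rw [hc]; abel⟩

end Cfsg.Agent.Lib.Helper62
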