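import Cfsg.Agent.Lib.Helper62.AutOF2

set_option autoImplicit false

namespace Cfsg.Agent.Lib.Helper62

open QuadraticMap Module Cfsg.Agent.Lib.Helper49 Cfsg.Agent.Lib.Helper95 Cfsg.Agent.Lib.Helper95.AutO

variable {F V : Type*} [Field F] [Fintype F] [AddCommGroup V] [Module F V] [FiniteDimensional F V]
  {Q : QuadraticForm F V}

theorem img_QW_le_img_stab' (W : Submodule F V) : img Q (QW Q W) ≤ img Q (stabSub Q W) := by
  apply img_mono
  intro g _ hg
  apply mem_stabSub_of_forall
  intro x hx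
  rw [hg.1 x hx]
  exact hx

/-- RUNG S1, with the other rungs as hypotheses -/
theorem permPts_core (hQ : (polarBilin Q).Nondegenerate) (hd : 7 ≤ finrank F V)
    (hL : ∀ W : Submodule F V, (∀ x ∈ W, Q x = 0) → 2 * finrank F W = finrank F V →
      10 ≤ finrank F V)
    (F5 : ∀ {e : V}, e ≠ 0 → Q e = 0 → ∀ W : Submodule F V, W ≠ ⊥ → (∀ x ∈ W, Q x = 0) →
      img Q (stabSub Q (Submodule.span F {e})) ≤ img Q (stabSub Q W) → W = Submodule.span F {e})
    (F6 : ∀ W : Submodule F V, (∀ x ∈ W, Q x = 0) →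
      (∀ s ∈ img Q (QW Q W), ∀ t ∈ img Q (QW Q W), s * t = t * s) →
      finrank F W ≤ 1 ∨ 2 * finrank F W = finrank F V)
    (CARD1 : ∀ W : Submodule F V, W ≠ ⊥ → (∀ x ∈ W, Q x = 0) → 2 < Nat.card (img Q (QW Q W)))
    (CARD2 : ∀ {e e' : V}, e ≠ 0 → Q e = 0 → (∀ c : F, e' ≠ c • e) →
      Nat.card ↥(img Q (QS Q e) ⊓ img Q (QS Q e')) ≤ Fintype.card F)
    (F7 : 10 ≤ finrank F V → ∀ W : Submodule F V, (∀ x ∈ W, Q x = 0) →
      2 * finrank F W = finrank F V → ∃ g : ↥(Om Q), g.1 ∉ stabSub Q W ∧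
      Fintype.card F <
        Nat.card ↥(img Q (QW Q W) ⊓ img Q (QW Q (W.map (g.1.1 : V →ₗ[F] V)))))
    (NQS : ∀ {e : V}, e ≠ 0 → Q e = 0 →
      Subgroup.normalizer (img Q (QS Q e) : Set (PT Q)) =
        img Q (stabSub Q (Submodule.span F {e})))
    (α : PT Q ≃* PT Q) : PermPts Q α := by
  intro e he0 he
  obtain ⟨p, hp⟩ := CharP.exists F
  have : Fact p.Prime := ⟨CharP.char_is_prime F p⟩
  have := finite_OG Q
  set D : Submodule F V := Submodule.span F {e} with hD
  have hD0 : D ≠ ⊥ := by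
    intro h
    apply he0
    have : e ∈ D := Submodule.mem_span_singleton_self e
    rw [h] at this
    exact (Submodule.mem_bot F).mp this
  have hDs : ∀ x ∈ D, Q x = 0 := by
    intro x hx
    obtain ⟨c, rfl⟩ := Submodule.mem_span_singleton.mp hx
    rw [QuadraticMap.map_smul, he, smul_zero]
  set A : Subgroup (PT Q) := img Q (QS Q e) with hA
  set Pe : Subgroup (PT Q) := img Q (stabSub Q D) with hPe
  have hAp : IsPGroup p A := isPGroup_img_QW p D
  have hAPe : A ≤ Pe := img_QW_le_img_stab' D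
  have hNA : Subgroup.normalizer (A : Set (PT Q)) = Pe := NQS he0 he
  set R : Subgroup (PT Q) := A.map α.toMonoidHom with hR
  have hRp : IsPGroup p R := hAp.map _
  have hNR : Subgroup.normalizer (R : Set (PT Q)) = Pe.map α.toMonoidHom := by
    rw [← hNA, Subgroup.map_equiv_normalizer_eq]
  have hRcard : 2 < Nat.card R := by
    have h1 : Nat.card R = Nat.card A := Subgroup.card_map_of_injective α.injective
    rw [h1]
    exact CARD1 D hD0 hDs
  obtain ⟨W, hW0, hWs, hNW⟩ := borel_tits_PT hQ hd R hRp hRcard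
  set PW : Subgroup (PT Q) := img Q (stabSub Q W) with hPW
  have h1 : ∀ t ∈ Pe, α t ∈ PW := by
    intro t ht
    apply hNW
    rw [hNR]
    exact ⟨t, ht, rfl⟩
  set R' : Subgroup (PT Q) := (img Q (QW Q W)).map α.symm.toMonoidHom with hR'
  have hRp' : IsPGroup p R' := (isPGroup_img_QW p W).map _
  have hRcard' : 2 < Nat.card R' := by
    have h2 : Nat.card R' = Nat.card (img Q (QW Q W)) :=
      Subgroup.card_map_of_injective α.symm.injective
    rw [h2]
    exact CARD1 W hW0 hWs
  obtain ⟨W', hW0', hWs', hNW'⟩ := borel_tits_PT hQ hd R' hRp' hRcard'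
  have hPWN : ∀ s ∈ PW, α.symm s ∈ Subgroup.normalizer (R' : Set (PT Q)) := by
    intro s hs
    rw [hR', ← Subgroup.map_equiv_normalizer_eq]
    exact ⟨s, img_stab_le_normalizer W hs, rfl⟩
  have hPeN : Pe ≤ Subgroup.normalizer (R' : Set (PT Q)) := by
    intro t ht
    have := hPWN _ (h1 t ht)
    rwa [α.symm_apply_apply] at this
  have hW' : W' = D := F5 he0 he W' hW0' hWs' (hPeN.trans hNW')
  have h2 : ∀ s ∈ PW, α.symm s ∈ Pe := by
    intro s hs
    have := hNW' (hPWN s hs)
    rwa [hW'] at this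
  have hR'A : R' ≤ A := by
    apply le_img_QS_of_normal hQ hd he0 he R' hRp' _ hPeN
    rintro _ ⟨s, hs, rfl⟩
    exact h2 s (img_QW_le_img_stab' W hs)
  have h3 : img Q (QW Q W) ≤ R := by
    intro s hs
    rw [hR, Subgroup.mem_map_equiv]
    exact hR'A ⟨s, hs, rfl⟩
  have hAab : ∀ s ∈ A, ∀ t ∈ A, s * t = t * s := by
    intro s hs t ht
    obtain ⟨w, hw, rfl⟩ := (mem_img_QS_iff hQ hd he0 he).mp hs
    obtain ⟨w', hw', rfl⟩ := (mem_img_QS_iff hQ hd he0 he).mp ht
    rw [sb_mul hQ hd he hw hw', sb_mul hQ hd he hw' hw, add_comm]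
  have hRab : ∀ s ∈ R, ∀ t ∈ R, s * t = t * s := by
    rintro _ ⟨s, hs, rfl⟩ _ ⟨t, ht, rfl⟩
    change α s * α t = α t * α s
    rw [← map_mul, ← map_mul, hAab s hs t ht]
  have hPWR : PW ≤ Subgroup.normalizer (R : Set (PT Q)) := by
    intro s hs
    rw [hNR, Subgroup.mem_map_equiv]
    exact h2 s hs
  rcases F6 W hWs (fun s hs t ht => hRab s (h3 hs) t (h3 ht)) with hW1 | hW2
  · obtain ⟨e', he'W, he'0⟩ := Submodule.exists_mem_ne_zero_of_ne_bot hW0
    have hWe' : Submodule.span F {e'} = W := by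
      apply Submodule.eq_of_le_of_finrank_le
      · rw [Submodule.span_singleton_le_iff_mem]
        exact he'W
      · rw [finrank_span_singleton he'0]
        exact hW1
    refine ⟨e', he'0, hWs e' he'W, ?_⟩
    apply le_antisymm
    · apply le_img_QS_of_normal hQ hd he'0 (hWs e' he'W) R hRp
      · rw [hWe']
        rintro _ ⟨a, ha, rfl⟩
        exact h1 a (hAPe ha)
      · rw [hWe']
        exact hPWR
    · have : img Q (QS Q e') = img Q (QW Q W) := by rw [QS, hWe']
      rw [this]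
      exact h3
  · exfalso
    obtain ⟨g, hgW, hgc⟩ := F7 (hL W hWs hW2) W hWs hW2
    obtain ⟨h, hh⟩ := pr_surjective (α.symm (pr Q g))
    have hαh : α (pr Q h) = pr Q g := by rw [hh, α.apply_symm_apply]
    by_cases hne : ∀ c : F, h.1.1 e ≠ c • e
    · have hle := CARD2 he0 he hne
      have hinj : Nat.card ↥(img Q (QW Q W) ⊓ img Q (QW Q (W.map (g.1.1 : V →ₗ[F] V)))) ≤
          Nat.card ↥(img Q (QS Q e) ⊓ img Q (QS Q (h.1.1 e))) := by
        apply Nat.card_le_card_of_injective
          (fun t : ↥(img Q (QW Q W) ⊓ img Q (QW Q (W.map (g.1.1 : V →ₗ[F] V)))) =>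
            (⟨α.symm t.1, by
              obtain ⟨ht1, ht2⟩ := Subgroup.mem_inf.mp t.2
              rw [Subgroup.mem_inf]
              refine ⟨hR'A ⟨t.1, ht1, rfl⟩, ?_⟩
              have h4 := conj_mem_img_QW ht2 g⁻¹
              have h5 : (W.map (g.1.1 : V →ₗ[F] V)).map ((g⁻¹).1.1 : V →ₗ[F] V) = W := by
                ext x
                constructor
                · rintro ⟨_, ⟨y, hy, rfl⟩, rfl⟩
                  have : (g⁻¹).1.1 (g.1.1 y) = y := OG_inv_apply_apply g.1 y
                  change (g⁻¹).1.1 (g.1.1 y) ∈ W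
                  rw [this]
                  exact hy
                · intro hx
                  exact ⟨g.1.1 x, ⟨x, hx, rfl⟩, OG_inv_apply_apply g.1 x⟩
              rw [h5] at h4
              have h6 := hR'A ⟨_, h4, rfl⟩
              have h7 := conj_mem_img_QS h6 h
              have h8 : pr Q h * α.symm.toMonoidHom (pr Q g⁻¹ * t.1 * (pr Q g⁻¹)⁻¹) * (pr Q h)⁻¹
                  = α.symm t.1 := by
                change pr Q h * α.symm (pr Q g⁻¹ * t.1 * (pr Q g⁻¹)⁻¹) * (pr Q h)⁻¹ = α.symm t.1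
                have e1 : pr Q g⁻¹ = (pr Q g)⁻¹ := map_inv _ _
                rw [e1, inv_inv, map_mul, map_mul, map_inv, ← hh]
                group
              rw [h8] at h7
              exact h7⟩ : ↥(img Q (QS Q e) ⊓ img Q (QS Q (h.1.1 e)))))
        intro t t' htt'
        have := congrArg Subtype.val htt'
        exact Subtype.ext (α.symm.injective this)
      omega
    · push Not at hne
      obtain ⟨c, hc⟩ := hne
      apply hgW
      rw [← pr_mem_img_stab_iff hQ hd, ← hαh]
      apply h1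
      apply pr_mem_img
      apply mem_stabSub_of_forall
      intro x hx
      obtain ⟨d, rfl⟩ := Submodule.mem_span_singleton.mp hx
      rw [map_smul, hc]
      exact D.smul_mem _ (D.smul_mem _ (Submodule.mem_span_singleton_self e))

end Cfsg.Agent.Lib.Helper62
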