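import Cfsg.Agent.Lib.Helper62.AutPSUTB
import Cfsg.Agent.Lib.Helper62.AutPSUD

set_option autoImplicit false

namespace Cfsg.Agent.Lib.Helper62.AutPSUT

open Matrix MatrixGroups Cfsg.Agent.Lib.Helper17 Cfsg.Agent.Lib.Helper99.AutPSU

variable {F : Type*} [Field F] [Fintype F] {n q : ℕ}

/-- RUNG HB -/
theorem t_hb (hF : Fintype.card F = q ^ 2) {β : MulAut (Cfsg.PSU n F q)} {a b : Fin n → F}
    (hN : Nrm β a b) (w : ↥(Wsub q a b)) (k l : F) (hk : k + k ^ q + hW w w = 0)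
    (hl : l + l ^ q = 0) (hz : 1 + l * k ≠ 0) :
    1 + tb hF hN.hp β l * T2 hF hN.hp β w k ≠ 0 ∧
    T1 hF hN.hp β ((1 + l * k)⁻¹ • w) ((1 + l * k)⁻¹ * k) =
      (1 + tb hF hN.hp β l * T2 hF hN.hp β w k)⁻¹ • T1 hF hN.hp β w k ∧
    T2 hF hN.hp β ((1 + l * k)⁻¹ • w) ((1 + l * k)⁻¹ * k) =
      (1 + tb hF hN.hp β l * T2 hF hN.hp β w k)⁻¹ * T2 hF hN.hp β w k := by
  have hp := hN.hp
  set z : F := 1 + l * k with hzdef
  have hzq : z ^ q = 1 - l * k ^ q := by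
    rw [hzdef, add_pow_q hF, one_pow, mul_pow]
    linear_combination k ^ q * hl
  have hzq0 : z ^ q ≠ 0 := pow_ne_zero _ hz
  have hk' : z⁻¹ * k + (z⁻¹ * k) ^ q + hW (z⁻¹ • w) (z⁻¹ • w) = 0 := by
    have e1 : hW (z⁻¹ • w) (z⁻¹ • w) = z⁻¹ * ((z ^ q)⁻¹ * hW w w) := by
      simp only [hW, Submodule.coe_smul, hermForm_smul_left, hermForm_smul_right, inv_pow]
      ring
    rw [e1, mul_pow, inv_pow]
    field_simp
    rw [hzq, hzdef]
    linear_combination hk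
  have hin : InH q a b (w : Fin n → F) k := inH_W w hk
  have hin' : InH q a b ((z⁻¹ • w : ↥(Wsub q a b)) : Fin n → F) (z⁻¹ * k) := inH_W _ hk'
  set u := el hF hp (w : Fin n → F) k with hu
  set u1 := el hF hp ((z⁻¹ • w : ↥(Wsub q a b)) : Fin n → F) (z⁻¹ * k) with hu1
  set t := tv hF hp.b0 l with ht
  have huQ : u ∈ Q q a := el_mem hF hp _ _
  have hu1Q : u1 ∈ Q q a := el_mem hF hp _ _
  have htX : t ∈ X q b := tv_mem hF hp.b0 l
  have hub : mt u *ᵥ b = b + (w : Fin n → F) + k • a := el_b hF hp hin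
  have hu1b : mt u1 *ᵥ b = b + z⁻¹ • (w : Fin n → F) + (z⁻¹ * k) • a := el_b hF hp hin'
  have htub : mt t *ᵥ (mt u *ᵥ b) = z • (mt u1 *ᵥ b) := by
    rw [hub, hu1b, tv_mulVec hF hp.b0 hl, hermForm_add_left, hermForm_add_left,
      hermForm_smul_left, hp.b0, w.2.2, hp.ab, smul_add, smul_add, smul_smul, smul_smul,
      ← mul_assoc, mul_inv_cancel₀ hz, one_smul, one_mul, hzdef, add_smul, one_smul]
    simp only [zero_add, mul_one]
    abel
  set g := u1⁻¹ * t * u with hg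
  have hgb : mt g *ᵥ b = z • b := by
    rw [hg, mt_mul_mulVec, mt_mul_mulVec, htub, mulVec_smul, mt_inv_mulVec]
  have hgP : g ∈ P q b := ⟨Units.mk0 z hz, hgb⟩
  set g' := (lq β a u1)⁻¹ * lb β b t * lq β a u with hg'
  have hpg : β (pm g) = pm g' := by
    rw [hg, hg', pm_mul, pm_mul, pm_inv, map_mul, map_mul, map_inv, lq_spec hN hu1Q,
      lq_spec hN huQ, lb_spec hN htX, pm_mul, pm_mul, pm_inv]
  obtain ⟨x, hxX, hx1⟩ := exists_X_ne_one hF (hp.isoB hF)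
  obtain ⟨x0, hx0X, hx0⟩ := hN.Xb' x hxX
  obtain ⟨y, hyX, hy⟩ := hN.Xb _ (PD.P_conj_X hgP hx0X)
  have hconj : pm (g' * x * g'⁻¹) = pm y := by
    have e2 : pm (g' * x * g'⁻¹) = pm g' * pm x * (pm g')⁻¹ := rfl
    have e3 : pm (g * x0 * g⁻¹) = pm g * pm x0 * (pm g)⁻¹ := rfl
    rw [← hy, e2, e3, map_mul, map_mul, map_inv, hpg, hx0]
  obtain ⟨μ, hμ⟩ := mem_P_of_conj hF (hp.isoB hF) g' x y hxX hx1 hyX hconj
  have h1 : mt (lb β b t) *ᵥ (mt (lq β a u) *ᵥ b) = (μ : F) • (mt (lq β a u1) *ᵥ b) := by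
    have h2 := congrArg (fun v => mt (lq β a u1) *ᵥ v) hμ
    simp only [hg', mt_mul_mulVec, mt_mulVec_inv, mulVec_smul] at h2
    exact h2
  set A1 : Fin n → F := wc q a b (lq β a u) with hA1
  set A2 : F := kc q b (lq β a u) with hA2
  set B1 : Fin n → F := wc q a b (lq β a u1) with hB1
  set B2 : F := kc q b (lq β a u1) with hB2
  have hA1a : Cfsg.hermForm n F q A1 a = 0 := wc_a hF hp (lq_mem β a _)
  have hA1b : Cfsg.hermForm n F q A1 b = 0 := wc_b hp _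
  have hB1a : Cfsg.hermForm n F q B1 a = 0 := wc_a hF hp (lq_mem β a _)
  have hB1b : Cfsg.hermForm n F q B1 b = 0 := wc_b hp _
  rw [gb_eq a b (lq β a u), gb_eq a b (lq β a u1), ht, lb_tv_mulVec hF hp l, ← hA1, ← hA2, ← hB1,
    ← hB2, hermForm_add_left, hermForm_add_left, hermForm_smul_left, hp.b0, hA1b, hp.ab] at h1
  simp only [zero_add, mul_one] at h1
  set τ := tb hF hp β l with hτ
  have ea := congrArg (fun v => Cfsg.hermForm n F q v a) h1
  have eb := congrArg (fun v => Cfsg.hermForm n F q v b) h1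
  simp only [hermForm_add_left, hermForm_smul_left, hp.a0, hp.b0, hp.ab, hp.ba hF, hA1a, hA1b,
    hB1a, hB1b, mul_zero, mul_one, add_zero, zero_add] at ea eb
  have hμ0 : (μ : F) ≠ 0 := μ.ne_zero
  have hμe : 1 + τ * A2 = (μ : F) := ea
  have hT2 : T2 hF hp β w k = A2 := rfl
  have hT2' : T2 hF hp β (z⁻¹ • w) (z⁻¹ * k) = B2 := rfl
  refine ⟨?_, ?_, ?_⟩
  · rw [hT2, hμe]
    exact hμ0
  · apply Subtype.ext
    rw [hT2, hμe]
    change B1 = (μ : F)⁻¹ • A1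
    have h3 : A1 = (μ : F) • B1 := by
      have h4 : b + A1 + A2 • a + (τ * A2) • b = (1 + τ * A2) • b + A1 + A2 • a := by
        rw [add_smul, one_smul]
        abel
      rw [h4, hμe, eb, smul_add, smul_add, smul_smul] at h1
      exact add_left_cancel (add_right_cancel h1)
    rw [h3, smul_smul, inv_mul_cancel₀ hμ0, one_smul]
  · rw [hT2, hT2', hμe, eb, ← mul_assoc, inv_mul_cancel₀ hμ0, one_mul]

end Cfsg.Agent.Lib.Helper62.AutPSUT
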