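import Cfsg.Agent.Lib.Helper99.AutPSU.TBasic

set_option autoImplicit false

namespace Cfsg.Agent.Lib.Helper62.AutPSUT

open Matrix MatrixGroups Cfsg.Agent.Lib.Helper17 Cfsg.Agent.Lib.Helper99.AutPSU

variable {F : Type*} [Field F] [Fintype F] {n q : ℕ}

theorem smul_b_inj (hF : Fintype.card F = q ^ 2) {a b : Fin n → F} (hp : HP q a b) {x y : F}
    (h : x • b = y • b) : x = y := by
  have h1 : (x - y) • b = 0 := by rw [sub_smul, h, sub_self]
  exact sub_eq_zero.mp ((smul_eq_zero.mp h1).resolve_right (hp.b_ne hF))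

theorem lb_unique (hF : Fintype.card F = q ^ 2) {β : MulAut (Cfsg.PSU n F q)} {a b : Fin n → F}
    (hN : Nrm β a b) {x y : ↥(Cfsg.SU n F q)} (hx : x ∈ X q b) (hy : y ∈ X q b)
    (h : β (pm x) = pm y) : lb β b x = y :=
  Q_eq_of_pm_eq hF (hN.hp.b_ne hF) (X_le_Q hN.hp.b0 (lb_mem β b x)) (X_le_Q hN.hp.b0 hy)
    (by rw [← lb_spec hN hx, h])

theorem tv_add (hF : Fintype.card F = q ^ 2) {b : Fin n → F}
    (hb0 : Cfsg.hermForm n F q b b = 0) {l l' : F} (hl : l + l ^ q = 0) (hl' : l' + l' ^ q = 0) :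
    tv hF hb0 (l + l') = tv hF hb0 l * tv hF hb0 l' := by
  have hll : (l + l') + (l + l') ^ q = 0 := by
    rw [add_pow_q hF]
    linear_combination hl + hl'
  apply su_ext'
  intro v
  rw [mt_mul_mulVec, tv_mulVec hF hb0 hll, tv_mulVec hF hb0 hl', tv_mulVec hF hb0 hl,
    hermForm_add_left, hermForm_smul_left, hb0, mul_zero, add_zero, add_assoc, ← add_smul]
  congr 2
  ring

/-- RUNG TB -/
theorem t_tb (hF : Fintype.card F = q ^ 2) {β : MulAut (Cfsg.PSU n F q)} {a b : Fin n → F}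
    (hN : Nrm β a b) :
    (∀ l : F, l + l ^ q = 0 → tb hF hN.hp β l + (tb hF hN.hp β l) ^ q = 0) ∧
    (∀ l l' : F, l + l ^ q = 0 → l' + l' ^ q = 0 →
      tb hF hN.hp β (l + l') = tb hF hN.hp β l + tb hF hN.hp β l') ∧
    (∀ m : F, m + m ^ q = 0 → ∃ l : F, l + l ^ q = 0 ∧ tb hF hN.hp β l = m) := by
  have hp := hN.hp
  refine ⟨?_, ?_, ?_⟩
  · intro l _
    obtain ⟨m, hm, hmv⟩ := (mem_X_iff hF (hp.symm hF) _).1 (lb_mem β b (tv hF hp.b0 l))
    have h1 := hmv a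
    rw [lb_tv_mulVec hF hp l a, hp.ab, mul_one, mul_one] at h1
    have h2 := smul_b_inj hF hp (add_left_cancel h1)
    rw [h2]
    exact hm
  · intro l l' hl hl'
    have h1 : lb β b (tv hF hp.b0 (l + l')) = lb β b (tv hF hp.b0 l) * lb β b (tv hF hp.b0 l') := by
      apply lb_unique hF hN (tv_mem hF hp.b0 _)
        (Subgroup.mul_mem _ (lb_mem β b _) (lb_mem β b _))
      rw [tv_add hF hp.b0 hl hl', pm_mul, map_mul, lb_spec hN (tv_mem hF hp.b0 l),
        lb_spec hN (tv_mem hF hp.b0 l'), pm_mul]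
    have h2 := congrArg (fun g => mt g *ᵥ a) h1
    simp only [mt_mul_mulVec, lb_tv_mulVec hF hp, hp.ab, mul_one, hermForm_add_left,
      hermForm_smul_left, hp.b0, mul_zero, add_zero] at h2
    rw [add_assoc, ← add_smul] at h2
    have h3 := smul_b_inj hF hp (add_left_cancel h2)
    rw [h3]
    ring
  · intro m hm
    obtain ⟨x, hx, hxy⟩ := hN.Xb' (tv hF hp.b0 m) (tv_mem hF hp.b0 m)
    obtain ⟨l, hl, hlv⟩ := (mem_X_iff hF (hp.symm hF) x).1 hx
    have hxl : x = tv hF hp.b0 l := by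
      apply su_ext'
      intro v
      rw [hlv, tv_mulVec hF hp.b0 hl]
    refine ⟨l, hl, ?_⟩
    have h1 : lb β b (tv hF hp.b0 l) = tv hF hp.b0 m := by
      rw [← hxl]
      exact lb_unique hF hN hx (tv_mem hF hp.b0 m) hxy
    have h2 := congrArg (fun g => mt g *ᵥ a) h1
    simp only [lb_tv_mulVec hF hp, tv_mulVec hF hp.b0 hm, hp.ab, mul_one] at h2
    exact smul_b_inj hF hp (add_left_cancel h2)

end Cfsg.Agent.Lib.Helper62.AutPSUT
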