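import Mathlib
import Cfsg.Agent.S3775

set_option autoImplicit false

namespace Cfsg.Agent.Lib.Helper62.BG1212

open Subgroup Cfsg.Agent.S3775

theorem exists_invariant_cyclic_comm {A : Type*} [CommGroup A] [Finite A] {p : ℕ} [Fact p.Prime]
    (hA : IsPGroup p A) (XX : Subgroup (MulAut A)) (hXX : (Nat.card XX).Coprime p)
    (X : Subgroup A) (hX : Nat.card X = p) (hXinv : Inv XX X) (u : A)
    (hmax : ∀ w : A, w ^ orderOf u = 1) (hXu : X ≤ zpowers u) :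
    ∃ Y : Subgroup A, IsCyclic Y ∧ Inv XX Y ∧ X ≤ Y ∧ Nat.card Y = orderOf u := by
  have hp : p.Prime := Fact.out
  -- Step 0
  obtain ⟨k, hk⟩ := hA u
  obtain ⟨a, -, ha⟩ := (Nat.dvd_prime_pow hp).1 (orderOf_dvd_of_pow_eq_one hk)
  have hXne : X ≠ ⊥ := by
    rintro rfl
    rw [Subgroup.card_bot] at hX
    exact hp.one_lt.ne hX
  have ha0 : a ≠ 0 := by
    rintro rfl
    rw [pow_zero, orderOf_eq_one_iff] at ha
    apply hXne
    rw [ha, Subgroup.zpowers_one_eq_bot] at hXu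
    exact le_bot_iff.1 hXu
  obtain ⟨a', rfl⟩ := Nat.exists_eq_succ_of_ne_zero ha0
  rw [Nat.succ_eq_add_one] at ha
  rw [ha] at hmax
  let π : A →* A := powMonoidHom (p ^ a')
  have hπ : ∀ w, π w = w ^ p ^ a' := fun _ => rfl
  have hπx : ∀ (x : MulAut A) (w : A), π (x w) = x (π w) := by
    intro x w
    rw [hπ, hπ, map_pow]
  -- Step 1
  have hXtop : X ≤ (⊤ : Subgroup A).map π := by
    intro x hx
    obtain ⟨j, rfl⟩ := (mem_powers_iff_mem_zpowers).2 (hXu hx)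
    have hxp : (u ^ j) ^ p = 1 := by
      have h1 : (⟨u ^ j, hx⟩ : X) ^ p = 1 := by rw [← hX]; exact pow_card_eq_one'
      exact congrArg Subtype.val h1
    rw [← pow_mul] at hxp
    have h2 : p ^ (a' + 1) ∣ j * p := ha ▸ orderOf_dvd_of_pow_eq_one hxp
    rw [pow_succ] at h2
    obtain ⟨c, rfl⟩ := Nat.dvd_of_mul_dvd_mul_right hp.pos h2
    refine ⟨u ^ c, Subgroup.mem_top _, ?_⟩
    rw [hπ, ← pow_mul, mul_comm]
  -- Step 2
  let P : Subgroup A → Prop := fun W => Inv XX W ∧ X ≤ W.map π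
  have hne : Nonempty {W : Subgroup A // P W} :=
    ⟨⟨⊤, fun _ _ _ _ => Subgroup.mem_top _, hXtop⟩⟩
  obtain ⟨⟨W, hW1, hW2⟩, hmin⟩ :=
    Finite.exists_min (fun W : {W : Subgroup A // P W} => Nat.card W.1)
  have hminW : ∀ W' : Subgroup A, W' ≤ W → P W' → W' = W := by
    intro W' hle hP
    exact Subgroup.eq_of_le_of_card_ge hle (hmin ⟨W', hP⟩)
  -- Step 3
  have hWX : W.map π ≤ X := by
    have h1 : W ⊓ X.comap π = W := by
      apply hminW _ inf_le_left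
      refine ⟨?_, ?_⟩
      · intro x hx b hb
        refine ⟨hW1 x hx b hb.1, ?_⟩
        show π (x b) ∈ X
        rw [hπx]
        exact hXinv x hx _ hb.2
      · intro y hy
        obtain ⟨w, hw, rfl⟩ := hW2 hy
        exact ⟨w, ⟨hw, hy⟩, rfl⟩
    rintro _ ⟨w, hw, rfl⟩
    have : w ∈ W ⊓ X.comap π := by rw [h1]; exact hw
    exact this.2
  -- Step 4
  set W0 := W ⊓ π.ker with hW0
  set Wp := W.map (powMonoidHom p : A →* A) with hWp
  have hW0inv : Inv XX W0 := by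
    intro x hx b hb
    refine ⟨hW1 x hx b hb.1, ?_⟩
    show π (x b) = 1
    rw [hπx]
    have : π b = 1 := hb.2
    rw [this, map_one]
  have hWpinv : Inv XX Wp := by
    rintro x hx _ ⟨w, hw, rfl⟩
    refine ⟨x w, hW1 x hx w hw, ?_⟩
    show (x w) ^ p = x (w ^ p)
    rw [map_pow]
  have hWpW0 : Wp ≤ W0 := by
    rintro _ ⟨w, hw, rfl⟩
    refine ⟨W.pow_mem hw p, ?_⟩
    show π (w ^ p) = 1
    rw [hπ, ← pow_mul, mul_comm, ← pow_succ]
    exact hmax w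
  obtain ⟨E, hE1, hE2, hE3, hE4, hE5⟩ := maschke_rel hA XX hXX Wp W0 W hWpinv hW0inv hW1 hWpW0
    inf_le_left (fun a ha => ⟨a, ha, rfl⟩)
  have hEW : E = W := by
    apply hminW E hE3
    refine ⟨hE1, ?_⟩
    intro y hy
    obtain ⟨w, hw, rfl⟩ := hW2 hy
    rw [SetLike.mem_coe, ← hE5] at hw
    obtain ⟨e, he, w0, hw0, rfl⟩ := Subgroup.mem_sup.1 hw
    refine ⟨e, he, ?_⟩
    have : π w0 = 1 := hw0.2
    rw [map_mul, this, mul_one]
  have hW0Wp : W0 ≤ Wp := by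
    intro b hb
    apply hE4
    exact ⟨hEW ▸ hb.1, hb⟩
  -- Step 5
  obtain ⟨y, hy, hy1⟩ : ∃ y ∈ X, y ≠ 1 := by
    by_contra hcon
    push Not at hcon
    exact hXne ((Subgroup.eq_bot_iff_forall _).2 hcon)
  obtain ⟨w, hw, hwy⟩ := hW2 hy
  have hπw : π w ≠ 1 := hwy ▸ hy1
  have hstep : ∀ v ∈ W, ∃ j : ℕ, ∃ t ∈ W, v = w ^ j * t ^ p := by
    intro v hv
    have hv' : π v ∈ X := hWX ⟨v, hv, rfl⟩
    have hw' : π w ∈ X := hWX ⟨w, hw, rfl⟩
    have h1 : (⟨π v, hv'⟩ : X) ∈ Submonoid.powers (⟨π w, hw'⟩ : X) :=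
      mem_powers_of_prime_card hX (fun h => hπw (congrArg Subtype.val h))
    obtain ⟨j, hj⟩ := h1
    have hj' : (π w) ^ j = π v := congrArg Subtype.val hj
    have h2 : v * (w ^ j)⁻¹ ∈ W0 := by
      refine ⟨W.mul_mem hv (W.inv_mem (W.pow_mem hw j)), ?_⟩
      show π (v * (w ^ j)⁻¹) = 1
      rw [map_mul, map_inv, map_pow, hj', mul_inv_cancel]
    obtain ⟨t, ht, htp⟩ := hW0Wp h2
    refine ⟨j, t, ht, ?_⟩
    have : t ^ p = v * (w ^ j)⁻¹ := htp
    rw [this, mul_comm v, mul_inv_cancel_left]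
  have hiter : ∀ n : ℕ, ∀ v ∈ W, ∃ j : ℕ, ∃ t ∈ W, v = w ^ j * t ^ p ^ n := by
    intro n
    induction n with
    | zero =>
      intro v hv
      exact ⟨0, v, hv, by simp⟩
    | succ n ih =>
      intro v hv
      obtain ⟨j, t, ht, rfl⟩ := ih v hv
      obtain ⟨j', s, hs, rfl⟩ := hstep t ht
      refine ⟨j + j' * p ^ n, s, hs, ?_⟩
      rw [mul_pow, ← pow_mul, ← pow_mul, pow_add, pow_succ', mul_assoc]
  have hWz : W = zpowers w := by
    apply le_antisymm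
    · intro v hv
      obtain ⟨j, t, -, rfl⟩ := hiter (a' + 1) v hv
      rw [hmax t, mul_one]
      exact Subgroup.npow_mem_zpowers w j
    · exact (Subgroup.zpowers_le).2 hw
  refine ⟨W, ?_, hW1, ?_, ?_⟩
  · rw [hWz]; infer_instance
  · intro x hx
    obtain ⟨v, hv, rfl⟩ := hW2 hx
    exact W.pow_mem hv _
  · rw [hWz, Nat.card_zpowers, ha]
    exact orderOf_eq_prime_pow hπw (hmax w)

end Cfsg.Agent.Lib.Helper62.BG1212
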