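import Mathlib
import Cfsg.Agent.Lib.Helper62.BG1212CycInvA

set_option autoImplicit false

namespace Cfsg.Agent.Lib.Helper62.BG1212

open Subgroup Cfsg.Agent.S3775

universe u
variable {G : Type u} [Group G]

theorem le_normalizer_of_conj_mem {K Y : Subgroup G} (h : ∀ g ∈ K, ∀ a ∈ Y, g * a * g⁻¹ ∈ Y) :
    K ≤ normalizer (Y : Set G) := by
  intro g hg
  rw [Subgroup.mem_normalizer_iff]
  intro a
  refine ⟨h g hg a, fun ha => ?_⟩
  have := h g⁻¹ (K.inv_mem hg) _ ha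
  have e : g⁻¹ * (g * a * g⁻¹) * g⁻¹⁻¹ = a := by group
  rwa [e] at this

theorem exists_invariant_cyclic [Finite G] {p : ℕ} [Fact p.Prime] {S X K : Subgroup G}
    (hS : IsPGroup p S) (hSc : ∀ a ∈ S, ∀ b ∈ S, a * b = b * a)
    (hKS : K ≤ normalizer (S : Set G)) (hKp : (Nat.card K).Coprime p) (hX : Nat.card X = p)
    (hKX : K ≤ normalizer (X : Set G)) {u : G} (hu : u ∈ S)
    (hmax : ∀ w ∈ S, w ^ orderOf u = 1) (hXu : X ≤ zpowers u) :
    ∃ Y : Subgroup G, Y ≤ S ∧ IsCyclic Y ∧ K ≤ normalizer (Y : Set G) ∧ X ≤ Y ∧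
      Nat.card Y = orderOf u := by
  letI : CommGroup S :=
    { (inferInstance : Group S) with
      mul_comm := fun a b => Subtype.ext (hSc a a.2 b b.2) }
  have hXS : X ≤ S := hXu.trans ((Subgroup.zpowers_le).2 hu)
  let ψ : K →* MulAut S := S.normalizerMonoidHom.comp (Subgroup.inclusion hKS)
  have hψ : ∀ (g : K) (v : S), ((ψ g v : S) : G) = g * v * (g : G)⁻¹ := fun _ _ => rfl
  have hou : orderOf (⟨u, hu⟩ : S) = orderOf u := Subgroup.orderOf_mk u hu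
  obtain ⟨Y, hY1, hY2, hY3, hY4⟩ := exists_invariant_cyclic_comm (p := p) hS ψ.range
    (Nat.Coprime.coprime_dvd_left (Subgroup.card_range_dvd ψ) hKp) (X.subgroupOf S)
    ((Nat.card_congr (Subgroup.subgroupOfEquivOfLe hXS).toEquiv).trans hX)
    (by
      rintro _ ⟨k, rfl⟩ b hb
      rw [Subgroup.mem_subgroupOf] at hb ⊢
      rw [hψ]
      exact (Subgroup.mem_normalizer_iff.1 (hKX k.2) b).1 hb)
    ⟨u, hu⟩
    (by
      intro w
      apply Subtype.ext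
      rw [hou]
      exact hmax w w.2)
    (by
      intro x hx
      obtain ⟨j, hj⟩ := Subgroup.mem_zpowers_iff.1 (hXu (Subgroup.mem_subgroupOf.1 hx))
      exact Subgroup.mem_zpowers_iff.2 ⟨j, Subtype.ext hj⟩)
  refine ⟨Y.map S.subtype, Subgroup.map_subtype_le Y, ?_, ?_, ?_, ?_⟩
  · exact (Subgroup.equivMapOfInjective Y S.subtype S.subtype_injective).isCyclic.1 hY1
  · apply le_normalizer_of_conj_mem
    rintro k hk _ ⟨y, hy, rfl⟩
    exact ⟨ψ ⟨k, hk⟩ y, hY2 _ ⟨⟨k, hk⟩, rfl⟩ y hy, rfl⟩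
  · intro x hx
    exact ⟨⟨x, hXS hx⟩, hY3 (Subgroup.mem_subgroupOf.2 hx), rfl⟩
  · rw [Subgroup.card_map_of_injective S.subtype_injective, hY4, hou]

end Cfsg.Agent.Lib.Helper62.BG1212
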