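import Cfsg.Agent.Lib.Helper62.BalOMC2a
import Cfsg.Agent.Lib.Helper64.BalOMC2S

set_option autoImplicit false
set_option linter.unusedVariables false

/-! BAL-OM, rung C2. -/

namespace Cfsg.Agent.Lib.Helper62.BalOM

open QuadraticMap Module Cfsg.Agent.Lib.Helper49 Cfsg.Agent.Lib.Helper95
  Cfsg.Agent.Lib.Helper95.AutO Cfsg.Agent.Lib.Helper95.BalOM Cfsg.Agent.Lib.Helper64.BalOM

variable {k W : Type*} [Field k] [Fintype k] [AddCommGroup W] [Module k W] [FiniteDimensional k W]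
  {Q : QuadraticForm k W}

theorem caseII (h2 : (2 : k) ≠ 0) (hQ : (polarBilin Q).Nondegenerate) (hd : 6 ≤ finrank k W)
    (g : W ≃ₗ[k] W) (c : k) (hc : ¬ IsSquare c) (hgg : ∀ v, g (g v) = c • v)
    (hgQ : ∀ v, Q (g v) = c * Q v) : AHI Q g ∧ AR Q g := by
  obtain ⟨K, iK, iF, iM, iFD, Qt, emb, ω, P1, P2, P3, P4, P5, P6, P7, P8, P9, P10, P11⟩ :=
    exists_overfield h2 hQ g c hc hgg hgQ
  have hc0 : c ≠ 0 := by
    rintro rfl
    exact hc IsSquare.zero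
  have P3' : 3 ≤ finrank K W := by omega
  exact ⟨c2_AHI P1 P2 P3' P4 P5 P10 P11, c2_AR h2 hQ hc0 hgQ P1 P2 P3' P4 P5 P6 P7 P9 P10⟩

end Cfsg.Agent.Lib.Helper62.BalOM
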