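import Cfsg.Agent.Lib.Helper62.BalOMSQ
import Cfsg.Agent.Lib.Helper64.BalOMC1H
import Cfsg.Agent.Lib.Helper64.BalOMRR

set_option autoImplicit false
set_option linter.unusedSimpArgs false
set_option linter.unusedVariables false
set_option linter.unusedSectionVars false

/-! BAL-OM, rung C2, from the package of rung C2S (taken as hypotheses). -/

namespace Cfsg.Agent.Lib.Helper62.BalOM

open QuadraticMap Module Cfsg.Agent.Lib.Helper49 Cfsg.Agent.Lib.Helper95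
  Cfsg.Agent.Lib.Helper95.AutO Cfsg.Agent.Lib.Helper95.BalOM Cfsg.Agent.Lib.Helper64.BalOM

section top

variable {K W : Type*} [Field K] [AddCommGroup W] [Module K W] {Qt : QuadraticForm K W}

theorem c2_top (hQt : (polarBilin Qt).Nondegenerate) :
    (⊤ : Submodule K W) ⊓ LinearMap.BilinForm.orthogonal (polarBilin Qt) ⊤ = ⊥ := by
  rw [eq_bot_iff]
  intro x hx
  have h1 := (Submodule.mem_inf.1 hx).2
  rw [LinearMap.BilinForm.mem_orthogonal_iff] at h1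
  rw [Submodule.mem_bot]
  apply hQt.1 x
  intro y
  have := h1 y Submodule.mem_top
  have h2 : polar Qt y x = 0 := this
  show polar Qt x y = 0
  rw [polar_comm]
  exact h2

end top

variable {k W : Type*} [Field k] [Fintype k] [AddCommGroup W] [Module k W] [FiniteDimensional k W]
  {Q : QuadraticForm k W}
variable {K : Type*} [Field K] [Fintype K] [Module K W] [FiniteDimensional K W]
  {Qt : QuadraticForm K W} {emb : k →+* K} {ω : K} {g : W ≃ₗ[k] W} {c : k}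

theorem c2_comm_g (P5 : ∀ v : W, ω • v = g v) {x : ↥(OG Q)} {x' : ↥(OG Qt)}
    (h : ∀ v, x.1 v = x'.1 v) (v : W) : x.1 (g v) = g (x.1 v) := by
  rw [h, h, ← P5, ← P5, map_smul]

theorem c2_inv {x : ↥(OG Q)} {x' : ↥(OG Qt)} (h : ∀ v, x.1 v = x'.1 v) (v : W) :
    (x⁻¹).1 v = (x'⁻¹).1 v := by
  have h1 : x'.1 ((x⁻¹).1 v) = v := by rw [← h, OG_apply_inv_apply]
  rw [← h1, OG_inv_apply_apply, h1]

theorem c2_AHI (P1 : (2 : K) ≠ 0) (P2 : (polarBilin Qt).Nondegenerate) (P3 : 3 ≤ finrank K W)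
    (P4 : ∀ (s : k) (v : W), emb s • v = s • v) (P5 : ∀ v : W, ω • v = g v)
    (P10 : ∀ x' : ↥(OG Qt), ∃ x : ↥(OG Q), ∀ v, x.1 v = x'.1 v)
    (P11 : ∀ x : ↥(OG Q), (∀ v, x.1 (g v) = g (x.1 v)) → ∃ x' : ↥(OG Qt), ∀ v, x'.1 v = x.1 v) :
    AHI Q g := by
  intro L hLg hLn hLi x hx
  let L' : Subgroup ↥(OG Qt) :=
    { carrier := {x' | ∃ x ∈ L, ∀ v, x.1 v = x'.1 v}
      one_mem' := ⟨1, L.one_mem, fun v => rfl⟩
      mul_mem' := by
        rintro a b ⟨a₀, ha₀, ha⟩ ⟨b₀, hb₀, hb⟩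
        refine ⟨a₀ * b₀, L.mul_mem ha₀ hb₀, fun v => ?_⟩
        simp only [Subgroup.coe_mul, LinearEquiv.mul_apply]
        rw [hb, ha]
      inv_mem' := by
        rintro a ⟨a₀, ha₀, ha⟩
        exact ⟨a₀⁻¹, L.inv_mem ha₀, c2_inv ha⟩ }
  have hnorm : ∀ t' : ↥(OG Qt), ∀ x' ∈ L', t' * x' * t'⁻¹ ∈ L' := by
    rintro t' x' ⟨x₀, hx₀, hx'⟩
    obtain ⟨t, ht⟩ := P10 t'
    refine ⟨t * x₀ * t⁻¹, hLn t (c2_comm_g P5 ht) x₀ hx₀, fun v => ?_⟩
    simp only [Subgroup.coe_mul, LinearEquiv.mul_apply]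
    rw [c2_inv ht, hx', ht]
  have hX := c2_top P2
  have hd : 3 ≤ finrank K ↥(⊤ : Submodule K W) := by rw [finrank_top]; exact P3
  have hinv : ∀ ν ∈ L', ν * ν = 1 → ∃ z : K, ∀ v ∈ (⊤ : Submodule K W), ν.1 v = z • v := by
    rintro ν' ⟨ν, hν, hνν'⟩ h1
    have h2 : ν * ν = 1 := by
      apply OG_ext
      intro v
      have h3 : (ν' * ν').1 v = v := by rw [h1]; rfl
      simp only [Subgroup.coe_mul, LinearEquiv.mul_apply] at h3 ⊢
      rw [hνν', hνν', h3]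
      rfl
    obtain ⟨a, ha⟩ := hLi ν hν h2
    exact ⟨emb a, fun v _ => by rw [← hνν', ha, P4]⟩
  obtain ⟨x', hx'⟩ := P11 x (hLg x hx)
  have hx'L : x' ∈ L' := ⟨x, hx, fun v => (hx' v).symm⟩
  obtain ⟨z, hz⟩ := rs_step3 P1 ⊤ hX hd x' (rs_step2 ⊤ hX L' (fun _ _ _ _ => Submodule.mem_top)
    (fun u _ y hy => hnorm _ y hy)
    (rs_step1 P1 ⊤ hX hd L' (fun _ _ _ _ => Submodule.mem_top) (fun e _ w _ y hy => hnorm _ y hy)
      hinv) x' hx'L)
  have h4 := c1h_scalar_sq ⊤ hX x' hz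
  apply OG_ext
  intro v
  simp only [Subgroup.coe_mul, LinearEquiv.mul_apply]
  rw [← hx', ← hx', h4 v Submodule.mem_top]
  rfl

theorem c2_AR (h2 : (2 : k) ≠ 0) (hQ : (polarBilin Q).Nondegenerate) (hc0 : c ≠ 0)
    (hgQ : ∀ v, Q (g v) = c * Q v)
    (P1 : (2 : K) ≠ 0) (P2 : (polarBilin Qt).Nondegenerate) (P3 : 3 ≤ finrank K W)
    (P4 : ∀ (s : k) (v : W), emb s • v = s • v) (P5 : ∀ v : W, ω • v = g v)
    (P6 : ∀ z : K, ∃ s t : k, z = emb s + emb t * ω)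
    (P7 : ∀ s t : k, emb s + emb t * ω = 0 → s = 0 ∧ t = 0)
    (P9 : ∀ v, Qt v = emb (Q v) + emb (polar Q v (g v) / (2 * c)) * ω)
    (P10 : ∀ x' : ↥(OG Qt), ∃ x : ↥(OG Q), ∀ v, x.1 v = x'.1 v) : AR Q g := by
  intro Ψ τ e he hadd hsm hΨQ hcomm
  have hX := c2_top P2
  have hd : 3 ≤ finrank K ↥(⊤ : Submodule K W) := by rw [finrank_top]; exact P3
  have hsi : ∀ e' ∈ (⊤ : Submodule K W), ∀ w' ∈ (⊤ : Submodule K W), Qt e' = 0 →
      polar Qt e' w' = 0 → ∀ x, Ψ ((si Qt e' w').1 x) = (si Qt e' w').1 (Ψ x) := by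
    intro e' _ w' _ he' hw' x
    have hw2 : polar Qt e' ((2 : K)⁻¹ • w') = 0 := by rw [polar_smul_right, hw', smul_zero]
    have e1 : si Qt e' w' = si Qt e' ((2 : K)⁻¹ • w') * si Qt e' ((2 : K)⁻¹ • w') := by
      rw [si_mul he' hw2 hw2, ← add_smul]
      congr 1
      have : (2 : K)⁻¹ + (2 : K)⁻¹ = 1 := by field_simp; norm_num
      rw [this, one_smul]
    obtain ⟨u, hu⟩ := P10 (si Qt e' ((2 : K)⁻¹ • w'))
    have hcu := hcomm (u * u) (sq_mem_commutator h2 hQ u) (fun v => by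
      simp only [Subgroup.coe_mul, LinearEquiv.mul_apply]
      rw [c2_comm_g P5 hu, c2_comm_g P5 hu]) x
    rw [e1]
    simp only [Subgroup.coe_mul, LinearEquiv.mul_apply] at hcu ⊢
    simp only [hu] at hcu
    exact hcu
  obtain ⟨z, hz⟩ := rr P1 ⊤ hX hd Ψ hadd hsi
  obtain ⟨s, t, rfl⟩ := P6 z
  have hΨ : ∀ v, Ψ v = s • v + t • g v := by
    intro v
    rw [hz v Submodule.mem_top, add_smul, mul_smul, P5, P4, P4]
  obtain ⟨c₀, -, hc₀0, hQc₀⟩ := xg_sing (Q := Qt) ⊤ hd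
  obtain ⟨d₀, -, hQd₀, hcd₀⟩ := xg_partner ⊤ hX Submodule.mem_top hc₀0 hQc₀
  obtain ⟨v₀, -, hv₀⟩ := c1_nonsing (Q := Q) ⊤ (c2_top hQ) Submodule.mem_top hc₀0
  have hΨv₀ : Ψ v₀ ≠ 0 := by
    intro h
    have h1 := hΨQ v₀
    rw [h, QuadraticMap.map_zero] at h1
    rcases mul_eq_zero.1 h1.symm with h3 | h3
    · exact he h3
    · exact hv₀ ((map_eq_zero τ).1 h3)
  have hτ : τ = 1 := by
    ext a
    have h1 := hsm a v₀
    have h3 : Ψ (a • v₀) = a • Ψ v₀ := by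
      rw [hΨ, hΨ, map_smul]
      module
    rw [h3] at h1
    have h4 : (τ a - a) • Ψ v₀ = 0 := by rw [sub_smul, ← h1, sub_self]
    exact sub_eq_zero.1 ((smul_eq_zero.1 h4).resolve_right hΨv₀)
  refine ⟨hτ, ?_⟩
  set v := c₀ + ω • d₀ with hv
  have hQtv : Qt v = ω := by
    rw [hv, qmap_add, QuadraticMap.map_smul, hQc₀, hQd₀, polar_smul_right, hcd₀]
    simp
  have h9 := P9 v
  rw [hQtv] at h9
  obtain ⟨hQv, hB⟩ := P7 (Q v) (polar Q v (g v) / (2 * c) - 1) (by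
    rw [map_sub, map_one, sub_mul, one_mul, ← add_sub_assoc, ← h9, sub_self])
  have h2c : (2 * c : k) ≠ 0 := mul_ne_zero h2 hc0
  have hB' : polar Q v (g v) = 2 * c := by
    have := sub_eq_zero.1 hB
    rwa [div_eq_one_iff_eq h2c] at this
  have h5 := hΨQ v
  rw [hΨ, hQv, map_zero, mul_zero, qmap_add, QuadraticMap.map_smul, QuadraticMap.map_smul, hgQ,
    hQv, polar_smul_left, polar_smul_right, hB'] at h5
  simp only [smul_eq_mul, mul_zero, zero_add] at h5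
  have h6 : s * t = 0 := by
    have : s * t * (2 * c) = 0 := by rw [← h5]; ring
    exact (mul_eq_zero.1 this).resolve_right h2c
  rcases mul_eq_zero.1 h6 with h7 | h7
  · exact ⟨t, Or.inr (fun v => by rw [hΨ, h7, zero_smul, zero_add])⟩
  · exact ⟨s, Or.inl (fun v => by rw [hΨ, h7, zero_smul, add_zero])⟩

end Cfsg.Agent.Lib.Helper62.BalOM
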