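import Cfsg.Agent.Lib.Helper62.BalOMT2B

set_option autoImplicit false

/-! BAL-OM, rung SQ. -/

namespace Cfsg.Agent.Lib.Helper62.BalOM

open QuadraticMap Module Matrix Cfsg.Agent.Lib.Helper49 Cfsg.Agent.Lib.Helper95
  Cfsg.Agent.Lib.Helper95.AutO

universe u v

theorem sq_mem_commutator {k : Type u} {W : Type v} [Field k] [Fintype k] [AddCommGroup W]
    [Module k W] [FiniteDimensional k W] {Q : QuadraticForm k W} (h2 : (2 : k) ≠ 0)
    (hQ : (polarBilin Q).Nondegenerate) (z : ↥(OG Q)) : z * z ∈ commutator ↥(OG Q) := by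
  apply t2_sq_mem_commutator Q hQ (Or.inl ?_) z
  intro h
  apply h2
  have h1 : ((Fintype.card k : ℕ) : k) = 0 := Nat.cast_card_eq_zero k
  rw [h] at h1
  exact_mod_cast h1

end Cfsg.Agent.Lib.Helper62.BalOM
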