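import Cfsg.Agent.Lib.Helper62.BalOMT2B

set_option autoImplicit false
set_option linter.unusedSimpArgs false
set_option linter.unusedVariables false
set_option linter.unusedSectionVars false

/-! BAL-OM, rung T2, part B2: `E` is normal in the fixed points, with quotient of exponent 4. -/

namespace Cfsg.Agent.Lib.Helper62.BalOM

open QuadraticMap Module Matrix Cfsg.Agent.Lib.Helper49 Cfsg.Agent.Lib.Helper95
  Cfsg.Agent.Lib.Helper95.AutO Cfsg.Agent.Lib.Helper29.AutO Cfsg.Agent.Lib.Helper95.BalOM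
  Cfsg.Agent.Lib.Helper59.OMinus Cfsg.Agent.Lib.Helper6.OA
open Cfsg.Agent.Lib.Helper18 (mem_iso_iff)
open scoped MatrixGroups

variable {ι : Type} [Fintype ι] [DecidableEq ι] {F : Type*} [Field F] [Fintype F]
  {F₀ : Type*} [Field F₀] [Fintype F₀] [Algebra F₀ F]
variable {Q₀ : QuadraticForm F₀ (ι → F₀)} {Q : QuadraticForm F (ι → F)}
variable (hc : ∀ v : ι → F₀, Q (rat F v) = algebraMap F₀ F (Q₀ v))

theorem map_eq_smul_of_fix (hQ : (polarBilin Q).Nondegenerate) (hd : 7 ≤ Fintype.card ι)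
    (σ : F ≃+* F) (hσ : ∀ v : ι → F, Q (fun i => σ (v i)) = σ (Q v)) (s : ↥(Cfsg.Omega F ⇑Q))
    (h : (QuotientGroup.mk s : Cfsg.POmega F ⇑Q) ∈ fixS (fl ⇑Q σ hσ)) :
    ∃ c : F, c * c = 1 ∧ ((s.1.1 : GL ι F) : Matrix ι ι F).map σ =
      c • ((s.1.1 : GL ι F) : Matrix ι ι F) := by
  obtain ⟨c, hc1, h3⟩ := cGam_fix_aux Q hQ hd (fs ⇑Q σ hσ) s h
  refine ⟨c, hc1, ?_⟩
  apply Matrix.mulVec_injective
  funext v
  have := h3 v
  rw [actGL_apply] at this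
  simp only [fs, SemidirectProduct.left_inr, SemidirectProduct.right_inr, one_mul, inv_one,
    mul_one, coe_glMap] at this
  rw [this, Matrix.smul_mulVec]

/-- the fixed points normalise the image of `Ω(Q₀)` -/
theorem conj_bcOm (σ : F ≃+* F) (hfix : ∀ x, σ x = x ↔ x ∈ Set.range (algebraMap F₀ F))
    (s : ↥(Cfsg.Omega F ⇑Q)) {c : F} (hc0 : c ≠ 0)
    (hs : ((s.1.1 : GL ι F) : Matrix ι ι F).map σ = c • ((s.1.1 : GL ι F) : Matrix ι ι F))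
    (s₀ : ↥(Cfsg.Omega F₀ ⇑Q₀)) :
    ∃ s₁ : ↥(Cfsg.Omega F₀ ⇑Q₀), bcOm hc s₁ = s * bcOm hc s₀ * s⁻¹ := by
  set R : Subgroup ↥(Cfsg.isometryGroup F ⇑Q) := (bcO hc).range with hR
  have h1 : R.map (MulAut.conj s.1).toMonoidHom ≤ R := by
    rintro _ ⟨_, ⟨g₀, rfl⟩, rfl⟩
    have hg : (((bcO hc g₀).1 : GL ι F) : Matrix ι ι F).map σ =
        (((bcO hc g₀).1 : GL ι F) : Matrix ι ι F) := by
      rw [bcO_coe]
      ext i k
      exact (hfix _).2 ⟨_, rfl⟩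
    have h2 := conj_fixed σ hc0 hs hg
    obtain ⟨g₁, hg₁⟩ := exists_descO hc σ hfix (s.1 * bcO hc g₀ * s.1⁻¹) h2
    exact ⟨g₁, hg₁⟩
  have h2 : (commutator ↥(Cfsg.isometryGroup F₀ ⇑Q₀)).map (bcO hc) = ⁅R, R⁆ := by
    rw [commutator_def, Subgroup.map_commutator, hR, MonoidHom.range_eq_map]
  have h3 : (⁅R, R⁆).map (MulAut.conj s.1).toMonoidHom ≤ ⁅R, R⁆ := by
    rw [Subgroup.map_commutator]
    exact Subgroup.commutator_mono h1 h1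
  have h4 : bcO hc s₀.1 ∈ ⁅R, R⁆ := by
    rw [← h2]
    exact ⟨s₀.1, s₀.2, rfl⟩
  have h5 : s.1 * bcO hc s₀.1 * s.1⁻¹ ∈ ⁅R, R⁆ := h3 ⟨_, h4, rfl⟩
  rw [← h2] at h5
  obtain ⟨y, hy, hy'⟩ := h5
  exact ⟨⟨y, hy⟩, Subtype.ext hy'⟩

theorem conj_mem_E (hQ : (polarBilin Q).Nondegenerate) (hd : 7 ≤ Fintype.card ι)
    (σ : F ≃+* F) (hσ : ∀ v : ι → F, Q (fun i => σ (v i)) = σ (Q v))
    (hfix : ∀ x, σ x = x ↔ x ∈ Set.range (algebraMap F₀ F))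
    (k : Cfsg.POmega F ⇑Q) (hk : k ∈ fixS (fl ⇑Q σ hσ)) (e : Cfsg.POmega F ⇑Q)
    (he : e ∈ (th hc).range) : k * e * k⁻¹ ∈ (th hc).range := by
  obtain ⟨s, rfl⟩ := QuotientGroup.mk_surjective k
  obtain ⟨s₀, rfl⟩ := he
  obtain ⟨c, hc1, hs⟩ := map_eq_smul_of_fix hQ hd σ hσ s hk
  obtain ⟨s₁, hs₁⟩ := conj_bcOm hc σ hfix s (left_ne_zero_of_mul_eq_one hc1) hs s₀
  refine ⟨s₁, ?_⟩
  rw [th_apply, hs₁, th_apply]
  rfl

/-- fourth powers of fixed points lie in `E` -/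
theorem pow_four_mem_E (hQ : (polarBilin Q).Nondegenerate) (hQ₀ : (polarBilin Q₀).Nondegenerate)
    (hd : 7 ≤ Fintype.card ι)
    (σ : F ≃+* F) (hσ : ∀ v : ι → F, Q (fun i => σ (v i)) = σ (Q v))
    (hfix : ∀ x, σ x = x ↔ x ∈ Set.range (algebraMap F₀ F))
    (k : Cfsg.POmega F ⇑Q) (hk : k ∈ fixS (fl ⇑Q σ hσ)) : k ^ 4 ∈ (th hc).range := by
  obtain ⟨s, rfl⟩ := QuotientGroup.mk_surjective k
  obtain ⟨c, hc1, hs⟩ := map_eq_smul_of_fix hQ hd σ hσ s hk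
  have h1 : (((s.1 * s.1 : ↥(Cfsg.isometryGroup F ⇑Q)).1 : GL ι F) : Matrix ι ι F).map σ =
      (((s.1 * s.1 : ↥(Cfsg.isometryGroup F ⇑Q)).1 : GL ι F) : Matrix ι ι F) := by
    rw [Subgroup.coe_mul, Units.val_mul, Matrix.map_mul, hs, Matrix.smul_mul, Matrix.mul_smul,
      smul_smul, hc1, one_smul]
  obtain ⟨g₀, hg₀⟩ := exists_descO hc σ hfix (s.1 * s.1) h1
  refine ⟨⟨g₀ * g₀, t2_sq_mem_Omega Q₀ hQ₀ hd g₀⟩, ?_⟩
  rw [th_apply]
  have h2 : bcOm hc ⟨g₀ * g₀, t2_sq_mem_Omega Q₀ hQ₀ hd g₀⟩ = s ^ 4 := by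
    apply Subtype.ext
    rw [bcOm_coe]
    show bcO hc (g₀ * g₀) = _
    rw [map_mul, hg₀, Subgroup.coe_pow]
    simp only [pow_succ, pow_zero, one_mul, mul_assoc]
  rw [h2]
  rfl

theorem dvd_card_E (hQ : (polarBilin Q).Nondegenerate) (hQ₀ : (polarBilin Q₀).Nondegenerate)
    (hd : 7 ≤ Fintype.card ι)
    (σ : F ≃+* F) (hσ : ∀ v : ι → F, Q (fun i => σ (v i)) = σ (Q v))
    (hfix : ∀ x, σ x = x ↔ x ∈ Set.range (algebraMap F₀ F)) {p : ℕ} [hp : Fact p.Prime]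
    (hp2 : p ≠ 2) (hdvd : p ∣ Nat.card ↥(fixS (fl ⇑Q σ hσ))) :
    p ∣ Nat.card ↥((th hc).range) := by
  obtain ⟨k, hk⟩ := exists_prime_orderOf_dvd_card' (G := ↥(fixS (fl ⇑Q σ hσ))) p hdvd
  have hk1 : orderOf k.1 = p := by rw [← hk, Subgroup.orderOf_coe]
  have h4 := pow_four_mem_E hc hQ hQ₀ hd σ hσ hfix k.1 k.2
  have hcop : Nat.Coprime (orderOf k.1) 4 := by
    rw [hk1]
    have : Nat.Coprime p 2 := (Nat.coprime_primes hp.out Nat.prime_two).2 hp2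
    exact Nat.Coprime.pow_right 2 this
  have h5 : orderOf (k.1 ^ 4) = p := by rw [hcop.orderOf_pow, hk1]
  have h6 := orderOf_dvd_natCard (⟨k.1 ^ 4, h4⟩ : ↥((th hc).range))
  rwa [Subgroup.orderOf_mk, h5] at h6

theorem rat_smul' (c : F₀) (v : ι → F₀) : rat F (c • v) = algebraMap F₀ F c • rat F v := by
  funext i
  simp [rat]

theorem rat_sub' (u v : ι → F₀) : rat F (u - v) = rat F u - rat F v := by
  funext i
  simp [rat]

/-- rational Siegel maps come from `Ω(Q₀)` -/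
theorem sO_rat (hQ : (polarBilin Q).Nondegenerate) (hQ₀ : (polarBilin Q₀).Nondegenerate)
    (hd : 7 ≤ Fintype.card ι) {e₀ w₀ : ι → F₀} (he : Q₀ e₀ = 0) (hw : polar Q₀ e₀ w₀ = 0) :
    bcOm hc (sO Q₀ hQ₀ hd e₀ w₀) = sO Q hQ hd (rat F e₀) (rat F w₀) := by
  apply Subtype.ext
  apply Subtype.ext
  apply Units.ext
  apply Matrix.ext_of_mulVec_single
  intro i
  rw [bcOm_coe, bcO_coe, ← Cfsg.Agent.Lib.Helper6.OA.rat_single (F := F₀) (K := F), map_mulVec_rat, sO_mulVec, sO_mulVec,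
    si_apply he hw, si_apply (by rw [hc, he, map_zero]) (by rw [polar_rat hc, hw, map_zero]),
    polar_rat hc, polar_rat hc, hc, rat_sub', rat_sub', rat_add, rat_smul', rat_smul', rat_smul',
    map_mul]

end Cfsg.Agent.Lib.Helper62.BalOM
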