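import Cfsg.Agent.Lib.Helper62.BalOMT2A2
import Cfsg.Agent.Lib.Helper62.BalOMT2B2
import Cfsg.Agent.Lib.Helper59.OMinus.Core

set_option autoImplicit false
set_option linter.unusedSimpArgs false
set_option linter.unusedVariables false
set_option linter.unusedSectionVars false

/-! BAL-OM, rung T2: the field automorphism case. -/

namespace Cfsg.Agent.Lib.Helper62.BalOM

open QuadraticMap Module Matrix Cfsg.Agent.Lib.Helper49 Cfsg.Agent.Lib.Helper95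
  Cfsg.Agent.Lib.Helper95.AutO Cfsg.Agent.Lib.Helper29.AutO Cfsg.Agent.Lib.Helper95.BalOM
  Cfsg.Agent.Lib.Helper59.OMinus Cfsg.Agent.Lib.Helper6.OA
open scoped MatrixGroups

variable {m : ℕ} {F : Type*} [Field F] [Fintype F]

theorem t2_HI_gen {ι : Type} [Fintype ι] [DecidableEq ι] {F₀ : Type*} [Field F₀] [Fintype F₀]
    [Algebra F₀ F] {Q₀ : QuadraticForm F₀ (ι → F₀)} {Q : QuadraticForm F (ι → F)}
    (hc : ∀ v : ι → F₀, Q (rat F v) = algebraMap F₀ F (Q₀ v))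
    (hQ : (polarBilin Q).Nondegenerate) (hQ₀ : (polarBilin Q₀).Nondegenerate)
    (hd : 7 ≤ Fintype.card ι)
    (σ : F ≃+* F) (hfix : ∀ x, σ x = x ↔ x ∈ Set.range (algebraMap F₀ F))
    (hσ : ∀ v : ι → F, Q (fun i => σ (v i)) = σ (Q v))
    (hkey : ∀ x : ↥(GamO ⇑Q), (∀ e w, Rat σ e → Rat σ w → Q e = 0 → polar Q e w = 0 →
      cGam ⇑Q x (QuotientGroup.mk (sO Q hQ hd e w)) = QuotientGroup.mk (sO Q hQ hd e w)) →
      ∃ μ : F, ∀ v, semiFun x.1 v = μ • (fun i => x.1.right (v i)))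
    {p : ℕ} [hp : Fact p.Prime] (hp2 : p ≠ 2)
    (hdvd : p ∣ Nat.card ↥(fixS (fl ⇑Q σ hσ))) : HI p (fl ⇑Q σ hσ) := by
  intro M hM hcop hinv
  set E : Subgroup (Cfsg.POmega F ⇑Q) := (th hc).range with hE
  have hEfix : E ≤ fixS (fl ⇑Q σ hσ) := by
    rintro _ ⟨s₀, rfl⟩
    exact th_mem_fixS hc σ hσ (fun x => (hfix _).2 ⟨x, rfl⟩) s₀
  have hMn : ∀ g ∈ fixS (fl ⇑Q σ hσ), ∀ k ∈ M, g * k * g⁻¹ ∈ M := by
    intro g hg k hk
    have := hinv (MulAut.conj g)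
      (Subgroup.mem_centralizer_singleton_iff.1 (conj_mem_centralizer hg)) k hk
    rwa [MulAut.conj_apply] at this
  have hME : M ⊓ E = ⊥ := by
    rcases E_simple hc hQ₀ hd (M ⊓ E) inf_le_right (fun e he n hn =>
      Subgroup.mem_inf.2 ⟨hMn e (hEfix he) n (Subgroup.mem_inf.1 hn).1,
        E.mul_mem (E.mul_mem he (Subgroup.mem_inf.1 hn).2) (E.inv_mem he)⟩) with h | h
    · exact h
    · exfalso
      have hle : E ≤ M := by rw [hE, ← h]; exact inf_le_left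
      have h1 := dvd_card_E hc hQ hQ₀ hd σ hσ hfix hp2 hdvd
      have h2 : Nat.card E ∣ Nat.card M := Subgroup.card_dvd_of_le hle
      exact (Nat.Prime.coprime_iff_not_dvd hp.out).1 hcop.symm (h1.trans h2)
  rw [eq_bot_iff]
  intro k hk
  obtain ⟨s, rfl⟩ := QuotientGroup.mk_surjective k
  have hx : ∀ e w, Rat σ e → Rat σ w → Q e = 0 → polar Q e w = 0 →
      cGam ⇑Q (isoIncl ⇑Q s.1) (QuotientGroup.mk (sO Q hQ hd e w)) =
        QuotientGroup.mk (sO Q hQ hd e w) := by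
    intro e w hre hrw he hw
    rw [cGam_isoIncl, MulAut.conj_apply]
    have h1 : ∀ i, ∃ y, algebraMap F₀ F y = e i := fun i => (hfix _).1 (hre i)
    have h2 : ∀ i, ∃ y, algebraMap F₀ F y = w i := fun i => (hfix _).1 (hrw i)
    choose e₀ he₀ using h1
    choose w₀ hw₀ using h2
    have ee : rat F e₀ = e := funext he₀
    have ew : rat F w₀ = w := funext hw₀
    have he' : Q₀ e₀ = 0 := by
      apply (algebraMap F₀ F).injective
      rw [← hc, ee, he, map_zero]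
    have hw' : polar Q₀ e₀ w₀ = 0 := by
      apply (algebraMap F₀ F).injective
      rw [← polar_rat hc, ee, ew, hw, map_zero]
    have ht : (QuotientGroup.mk (sO Q hQ hd e w) : Cfsg.POmega F ⇑Q) ∈ E := by
      refine ⟨sO Q₀ hQ₀ hd e₀ w₀, ?_⟩
      rw [th_apply, sO_rat hc hQ hQ₀ hd he' hw', ee, ew]
    set t : Cfsg.POmega F ⇑Q := QuotientGroup.mk (sO Q hQ hd e w) with htdef
    set k : Cfsg.POmega F ⇑Q := QuotientGroup.mk s with hkdef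
    have hcm : k * t * k⁻¹ * t⁻¹ ∈ M ⊓ E := by
      refine Subgroup.mem_inf.2 ⟨?_, ?_⟩
      · have h3 := hMn t (hEfix ht) k⁻¹ (M.inv_mem hk)
        have h4 := M.mul_mem hk h3
        have e5 : k * (t * k⁻¹ * t⁻¹) = k * t * k⁻¹ * t⁻¹ := by group
        rwa [e5] at h4
      · exact E.mul_mem (conj_mem_E hc hQ hd σ hσ hfix k (hM hk) t ht) (E.inv_mem ht)
    rw [hME, Subgroup.mem_bot] at hcm
    exact mul_inv_eq_one.1 hcm
  obtain ⟨μ, h2⟩ := hkey (isoIncl ⇑Q s.1) hx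
  rw [Subgroup.mem_bot]
  apply mk_eq_one_of_scalar Q s μ
  intro v
  have h3 := h2 v
  have h4 : semiFun (isoIncl ⇑Q s.1).1 v = ((s.1.1 : GL ι F) : Matrix ι ι F) *ᵥ v :=
    semiFun_inl _ _
  rw [h4] at h3
  rw [h3]
  rfl

theorem t2_HI_alg {F₀ : Type*} [Field F₀] [Fintype F₀] [Algebra F₀ F] (hm : 3 ≤ m) (a₀ b₀ : F₀)
    (hab : ∀ z₁ z₂ : F, z₁ ^ 2 + algebraMap F₀ F a₀ * z₁ * z₂ + algebraMap F₀ F b₀ * z₂ ^ 2 = 0 →
      z₁ = 0 ∧ z₂ = 0)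
    (σ : F ≃+* F) (hfix : ∀ x, σ x = x ↔ x ∈ Set.range (algebraMap F₀ F))
    (hσ : ∀ v : Idx m → F,
      minusQF m F (algebraMap F₀ F a₀) (algebraMap F₀ F b₀) (fun i => σ (v i)) =
        σ (minusQF m F (algebraMap F₀ F a₀) (algebraMap F₀ F b₀) v))
    {p : ℕ} [hp : Fact p.Prime] (hp2 : p ≠ 2)
    (hdvd : p ∣ Nat.card ↥(fixS (fl ⇑(minusQF m F (algebraMap F₀ F a₀) (algebraMap F₀ F b₀)) σ hσ))) :
    HI p (fl ⇑(minusQF m F (algebraMap F₀ F a₀) (algebraMap F₀ F b₀)) σ hσ) :=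
  t2_HI_gen (minus_compat (m := m) (a := a₀) (b := b₀) F) (minus_nd (m := m) hab)
    (minus_nd (m := m) (aniso_descend a₀ b₀ hab)) (t2_card (m := m) hm) σ hfix hσ
    (fun x hx => by
      obtain ⟨-, μ, -, h2⟩ := t2_key _ _ hm (minus_nd (m := m) hab) (t2_card (m := m) hm) σ x hx
      exact ⟨μ, h2⟩) hp2 hdvd

theorem t2_field_alg {F₀ : Type*} [Field F₀] [Fintype F₀] [Algebra F₀ F] (hm : 3 ≤ m) (a b : F)
    (hab : ∀ z₁ z₂ : F, z₁ ^ 2 + a * z₁ * z₂ + b * z₂ ^ 2 = 0 → z₁ = 0 ∧ z₂ = 0)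
    (σ : F ≃+* F) (hfix : ∀ x, σ x = x ↔ x ∈ Set.range (algebraMap F₀ F))
    (ha : σ a = a) (hb : σ b = b)
    (hσ : ∀ v : Idx m → F, minusQF m F a b (fun i => σ (v i)) = σ (minusQF m F a b v))
    {p : ℕ} [hp : Fact p.Prime] (hp2 : p ≠ 2)
    (hdvd : p ∣ Nat.card ↥(fixS (fl ⇑(minusQF m F a b) σ hσ))) :
    HI p (fl ⇑(minusQF m F a b) σ hσ) := by
  obtain ⟨a₀, ha₀⟩ := (hfix a).1 ha
  obtain ⟨b₀, hb₀⟩ := (hfix b).1 hb
  subst ha₀ hb₀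
  exact t2_HI_alg hm a₀ b₀ hab σ hfix hσ hp2 hdvd

/-- T2 -/
theorem field_case {r : ℕ} [Fact r.Prime] [CharP F r] (hm : 3 ≤ m) (a b : F)
    (hab : ∀ z₁ z₂ : F, z₁ ^ 2 + a * z₁ * z₂ + b * z₂ ^ 2 = 0 → z₁ = 0 ∧ z₂ = 0)
    (σ : F ≃+* F) (hσ : σ ≠ RingEquiv.refl F) (ha : σ a = a) (hb : σ b = b)
    (φ : MulAut (Cfsg.POmega F (Cfsg.quadFormMinus m F a b)))
    (hφ : Cfsg.IsFieldAutPOmegaOf (Cfsg.quadFormMinus m F a b) σ φ) {p : ℕ} [Fact p.Prime]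
    (hpr : p ≠ r) (hp2 : p ≠ 2) (hord : orderOf φ = p) :
    fixS φ ≠ ⊥ ∧ (p ∣ Nat.card ↥(fixS φ) → HI p φ) ∧ HII p φ := by
  revert φ
  rw [← minusQF_coe]
  intro φ hφ hord
  have hσQ := minus_sigma (m := m) σ a b ha hb
  have hd := t2_card (m := m) hm
  have e : φ = fl ⇑(minusQF m F a b) σ hσQ := eq_fl_of_isField _ hσQ hφ
  subst e
  have hσp : orderOf σ = p := by
    rw [← orderOf_fl (minusQF m F a b) σ hσQ (minus_nd hab) hd, hord]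
  refine ⟨t2_fixS_ne_bot a b hm hab σ hσQ, ?_, t2_HII a b hm hab σ hσQ
    (by rw [← hσp]; exact pow_orderOf_eq_one σ)⟩
  intro hdvd
  let F₀ : Subfield F := RingHom.eqLocusField (σ : F →+* F) (RingHom.id F)
  let _ : Fintype F₀ := Fintype.ofFinite _
  refine t2_field_alg (F₀ := F₀) hm a b hab σ ?_ ha hb hσQ hp2 hdvd
  intro x
  constructor
  · intro hx
    exact ⟨⟨x, hx⟩, rfl⟩
  · rintro ⟨y, rfl⟩
    exact y.2

end Cfsg.Agent.Lib.Helper62.BalOM
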