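import Cfsg.Agent.Lib.Helper62.BalOMT2R
import Cfsg.Agent.Lib.Helper59.OMinus.Cent
import Cfsg.Agent.Lib.Helper49.GamO7
import Cfsg.Agent.Lib.Helper95.BalOM.Core

set_option autoImplicit false
set_option linter.unusedSimpArgs false
set_option linter.unusedVariables false
set_option linter.unusedSectionVars false

/-! BAL-OM, rung T2, part A: semisimilarities fixing the images of the rational Siegel maps. -/

namespace Cfsg.Agent.Lib.Helper62.BalOM

open QuadraticMap Module Matrix Cfsg.Agent.Lib.Helper49 Cfsg.Agent.Lib.Helper95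
  Cfsg.Agent.Lib.Helper95.AutO Cfsg.Agent.Lib.Helper29.AutO Cfsg.Agent.Lib.Helper95.BalOM
  Cfsg.Agent.Lib.Helper59.OMinus
open scoped MatrixGroups

/-- Galois theory: an automorphism fixing the fixed field of `σ` is a power of `σ` -/
theorem t2_pow_eq_one_of_fixes {F : Type*} [Field F] [Finite F] (σ τ : F ≃+* F) (p : ℕ)
    (hσ : σ ^ p = 1) (h : ∀ x, σ x = x → τ x = x) : τ ^ p = 1 := by
  obtain ⟨r, hr⟩ := CharP.exists F
  have hrp : Fact r.Prime := ⟨CharP.char_is_prime F r⟩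
  let _ : Algebra (ZMod r) F := ZMod.algebra F r
  have hfd : FiniteDimensional (ZMod r) F := Module.Finite.of_finite
  set σ' := ringAutEquivGal (F := F) r σ with hσ'
  set τ' := ringAutEquivGal (F := F) r τ with hτ'
  have e1 : ∀ x, σ' x = σ x := fun x => rfl
  have e2 : ∀ x, τ' x = τ x := fun x => rfl
  have h1 : τ' ∈ (IntermediateField.fixedField (Subgroup.zpowers σ')).fixingSubgroup := by
    rw [IntermediateField.mem_fixingSubgroup_iff]
    intro x hx
    rw [e2]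
    apply h
    rw [← e1]
    exact hx ⟨σ', Subgroup.mem_zpowers σ'⟩
  rw [IntermediateField.fixingSubgroup_fixedField] at h1
  obtain ⟨k, hk⟩ := Subgroup.mem_zpowers_iff.1 h1
  have h2 : σ' ^ p = 1 := by
    rw [hσ', ← map_pow, hσ, map_one]
  have h3 : τ' ^ p = 1 := by
    rw [← hk, ← zpow_natCast, ← _root_.zpow_mul, mul_comm, _root_.zpow_mul, zpow_natCast, h2,
      _root_.one_zpow]
  apply (ringAutEquivGal (F := F) r).injective
  rw [map_pow, map_one]
  exact h3

section gen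

variable {ι : Type} [Fintype ι] [DecidableEq ι] {F : Type*} [Field F]
variable (Q : QuadraticForm F (ι → F))

theorem polar_sv (σ : F ≃+* F) (hσ : ∀ v : ι → F, Q (fun i => σ (v i)) = σ (Q v)) (u v : ι → F) :
    polar Q (fun i => σ (u i)) (fun i => σ (v i)) = σ (polar Q u v) := by
  have : (fun i => σ (u i)) + (fun i => σ (v i)) = fun i => σ ((u + v) i) := by
    funext i; simp
  simp only [polar, this, hσ, map_sub]

theorem sv_si (σ : F ≃+* F) (hσ : ∀ v : ι → F, Q (fun i => σ (v i)) = σ (Q v)) {e w : ι → F}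
    (hre : Rat σ e) (hrw : Rat σ w) (he : Q e = 0) (hw : polar Q e w = 0) (x : ι → F) :
    (fun i => σ ((si Q e w).1 x i)) = (si Q e w).1 (fun i => σ (x i)) := by
  have e1 : (fun i => σ (e i)) = e := funext hre
  have e2 : (fun i => σ (w i)) = w := funext hrw
  rw [si_apply he hw, si_apply he hw]
  have p1 : polar Q e (fun i => σ (x i)) = σ (polar Q e x) := by
    rw [← polar_sv Q σ hσ, e1]
  have p2 : polar Q w (fun i => σ (x i)) = σ (polar Q w x) := by
    rw [← polar_sv Q σ hσ, e2]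
  have p3 : σ (Q w) = Q w := by rw [← hσ, e2]
  funext i
  simp only [Pi.add_apply, Pi.sub_apply, Pi.smul_apply, smul_eq_mul, map_add, map_sub, map_mul,
    p1, p2, p3, hre i, hrw i]

theorem cGam_fix_of_comm (x : ↥(GamO ⇑Q)) (s : ↥(Cfsg.Omega F ⇑Q))
    (h : ∀ v, semiFun x.1 (((s.1.1 : GL ι F) : Matrix ι ι F) *ᵥ v) =
      ((s.1.1 : GL ι F) : Matrix ι ι F) *ᵥ semiFun x.1 v) :
    cGam ⇑Q x (QuotientGroup.mk s) = QuotientGroup.mk s := by
  rw [cGam_mk]
  congr 1
  apply Subtype.ext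
  apply Subtype.ext
  rw [charRestrict_apply_coe, actO_apply_coe]
  apply Units.ext
  apply Matrix.mulVec_injective
  funext v
  have := actGL_mulVec x.1 s.1.1 (semiFun x.1⁻¹ v)
  rw [semiFun_semiFun_inv, h, semiFun_semiFun_inv] at this
  exact this

theorem cGam_eq_one_of_scalar (x : ↥(GamO ⇑Q)) (c : F) (h : ∀ v, semiFun x.1 v = c • v) :
    cGam ⇑Q x = 1 := by
  ext t
  induction t using QuotientGroup.induction_on with
  | H s =>
    rw [MulAut.one_apply]
    apply cGam_fix_of_comm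
    intro v
    rw [h, h, Matrix.mulVec_smul]

theorem semiFun_fs (σ : F ≃+* F) (hσ : ∀ v : ι → F, Q (fun i => σ (v i)) = σ (Q v)) (v : ι → F) :
    semiFun (fs ⇑Q σ hσ).1 v = fun i => σ (v i) := by
  simp [semiFun, fs]

variable [Fintype F]

/-- the element of `Ω` attached to a Siegel map -/
noncomputable def sO (hQ : (polarBilin Q).Nondegenerate) (hd : 7 ≤ Fintype.card ι) (e w : ι → F) :
    ↥(Cfsg.Omega F ⇑Q) :=
  (omegaEquiv Q).symm ⟨si Q e w,
    si_mem_commutator hQ (by rw [Module.finrank_fintype_fun_eq_card]; omega) e w⟩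

theorem sO_mulVec (hQ : (polarBilin Q).Nondegenerate) (hd : 7 ≤ Fintype.card ι) (e w u : ι → F) :
    (((sO Q hQ hd e w).1.1 : GL ι F) : Matrix ι ι F) *ᵥ u = (si Q e w).1 u := by
  rw [← omegaEquiv_apply, sO, MulEquiv.apply_symm_apply]

theorem sO_mem_fixS (hQ : (polarBilin Q).Nondegenerate) (hd : 7 ≤ Fintype.card ι) (σ : F ≃+* F)
    (hσ : ∀ v : ι → F, Q (fun i => σ (v i)) = σ (Q v)) {e w : ι → F}
    (hre : Rat σ e) (hrw : Rat σ w) (he : Q e = 0) (hw : polar Q e w = 0) :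
    (QuotientGroup.mk (sO Q hQ hd e w) : Cfsg.POmega F ⇑Q) ∈ fixS (fl ⇑Q σ hσ) := by
  rw [mem_fixS]
  apply cGam_fix_of_comm
  intro v
  rw [semiFun_fs, semiFun_fs, sO_mulVec, sO_mulVec]
  exact sv_si Q σ hσ hre hrw he hw v

theorem cGam_fix_aux (hQ : (polarBilin Q).Nondegenerate) (hd : 7 ≤ Fintype.card ι)
    (x : ↥(GamO ⇑Q)) (s : ↥(Cfsg.Omega F ⇑Q))
    (hx : cGam ⇑Q x (QuotientGroup.mk s) = QuotientGroup.mk s) :
    ∃ c : F, c * c = 1 ∧ ∀ v, ((actGL x.1 s.1.1 : GL ι F) : Matrix ι ι F) *ᵥ v =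
      c • (((s.1.1 : GL ι F) : Matrix ι ι F) *ᵥ v) := by
  have h1 := cGam_mk ⇑Q x s
  rw [hx] at h1
  have h2 := QuotientGroup.eq.1 h1
  obtain ⟨c, hc, h3⟩ := center_Omega_mulVec Q hQ hd _ h2
  refine ⟨c, hc, fun v => ?_⟩
  have h4 := h3 v
  simp only [Subgroup.coe_mul, Subgroup.coe_inv, InvMemClass.coe_inv, charRestrict_apply_coe,
    actO_apply_coe, Units.val_mul] at h4
  rw [← Matrix.mulVec_mulVec] at h4
  have h5 := congrArg (fun u => ((s.1.1 : GL ι F) : Matrix ι ι F) *ᵥ u) h4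
  simp only [Matrix.mulVec_mulVec, ← Units.val_mul, mul_inv_cancel, Units.val_one,
    Matrix.one_mulVec, Matrix.mulVec_smul] at h5
  rwa [mul_inv_cancel_left] at h5

theorem comm_of_fix (hQ : (polarBilin Q).Nondegenerate) (hd : 7 ≤ Fintype.card ι) (σ : F ≃+* F)
    (x : ↥(GamO ⇑Q))
    (hx : ∀ e w, Rat σ e → Rat σ w → Q e = 0 → polar Q e w = 0 →
      cGam ⇑Q x (QuotientGroup.mk (sO Q hQ hd e w)) = QuotientGroup.mk (sO Q hQ hd e w))
    (e w : ι → F) (hre : Rat σ e) (hrw : Rat σ w) (he : Q e = 0) (hw : polar Q e w = 0)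
    (v : ι → F) : semiFun x.1 ((si Q e w).1 v) = (si Q e w).1 (semiFun x.1 v) := by
  by_cases h2 : (2 : F) = 0
  · obtain ⟨c, hc, h3⟩ := cGam_fix_aux Q hQ hd x _ (hx e w hre hrw he hw)
    have hc1 : c = 1 := by
      have : (c - 1) * (c - 1) = 0 := by linear_combination hc - (c - 1) * h2
      have := mul_self_eq_zero.1 this
      exact sub_eq_zero.1 this
    rw [← sO_mulVec Q hQ hd, ← actGL_mulVec, h3, hc1, one_smul, sO_mulVec]
  · have hw2 : polar Q e ((2 : F)⁻¹ • w) = 0 := by rw [polar_smul_right, hw, smul_zero]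
    have hr2 : Rat σ ((2 : F)⁻¹ • w) := rat_smul σ hrw (by rw [map_inv₀, map_ofNat])
    obtain ⟨c, hc, h3⟩ := cGam_fix_aux Q hQ hd x _ (hx e _ hre hr2 he hw2)
    have e1 : si Q e w = si Q e ((2 : F)⁻¹ • w) * si Q e ((2 : F)⁻¹ • w) := by
      rw [si_mul he hw2 hw2, ← add_smul]
      congr 1
      have : (2 : F)⁻¹ + (2 : F)⁻¹ = 1 := by field_simp; norm_num
      rw [this, one_smul]
    rw [e1]
    simp only [Subgroup.coe_mul, LinearEquiv.mul_apply]
    rw [← sO_mulVec Q hQ hd, ← sO_mulVec Q hQ hd, ← actGL_mulVec, ← actGL_mulVec, h3, h3,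
      Matrix.mulVec_smul, smul_smul, hc, one_smul, sO_mulVec, sO_mulVec]

end gen

end Cfsg.Agent.Lib.Helper62.BalOM
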