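import Cfsg.Agent.Lib.Helper62.BalOMT2A
import Cfsg.Agent.S2696

set_option autoImplicit false
set_option linter.unusedSimpArgs false
set_option linter.unusedVariables false
set_option linter.unusedSectionVars false

/-! BAL-OM, rung T2, part A2: `fixS ≠ ⊥` and `HII` for the standard field automorphism of the minus
type group. -/

namespace Cfsg.Agent.Lib.Helper62.BalOM

open QuadraticMap Module Matrix Cfsg.Agent.Lib.Helper49 Cfsg.Agent.Lib.Helper95
  Cfsg.Agent.Lib.Helper95.AutO Cfsg.Agent.Lib.Helper29.AutO Cfsg.Agent.Lib.Helper95.BalOM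
  Cfsg.Agent.Lib.Helper59.OMinus Cfsg.Agent.Lib.Helper6.OA
open scoped MatrixGroups

variable {m : ℕ} {F : Type*} [Field F] [Fintype F] (a b : F)

theorem t2_card (hm : 3 ≤ m) : 7 ≤ Fintype.card (Idx m) := by
  have : Fintype.card (Idx m) = 2 * m + 2 := by
    simp only [Fintype.card_sum, Fintype.card_fin]; ring
  omega

theorem t2_key (hm : 3 ≤ m) (hQ : (polarBilin (minusQF m F a b)).Nondegenerate)
    (hd : 7 ≤ Fintype.card (Idx m)) (σ : F ≃+* F) (x : ↥(GamO ⇑(minusQF m F a b)))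
    (hx : ∀ e w, Rat σ e → Rat σ w → minusQF m F a b e = 0 → polar (minusQF m F a b) e w = 0 →
      cGam ⇑(minusQF m F a b) x (QuotientGroup.mk (sO (minusQF m F a b) hQ hd e w)) =
        QuotientGroup.mk (sO (minusQF m F a b) hQ hd e w)) :
    (∀ κ, σ κ = κ → x.1.right κ = κ) ∧
      ∃ μ : F, μ ≠ 0 ∧ ∀ v, semiFun x.1 v = μ • (fun i => x.1.right (v i)) :=
  t2r_rigid a b (by omega) σ (semiFun x.1) x.1.right (semiFun_add x.1) (semiFun_smul x.1)
    (fun u v huv => by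
      have := congrArg (semiFun x.1⁻¹) huv
      rwa [semiFun_inv_semiFun, semiFun_inv_semiFun] at this)
    (fun e w hre hrw he hw v => comm_of_fix _ hQ hd σ x hx e w hre hrw he hw v)

theorem t2_HII (hm : 3 ≤ m)
    (hab : ∀ z₁ z₂ : F, z₁ ^ 2 + a * z₁ * z₂ + b * z₂ ^ 2 = 0 → z₁ = 0 ∧ z₂ = 0) (σ : F ≃+* F)
    (hσ : ∀ v : Idx m → F, minusQF m F a b (fun i => σ (v i)) = σ (minusQF m F a b v)) {p : ℕ}
    (hσp : σ ^ p = 1) : HII p (fl ⇑(minusQF m F a b) σ hσ) := by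
  intro α hα hcop
  have hQ := minus_nd (m := m) hab
  have hd := t2_card (m := m) hm
  have htop : Cfsg.gammaPOmega F ⇑(minusQF m F a b) = ⊤ := by
    rw [minusQF_coe]; exact Cfsg.Agent.S2696.result hm a b hab
  rw [gammaPOmega_eq_range] at htop
  obtain ⟨x, rfl⟩ : α ∈ (cGam ⇑(minusQF m F a b)).range := by rw [htop]; trivial
  obtain ⟨h1, μ, hμ, h2⟩ := t2_key a b hm hQ hd σ x
    (fun e w hre hrw he hw => hα _ (sO_mem_fixS _ hQ hd σ hσ hre hrw he hw))
  have hτ : x.1.right ^ p = 1 := t2_pow_eq_one_of_fixes σ _ p hσp h1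
  have hpow : ∀ k : ℕ, ∃ c : F, ∀ v,
      semiFun ((x ^ k : ↥(GamO ⇑(minusQF m F a b))).1) v = c • (fun i => (x.1.right ^ k) (v i)) := by
    intro k
    induction k with
    | zero =>
      refine ⟨1, fun v => ?_⟩
      simp [semiFun_one]
    | succ k ih =>
      obtain ⟨c, hc⟩ := ih
      refine ⟨μ * x.1.right c, fun v => ?_⟩
      rw [pow_succ', Subgroup.coe_mul, semiFun_mul, hc, h2]
      funext i
      simp only [Pi.smul_apply, smul_eq_mul, map_mul, pow_succ', RingAut.mul_apply]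
      ring
  obtain ⟨c, hc⟩ := hpow p
  have h3 : cGam ⇑(minusQF m F a b) (x ^ p) = 1 := by
    apply cGam_eq_one_of_scalar _ _ c
    intro v
    rw [hc, hτ]
    rfl
  rw [map_pow] at h3
  have h4 := orderOf_dvd_of_pow_eq_one h3
  have h5 : orderOf (cGam ⇑(minusQF m F a b) x) = 1 := Nat.Coprime.eq_one_of_dvd hcop h4
  exact orderOf_eq_one_iff.1 h5

theorem t2_fixS_ne_bot (hm : 3 ≤ m)
    (hab : ∀ z₁ z₂ : F, z₁ ^ 2 + a * z₁ * z₂ + b * z₂ ^ 2 = 0 → z₁ = 0 ∧ z₂ = 0) (σ : F ≃+* F)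
    (hσ : ∀ v : Idx m → F, minusQF m F a b (fun i => σ (v i)) = σ (minusQF m F a b v)) :
    fixS (fl ⇑(minusQF m F a b) σ hσ) ≠ ⊥ := by
  have hQ := minus_nd (m := m) hab
  have hd := t2_card (m := m) hm
  set i₀ : Fin m := ⟨0, by omega⟩ with hi₀
  set i₁ : Fin m := ⟨1, by omega⟩ with hi₁
  have h01 : i₀ ≠ i₁ := by simp [hi₀, hi₁, Fin.ext_iff]
  have hmem := sO_mem_fixS (minusQF m F a b) hQ hd σ hσ (rat_bE σ i₀) (rat_bE σ i₁) (Q_bE a b i₀)
    (polar_EE a b i₀ i₁)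
  intro hbot
  rw [hbot, Subgroup.mem_bot, QuotientGroup.eq_one_iff] at hmem
  obtain ⟨c, -, hc⟩ := center_Omega_mulVec _ hQ hd _ hmem
  have h1 := hc (bF F i₀)
  rw [sO_mulVec, si_apply (Q_bE a b i₀) (polar_EE a b i₀ i₁), polar_EF, if_pos rfl, polar_EF,
    if_neg h01.symm, Q_bE] at h1
  have h2 := congrFun h1 (Sum.inl (Sum.inl i₁))
  simp [bE, bF, Pi.single_apply, h01, h01.symm] at h2

end Cfsg.Agent.Lib.Helper62.BalOM
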