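import Cfsg.Agent.Lib.Helper62.BalOMT2A
import Cfsg.Agent.Lib.Helper49.CDEvenMain

set_option autoImplicit false
set_option linter.unusedSimpArgs false
set_option linter.unusedVariables false
set_option linter.unusedSectionVars false

/-! BAL-OM, rung T2, part B: the subfield subgroup `E` (image of `Ω(Q₀)`) of `PΩ(Q)`. -/

namespace Cfsg.Agent.Lib.Helper62.BalOM

open QuadraticMap Module Matrix Cfsg.Agent.Lib.Helper49 Cfsg.Agent.Lib.Helper95
  Cfsg.Agent.Lib.Helper95.AutO Cfsg.Agent.Lib.Helper29.AutO Cfsg.Agent.Lib.Helper95.BalOM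
  Cfsg.Agent.Lib.Helper59.OMinus Cfsg.Agent.Lib.Helper6.OA
open Cfsg.Agent.Lib.Helper18 (mem_iso_iff)
open scoped MatrixGroups

section sq

variable {F V : Type*} [Field F] [Fintype F] [AddCommGroup V] [Module F V] [FiniteDimensional F V]
  (Q : QuadraticForm F V)

/-- squares of isometries lie in the commutator subgroup (Cartan-Dieudonné) -/
theorem t2_sq_mem_commutator (hQ : (polarBilin Q).Nondegenerate)
    (h : Fintype.card F ≠ 2 ∨ finrank F V ≠ 4) (g : OG Q) : g * g ∈ commutator ↥(OG Q) := by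
  obtain ⟨vs, -, rfl⟩ := exists_reflProd_eq_finite Q hQ h g
  have key : ∀ vs : List V,
      Abelianization.of (reflProd Q vs) * Abelianization.of (reflProd Q vs) = 1 := by
    intro vs
    induction vs with
    | nil => simp
    | cons v vs ih =>
      rw [reflProd_cons, map_mul, mul_mul_mul_comm, ih, mul_one, ← map_mul, refl_mul_self, map_one]
  have h1 : Abelianization.of (reflProd Q vs * reflProd Q vs) = 1 := by rw [map_mul, key]
  have h2 : reflProd Q vs * reflProd Q vs ∈ (Abelianization.of : ↥(OG Q) →* _).ker := h1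
  rwa [Abelianization.ker_of] at h2

end sq

section scal

variable {ι : Type} [Fintype ι] [DecidableEq ι] {F : Type*} [Field F]
variable (Q : QuadraticForm F (ι → F))

theorem mk_eq_one_of_scalar (s : ↥(Cfsg.Omega F ⇑Q)) (c : F)
    (h : ∀ v, ((s.1.1 : GL ι F) : Matrix ι ι F) *ᵥ v = c • v) :
    (QuotientGroup.mk s : Cfsg.POmega F ⇑Q) = 1 := by
  rw [QuotientGroup.eq_one_iff, Subgroup.mem_center_iff]
  intro g
  apply Subtype.ext
  apply Subtype.ext
  apply Units.ext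
  apply Matrix.mulVec_injective
  funext v
  simp only [Subgroup.coe_mul, Units.val_mul, ← Matrix.mulVec_mulVec, h, Matrix.mulVec_smul]

theorem t2_sq_mem_Omega [Fintype F] (hQ : (polarBilin Q).Nondegenerate) (hd : 7 ≤ Fintype.card ι)
    (g : ↥(Cfsg.isometryGroup F ⇑Q)) : g * g ∈ Cfsg.Omega F ⇑Q := by
  rw [mem_Omega_iff, map_mul]
  exact t2_sq_mem_commutator Q hQ (Or.inr (by rw [Module.finrank_fintype_fun_eq_card]; omega)) _

end scal

section bc

variable {ι : Type} [Fintype ι] [DecidableEq ι] {F : Type*} [Field F] {F₀ : Type*} [Field F₀]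
  [Algebra F₀ F]
variable {Q₀ : QuadraticForm F₀ (ι → F₀)} {Q : QuadraticForm F (ι → F)}
variable (hc : ∀ v : ι → F₀, Q (rat F v) = algebraMap F₀ F (Q₀ v))

/-- base change of isometries -/
noncomputable def bcO : ↥(Cfsg.isometryGroup F₀ ⇑Q₀) →* ↥(Cfsg.isometryGroup F ⇑Q) where
  toFun g := ⟨Matrix.GeneralLinearGroup.map (algebraMap F₀ F) g.1, by
    rw [mem_iso_iff]
    intro w
    have := sim_baseChange Q₀ Q hc (g.1 : Matrix ι ι F₀) 1
      (fun v => by rw [(mem_iso_iff g.1).1 g.2 v, one_mul]) w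
    rw [map_one, one_mul] at this
    exact this⟩
  map_one' := by
    apply Subtype.ext
    simp
  map_mul' a b := by
    apply Subtype.ext
    simp

theorem bcO_coe (g : ↥(Cfsg.isometryGroup F₀ ⇑Q₀)) :
    (((bcO hc g).1 : GL ι F) : Matrix ι ι F) = (g.1 : Matrix ι ι F₀).map (algebraMap F₀ F) := rfl

/-- base change on `Ω` -/
noncomputable def bcOm : ↥(Cfsg.Omega F₀ ⇑Q₀) →* ↥(Cfsg.Omega F ⇑Q) where
  toFun s := ⟨bcO hc s.1, map_mem_commutator (bcO hc) s.2⟩
  map_one' := Subtype.ext (map_one _)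
  map_mul' a b := Subtype.ext (map_mul _ _ _)

theorem bcOm_coe (s : ↥(Cfsg.Omega F₀ ⇑Q₀)) : (bcOm hc s).1 = bcO hc s.1 := rfl

/-- `Ω(Q₀) → PΩ(Q)` -/
noncomputable def th : ↥(Cfsg.Omega F₀ ⇑Q₀) →* Cfsg.POmega F ⇑Q :=
  (QuotientGroup.mk' _).comp (bcOm hc)

theorem th_apply (s : ↥(Cfsg.Omega F₀ ⇑Q₀)) : th hc s = QuotientGroup.mk (bcOm hc s) := rfl

theorem th_center [Fintype F₀] (hQ₀ : (polarBilin Q₀).Nondegenerate) (hd : 7 ≤ Fintype.card ι)
    (z : ↥(Cfsg.Omega F₀ ⇑Q₀)) (hz : z ∈ Subgroup.center ↥(Cfsg.Omega F₀ ⇑Q₀)) :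
    th hc z = 1 := by
  obtain ⟨c, -, h⟩ := center_Omega_mulVec Q₀ hQ₀ hd z hz
  have hm : ((z.1.1 : GL ι F₀) : Matrix ι ι F₀) = c • (1 : Matrix ι ι F₀) := by
    apply Matrix.mulVec_injective
    funext v
    rw [h]
    simp [Matrix.smul_mulVec]
  rw [th_apply]
  apply mk_eq_one_of_scalar Q _ (algebraMap F₀ F c)
  intro v
  rw [bcOm_coe, bcO_coe, hm]
  have : (c • (1 : Matrix ι ι F₀)).map (algebraMap F₀ F) =
      algebraMap F₀ F c • (1 : Matrix ι ι F) := by
    ext i k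
    by_cases hik : i = k
    · subst hik; simp
    · simp [Matrix.one_apply_ne hik]
  rw [this]
  simp [Matrix.smul_mulVec]

/-- `PΩ(Q₀) → PΩ(Q)` -/
noncomputable def thb [Fintype F₀] (hQ₀ : (polarBilin Q₀).Nondegenerate)
    (hd : 7 ≤ Fintype.card ι) : Cfsg.POmega F₀ ⇑Q₀ →* Cfsg.POmega F ⇑Q :=
  QuotientGroup.lift _ (th hc) (fun z hz => th_center hc hQ₀ hd z hz)

theorem E_simple [Fintype F₀] (hQ₀ : (polarBilin Q₀).Nondegenerate) (hd : 7 ≤ Fintype.card ι)
    (N : Subgroup (Cfsg.POmega F ⇑Q)) (hN : N ≤ (th hc).range)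
    (hnorm : ∀ e ∈ (th hc).range, ∀ n ∈ N, e * n * e⁻¹ ∈ N) : N = ⊥ ∨ N = (th hc).range := by
  have := isSimpleGroup_POmega Q₀ hQ₀ hd
  have hr : ∀ g, thb hc hQ₀ hd g ∈ (th hc).range := by
    intro g
    obtain ⟨s, rfl⟩ := QuotientGroup.mk_surjective g
    exact ⟨s, rfl⟩
  have hn : (N.comap (thb hc hQ₀ hd)).Normal := by
    constructor
    intro n hn g
    show thb hc hQ₀ hd (g * n * g⁻¹) ∈ N
    rw [map_mul, map_mul, map_inv]
    exact hnorm _ (hr g) _ hn
  rcases hn.eq_bot_or_eq_top with h | h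
  · left
    rw [eq_bot_iff]
    intro n hn
    obtain ⟨s, rfl⟩ := hN hn
    have h1 : (QuotientGroup.mk s : Cfsg.POmega F₀ ⇑Q₀) ∈ N.comap (thb hc hQ₀ hd) := hn
    rw [h, Subgroup.mem_bot] at h1
    have h2 : thb hc hQ₀ hd (QuotientGroup.mk s) = th hc s := rfl
    rw [← h2, h1, map_one]
    exact Subgroup.one_mem _
  · right
    apply le_antisymm hN
    rintro _ ⟨s, rfl⟩
    have h1 : (QuotientGroup.mk s : Cfsg.POmega F₀ ⇑Q₀) ∈ N.comap (thb hc hQ₀ hd) := by
      rw [h]; trivial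
    exact h1

theorem th_mem_fixS (σ : F ≃+* F) (hσ : ∀ v : ι → F, Q (fun i => σ (v i)) = σ (Q v))
    (hfix' : ∀ x : F₀, σ (algebraMap F₀ F x) = algebraMap F₀ F x) (s₀ : ↥(Cfsg.Omega F₀ ⇑Q₀)) :
    th hc s₀ ∈ fixS (fl ⇑Q σ hσ) := by
  rw [mem_fixS, th_apply]
  apply cGam_fix_of_comm
  intro v
  rw [semiFun_fs, semiFun_fs, map_mulVec']
  congr 1
  ext i k
  exact hfix' _

theorem exists_descO (σ : F ≃+* F) (hfix : ∀ x, σ x = x ↔ x ∈ Set.range (algebraMap F₀ F))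
    (g : ↥(Cfsg.isometryGroup F ⇑Q))
    (hg : ((g.1 : GL ι F) : Matrix ι ι F).map σ = ((g.1 : GL ι F) : Matrix ι ι F)) :
    ∃ g₀ : ↥(Cfsg.isometryGroup F₀ ⇑Q₀), bcO hc g₀ = g := by
  have h3 : ∀ i k, ∃ y, algebraMap F₀ F y = g.1.1 i k := fun i k =>
    (hfix _).1 (congrFun (congrFun hg i) k)
  choose M₀ hM₀ using h3
  have hM : (Matrix.of M₀).map (algebraMap F₀ F) = g.1.1 := by
    ext i k
    exact hM₀ i k
  have hdet : (Matrix.of M₀).det ≠ 0 := by
    intro h0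
    have h4 := RingHom.map_det (algebraMap F₀ F) (Matrix.of M₀)
    rw [h0, map_zero] at h4
    have h5 : g.1.1.det ≠ 0 := by
      have := g.1.isUnit
      exact ((Matrix.isUnit_iff_isUnit_det _).1 this).ne_zero
    apply h5
    rw [← hM]
    exact h4.symm
  refine ⟨⟨GeneralLinearGroup.mkOfDetNeZero (Matrix.of M₀) hdet, ?_⟩, ?_⟩
  · rw [mem_iso_iff]
    intro v
    apply (algebraMap F₀ F).injective
    rw [← hc, ← hc]
    show Q (rat F (Matrix.of M₀ *ᵥ v)) = _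
    rw [← map_mulVec_rat, hM]
    exact (mem_iso_iff g.1).1 g.2 _
  · apply Subtype.ext
    apply Units.ext
    rw [bcO_coe]
    exact hM

theorem conj_fixed (σ : F ≃+* F) {s g : GL ι F} {c : F} (hc0 : c ≠ 0)
    (hs : (s : Matrix ι ι F).map σ = c • (s : Matrix ι ι F))
    (hg : (g : Matrix ι ι F).map σ = (g : Matrix ι ι F)) :
    ((s * g * s⁻¹ : GL ι F) : Matrix ι ι F).map σ = ((s * g * s⁻¹ : GL ι F) : Matrix ι ι F) := by
  set X : GL ι F := s * g * s⁻¹ with hX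
  have h1 : (X : Matrix ι ι F) * (s : Matrix ι ι F) = (s : Matrix ι ι F) * (g : Matrix ι ι F) := by
    rw [← Units.val_mul, ← Units.val_mul, hX]
    congr 1
    group
  have h2 := congrArg (fun M : Matrix ι ι F => M.map σ) h1
  simp only [Matrix.map_mul, hs, hg, Matrix.mul_smul, Matrix.smul_mul] at h2
  have h3 : (X : Matrix ι ι F).map σ * (s : Matrix ι ι F) =
      (X : Matrix ι ι F) * (s : Matrix ι ι F) := by
    rw [h1]
    have := congrArg (fun M : Matrix ι ι F => c⁻¹ • M) h2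
    simpa [smul_smul, inv_mul_cancel₀ hc0] using this
  have h4 := congrArg (fun M : Matrix ι ι F => M * ((s⁻¹ : GL ι F) : Matrix ι ι F)) h3
  have h5 : (s : Matrix ι ι F) * ((s⁻¹ : GL ι F) : Matrix ι ι F) = 1 := by
    rw [← Units.val_mul, mul_inv_cancel, Units.val_one]
  simp only [Matrix.mul_assoc, h5, Matrix.mul_one] at h4
  exact h4

include hc in
theorem polar_rat (u v : ι → F₀) :
    polar Q (rat F u) (rat F v) = algebraMap F₀ F (polar Q₀ u v) := by
  simp only [polar, ← rat_add, hc, map_sub]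

end bc

end Cfsg.Agent.Lib.Helper62.BalOM
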