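import Cfsg.Agent.Lib.Helper95.AutO.Geo
import Cfsg.Agent.Lib.Helper49.StdForms

set_option autoImplicit false
set_option linter.unusedSimpArgs false
set_option linter.unusedVariables false

/-! BAL-OM, rung T2, part R: rigidity of semilinear maps commuting with the Siegel maps attached to
a hyperbolic frame with parameters in a subset `S` of the field. -/

namespace Cfsg.Agent.Lib.Helper62.BalOM

open QuadraticMap Module Cfsg.Agent.Lib.Helper49 Cfsg.Agent.Lib.Helper95 Cfsg.Agent.Lib.Helper95.AutO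

section abs

variable {F V : Type*} [Field F] [AddCommGroup V] [Module F V] {Q : QuadraticForm F V}

/-- a map commuting with two Siegel maps at `c` fixes the point `c` -/
theorem t2r_line (Ψ : V → V) (hadd : ∀ x y, Ψ (x + y) = Ψ x + Ψ y) {c w w' : V} (hc : Q c = 0)
    (hw : polar Q c w = 0) (hw' : polar Q c w' = 0) (hww : polar Q w w' = 1) (hQw' : Q w' = 0)
    (h1 : ∀ x, Ψ ((si Q c w).1 x) = (si Q c w).1 (Ψ x))
    (h2 : ∀ x, Ψ ((si Q c w').1 x) = (si Q c w').1 (Ψ x)) : ∃ α : F, Ψ c = α • c := by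
  have hw'w' : polar Q w' w' = 0 := polar_self_of_Q hQw'
  have hw'w : polar Q w' w = 1 := by rw [polar_comm]; exact hww
  have hw'c : polar Q w' c = 0 := by rw [polar_comm]; exact hw'
  have e1 : (si Q c w).1 (-w') = -w' + c := by
    rw [si_apply hc hw, polar_neg_right, polar_neg_right, hw', hww]
    simp
  have e2 : (si Q c w').1 (-w) = -w + c := by
    rw [si_apply hc hw', polar_neg_right, polar_neg_right, hw, hw'w]
    simp
  have f1 := h1 (-w')
  rw [e1, hadd, si_apply hc hw] at f1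
  have f2 := h2 (-w)
  rw [e2, hadd, si_apply hc hw'] at f2
  have g1 : Ψ c = polar Q c (Ψ (-w')) • w
      - (polar Q w (Ψ (-w')) + Q w * polar Q c (Ψ (-w'))) • c := by
    have : Ψ c = (Ψ (-w') + Ψ c) - Ψ (-w') := by abel
    rw [this, f1]
    module
  have g2 : Ψ c = polar Q c (Ψ (-w)) • w'
      - (polar Q w' (Ψ (-w)) + Q w' * polar Q c (Ψ (-w))) • c := by
    have : Ψ c = (Ψ (-w) + Ψ c) - Ψ (-w) := by abel
    rw [this, f2]
    module
  have k1 : polar Q w' (Ψ c) = polar Q c (Ψ (-w')) := by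
    conv_lhs => rw [g1]
    rw [polar_sub_right, polar_smul_right, polar_smul_right, hw'w, hw'c]
    simp
  have k2 : polar Q w' (Ψ c) = 0 := by
    conv_lhs => rw [g2]
    rw [polar_sub_right, polar_smul_right, polar_smul_right, hw'w', hw'c]
    simp
  refine ⟨-(polar Q w (Ψ (-w')) + Q w * polar Q c (Ψ (-w'))), ?_⟩
  conv_lhs => rw [g1]
  rw [← k1, k2]
  module

/-- the basic computation with a hyperbolic pair `c, d` and `w ⊥ c, d` -/
theorem t2r_half (Ψ : V → V) (τ : F ≃+* F) (hadd : ∀ x y, Ψ (x + y) = Ψ x + Ψ y)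
    (hsm : ∀ (a : F) x, Ψ (a • x) = τ a • Ψ x) {c d w : V} (hc : Q c = 0)
    (hcd : polar Q c d = 1) (hcw : polar Q c w = 0) (hdw : polar Q d w = 0) {μc μd : F}
    (hΨc : Ψ c = μc • c) (hΨd : Ψ d = μd • d) (κ : F)
    (h1 : ∀ x, Ψ ((si Q c (κ • w)).1 x) = (si Q c (κ • w)).1 (Ψ x)) :
    Ψ (κ • w) = (μd * κ) • w + (τ (κ * κ * Q w) * μc - μd * (κ * κ * Q w)) • c := by
  have hcw' : polar Q c (κ • w) = 0 := by rw [polar_smul_right, hcw, smul_zero]
  have hwd : polar Q w d = 0 := by rw [polar_comm]; exact hdw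
  have e1 : (si Q c (κ • w)).1 d = d + κ • w - (κ * κ * Q w) • c := by
    rw [si_apply hc hcw', hcd, polar_smul_left, hwd, QuadraticMap.map_smul]
    simp
  have hneg : ∀ x, Ψ (-x) = -Ψ x := by
    intro x
    have h0 : Ψ 0 = 0 := by
      have := hadd 0 0
      rw [add_zero] at this
      exact left_eq_add.1 this
    have := hadd x (-x)
    rw [add_neg_cancel, h0] at this
    exact (neg_eq_of_add_eq_zero_right this.symm).symm
  have f1 := h1 d
  rw [e1, sub_eq_add_neg, hadd, hadd, hneg, hsm (κ * κ * Q w), hΨc, hΨd, map_smul, e1] at f1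
  have : Ψ (κ • w) = (μd • d + Ψ (κ • w) + -(τ (κ * κ * Q w) • μc • c)) - μd • d
      + τ (κ * κ * Q w) • μc • c := by abel
  rw [this, f1]
  module

/-- hyperbolic pair `c, d`, `w ⊥ c, d`, `w ≠ 0` -/
theorem t2r_pair (Ψ : V → V) (τ : F ≃+* F) (hadd : ∀ x y, Ψ (x + y) = Ψ x + Ψ y)
    (hsm : ∀ (a : F) x, Ψ (a • x) = τ a • Ψ x) {c d w : V} (hc : Q c = 0) (hd : Q d = 0)
    (hcd : polar Q c d = 1) (hcw : polar Q c w = 0) (hdw : polar Q d w = 0) (hw0 : w ≠ 0)
    {μc μd : F} (hΨc : Ψ c = μc • c) (hΨd : Ψ d = μd • d) (κ : F)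
    (h1 : ∀ x, Ψ ((si Q c (κ • w)).1 x) = (si Q c (κ • w)).1 (Ψ x))
    (h2 : ∀ x, Ψ ((si Q d (κ • w)).1 x) = (si Q d (κ • w)).1 (Ψ x)) :
    Ψ (κ • w) = (μd * κ) • w ∧ (μd * κ = μc * κ) := by
  have hdc : polar Q d c = 1 := by rw [polar_comm]; exact hcd
  have hcc : polar Q c c = 0 := polar_self_of_Q hc
  have hdd : polar Q d d = 0 := polar_self_of_Q hd
  have a1 := t2r_half Ψ τ hadd hsm hc hcd hcw hdw hΨc hΨd κ h1
  have a2 := t2r_half Ψ τ hadd hsm hd hdc hdw hcw hΨd hΨc κ h2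
  have b1 : polar Q d (Ψ (κ • w)) = τ (κ * κ * Q w) * μc - μd * (κ * κ * Q w) := by
    rw [a1, polar_add_right, polar_smul_right, polar_smul_right, hdw, hdc]
    simp
  have b2 : polar Q d (Ψ (κ • w)) = 0 := by
    rw [a2, polar_add_right, polar_smul_right, polar_smul_right, hdw, hdd]
    simp
  have c1 : polar Q c (Ψ (κ • w)) = τ (κ * κ * Q w) * μd - μc * (κ * κ * Q w) := by
    rw [a2, polar_add_right, polar_smul_right, polar_smul_right, hcw, hcd]
    simp
  have c2 : polar Q c (Ψ (κ • w)) = 0 := by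
    rw [a1, polar_add_right, polar_smul_right, polar_smul_right, hcw, hcc]
    simp
  rw [← b1, b2, zero_smul, add_zero] at a1
  rw [← c1, c2, zero_smul, add_zero] at a2
  refine ⟨a1, ?_⟩
  have : (μd * κ - μc * κ) • w = 0 := by rw [sub_smul, ← a1, ← a2, sub_self]
  exact sub_eq_zero.1 ((smul_eq_zero.1 this).resolve_right hw0)

end abs

section frame

variable {m : ℕ} {F : Type*} [Field F] (a b : F)

/-- the index type of the minus type form -/
abbrev Idx (m : ℕ) : Type := (Fin m ⊕ Fin m) ⊕ Fin 2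

/-- standard basis vectors -/
def bE (F : Type*) [Field F] {m : ℕ} (i : Fin m) : Idx m → F := Pi.single (Sum.inl (Sum.inl i)) 1
def bF (F : Type*) [Field F] {m : ℕ} (i : Fin m) : Idx m → F := Pi.single (Sum.inl (Sum.inr i)) 1
def bU (F : Type*) [Field F] (m : ℕ) (k : Fin 2) : Idx m → F := Pi.single (Sum.inr k) 1

theorem Q_bE (i : Fin m) : minusQF m F a b (bE F i) = 0 := by
  rw [minusQF_coe]
  simp [Cfsg.quadFormMinus, bE, Pi.single_apply]

theorem Q_bF (i : Fin m) : minusQF m F a b (bF F i) = 0 := by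
  rw [minusQF_coe]
  simp [Cfsg.quadFormMinus, bF, Pi.single_apply]

theorem polar_EF (i j : Fin m) :
    polar (minusQF m F a b) (bE F i) (bF F j) = if i = j then 1 else 0 := by
  rw [minusQF_coe, polar_quadFormMinus]
  simp [bE, bF, Pi.single_apply, eq_comm]

theorem polar_FE (i j : Fin m) :
    polar (minusQF m F a b) (bF F i) (bE F j) = if i = j then 1 else 0 := by
  rw [polar_comm, polar_EF]
  simp [eq_comm]

theorem polar_EE (i j : Fin m) : polar (minusQF m F a b) (bE F i) (bE F j) = 0 := by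
  rw [minusQF_coe, polar_quadFormMinus]
  simp [bE, Pi.single_apply]

theorem polar_FF (i j : Fin m) : polar (minusQF m F a b) (bF F i) (bF F j) = 0 := by
  rw [minusQF_coe, polar_quadFormMinus]
  simp [bF, Pi.single_apply]

theorem polar_EU (i : Fin m) (k : Fin 2) : polar (minusQF m F a b) (bE F i) (bU F m k) = 0 := by
  rw [minusQF_coe, polar_quadFormMinus]
  simp [bE, bU, Pi.single_apply]

theorem polar_FU (i : Fin m) (k : Fin 2) : polar (minusQF m F a b) (bF F i) (bU F m k) = 0 := by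
  rw [minusQF_coe, polar_quadFormMinus]
  simp [bF, bU, Pi.single_apply]

theorem bE_ne (i : Fin m) : bE F i ≠ 0 := by
  intro h
  have := congrFun h (Sum.inl (Sum.inl i))
  simp [bE] at this

theorem bF_ne (i : Fin m) : bF F i ≠ 0 := by
  intro h
  have := congrFun h (Sum.inl (Sum.inr i))
  simp [bF] at this

theorem bU_ne (k : Fin 2) : bU F m k ≠ 0 := by
  intro h
  have := congrFun h (Sum.inr k)
  simp [bU] at this

/-- rational vectors -/
def Rat (σ : F ≃+* F) {ι : Type*} (v : ι → F) : Prop := ∀ i, σ (v i) = v i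

theorem rat_smul (σ : F ≃+* F) {ι : Type*} {v : ι → F} (hv : Rat σ v) {κ : F} (hκ : σ κ = κ) :
    Rat σ (κ • v) := by
  intro i
  rw [Pi.smul_apply, smul_eq_mul, map_mul, hκ, hv i]

theorem rat_single (σ : F ≃+* F) {ι : Type*} [DecidableEq ι] (j : ι) :
    Rat σ (Pi.single j (1 : F)) := by
  intro i
  by_cases h : i = j
  · subst h; simp
  · simp [Pi.single_eq_of_ne h]

theorem rat_bE (σ : F ≃+* F) (i : Fin m) : Rat σ (bE F i) := rat_single σ _
theorem rat_bF (σ : F ≃+* F) (i : Fin m) : Rat σ (bF F i) := rat_single σ _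
theorem rat_bU (σ : F ≃+* F) (k : Fin 2) : Rat σ (bU F m k) := rat_single σ _

/-- RIGIDITY: an injective `τ`-semilinear map commuting with all rational Siegel maps is a scalar
times the coordinatewise action of `τ`, and `τ` fixes the fixed field of `σ`. -/
theorem t2r_rigid (hm : 2 ≤ m) (σ : F ≃+* F) (Ψ : (Idx m → F) → (Idx m → F)) (τ : F ≃+* F)
    (hadd : ∀ x y, Ψ (x + y) = Ψ x + Ψ y) (hsm : ∀ (c : F) x, Ψ (c • x) = τ c • Ψ x)
    (hinj : Function.Injective Ψ)
    (hcomm : ∀ e w : Idx m → F, Rat σ e → Rat σ w → minusQF m F a b e = 0 →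
      polar (minusQF m F a b) e w = 0 →
      ∀ x, Ψ ((si (minusQF m F a b) e w).1 x) = (si (minusQF m F a b) e w).1 (Ψ x)) :
    (∀ κ, σ κ = κ → τ κ = κ) ∧ ∃ μ : F, μ ≠ 0 ∧ ∀ v, Ψ v = μ • (fun i => τ (v i)) := by
  set Q := minusQF m F a b with hQ
  have hex : ∀ i : Fin m, ∃ j : Fin m, j ≠ i := by
    intro i
    by_cases h : i = ⟨0, by omega⟩
    · refine ⟨⟨1, by omega⟩, ?_⟩
      rw [h]
      simp [Fin.ext_iff]
    · exact ⟨_, fun h' => h h'.symm⟩
  have hEF : ∀ {i j : Fin m}, i ≠ j → polar Q (bE F i) (bF F j) = 0 := by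
    intro i j h
    rw [polar_EF, if_neg h]
  have hFE : ∀ {i j : Fin m}, i ≠ j → polar Q (bF F i) (bE F j) = 0 := by
    intro i j h
    rw [polar_FE, if_neg h]
  have hEF1 : ∀ i : Fin m, polar Q (bE F i) (bF F i) = 1 := by
    intro i
    rw [polar_EF, if_pos rfl]
  have hFE1 : ∀ i : Fin m, polar Q (bF F i) (bE F i) = 1 := by
    intro i
    rw [polar_FE, if_pos rfl]
  have s1 : ∀ i : Fin m, ∃ α : F, Ψ (bE F i) = α • bE F i := by
    intro i
    obtain ⟨j, hj⟩ := hex i
    exact t2r_line Ψ hadd (Q_bE a b i) (polar_EE a b i j) (hEF hj.symm) (hEF1 j) (Q_bF a b j)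
      (hcomm _ _ (rat_bE σ i) (rat_bE σ j) (Q_bE a b i) (polar_EE a b i j))
      (hcomm _ _ (rat_bE σ i) (rat_bF σ j) (Q_bE a b i) (hEF hj.symm))
  have s2 : ∀ i : Fin m, ∃ α : F, Ψ (bF F i) = α • bF F i := by
    intro i
    obtain ⟨j, hj⟩ := hex i
    exact t2r_line Ψ hadd (Q_bF a b i) (hFE hj.symm) (polar_FF a b i j) (hEF1 j) (Q_bF a b j)
      (hcomm _ _ (rat_bF σ i) (rat_bE σ j) (Q_bF a b i) (hFE hj.symm))
      (hcomm _ _ (rat_bF σ i) (rat_bF σ j) (Q_bF a b i) (polar_FF a b i j))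
  choose μE hμE using s1
  choose μF hμF using s2
  -- the pair lemma
  have P : ∀ (i : Fin m) (w : Idx m → F), Rat σ w → polar Q (bE F i) w = 0 →
      polar Q (bF F i) w = 0 → w ≠ 0 → ∀ κ, σ κ = κ →
      Ψ (κ • w) = (μF i * κ) • w ∧ μF i * κ = μE i * κ := by
    intro i w hw h1 h2 h0 κ hκ
    exact t2r_pair Ψ τ hadd hsm (Q_bE a b i) (Q_bF a b i) (hEF1 i) h1 h2 h0 (hμE i) (hμF i) κ
      (hcomm _ _ (rat_bE σ i) (rat_smul σ hw hκ) (Q_bE a b i)
        (by rw [polar_smul_right, h1, smul_zero]))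
      (hcomm _ _ (rat_bF σ i) (rat_smul σ hw hκ) (Q_bF a b i)
        (by rw [polar_smul_right, h2, smul_zero]))
  have hσ1 : σ 1 = 1 := map_one σ
  have hFEeq : ∀ i, μF i = μE i := by
    intro i
    have := (P i (bU F m 0) (rat_bU σ 0) (polar_EU a b i 0) (polar_FU a b i 0) (bU_ne 0) 1 hσ1).2
    simpa using this
  have hcross : ∀ i j : Fin m, j ≠ i → μE j = μF i := by
    intro i j hj
    have := (P i (bE F j) (rat_bE σ j) (polar_EE a b i j) (hFE hj.symm) (bE_ne j) 1 hσ1).1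
    rw [one_smul, mul_one, hμE j] at this
    have h3 : (μE j - μF i) • bE F j = 0 := by rw [sub_smul, this, sub_self]
    exact sub_eq_zero.1 ((smul_eq_zero.1 h3).resolve_right (bE_ne j))
  set i₀ : Fin m := ⟨0, by omega⟩ with hi₀
  set μ := μF i₀ with hμ
  have hallE : ∀ j, μE j = μ := by
    intro j
    by_cases h : j = i₀
    · rw [h, ← hFEeq]
    · exact hcross i₀ j h
  have hallF : ∀ j, μF j = μ := fun j => by rw [hFEeq, hallE]
  have h0 : Ψ 0 = 0 := by
    have := hadd 0 0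
    rw [add_zero] at this
    exact left_eq_add.1 this
  have hμ0 : μ ≠ 0 := by
    intro h
    have h1 := hμF i₀
    rw [← hμ, h, zero_smul, ← h0] at h1
    exact bF_ne i₀ (hinj h1)
  have hbasis : ∀ j : Idx m, Ψ (Pi.single j 1) = μ • Pi.single j 1 := by
    rintro ((j | j) | k)
    · have := hμE j
      rw [hallE] at this
      exact this
    · have := hμF j
      rw [hallF] at this
      exact this
    · have := (P i₀ (bU F m k) (rat_bU σ k) (polar_EU a b i₀ k) (polar_FU a b i₀ k) (bU_ne k) 1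
        hσ1).1
      rw [one_smul, mul_one] at this
      exact this
  refine ⟨?_, μ, hμ0, ?_⟩
  · intro κ hκ
    have h1 := (P i₀ (bU F m 0) (rat_bU σ 0) (polar_EU a b i₀ 0) (polar_FU a b i₀ 0) (bU_ne 0) κ
      hκ).1
    rw [hsm, show Ψ (bU F m 0) = μ • bU F m 0 from hbasis _, smul_smul] at h1
    have h3 : (τ κ * μ - μ * κ) • bU F m 0 = 0 := by rw [sub_smul, h1, sub_self]
    have h4 := sub_eq_zero.1 ((smul_eq_zero.1 h3).resolve_right (bU_ne 0))
    exact mul_right_cancel₀ hμ0 (by rw [h4, mul_comm])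
  · intro v
    let Ψa : (Idx m → F) →+ (Idx m → F) := AddMonoidHom.mk' Ψ hadd
    have e1 : v = ∑ j, v j • (Pi.single j (1 : F) : Idx m → F) := by
      funext i
      simp [Finset.sum_apply, Pi.single_apply]
    have e2 : Ψ v = Ψa v := rfl
    rw [e2]
    conv_lhs => rw [e1]
    rw [map_sum]
    funext i
    simp only [Finset.sum_apply, Pi.smul_apply, smul_eq_mul]
    have e3 : ∀ j, Ψa (v j • (Pi.single j (1 : F) : Idx m → F)) i =
        τ (v j) * (μ * (Pi.single j (1 : F) : Idx m → F) i) := by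
      intro j
      show Ψ (v j • (Pi.single j (1 : F) : Idx m → F)) i = _
      rw [hsm, hbasis]
      rfl
    simp only [e3]
    simp [Pi.single_apply, mul_comm]

end frame

end Cfsg.Agent.Lib.Helper62.BalOM
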