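import Cfsg.Agent.Lib.Helper99.BalPSU.Defs

set_option autoImplicit false
set_option linter.unusedSectionVars false
set_option linter.unusedVariables false

/-!
Rational geometry for a semilinear involution `J` of the unitary space (ladder BAL-PSU).
-/

namespace Cfsg.Agent.Lib.Helper62.BalPSU

open Matrix MatrixGroups Cfsg.Agent.Lib.Helper17 Cfsg.Agent.Lib.Helper99.AutPSU
  Cfsg.Agent.Lib.Helper99.BalPSU Cfsg.Agent.Lib.Helper47.AutPSU

variable {F : Type*} [Field F] [Fintype F] {n q : ℕ}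

theorem two_pow_q (hF : Fintype.card F = q ^ 2) : (2 : F) ^ q = 2 := by
  rw [pow_q_eq_frob hF, map_ofNat]

theorem neg_pow_q (hF : Fintype.card F = q ^ 2) (a : F) : (-a) ^ q = -(a ^ q) := by
  rw [pow_q_eq_frob hF, map_neg, ← pow_q_eq_frob hF]

/-- a conic over the fixed field of `a ↦ a ^ q` has a point -/
theorem exists_conic (hF : Fintype.card F = q ^ 2) (h2 : (2 : F) ≠ 0) {a b c : F}
    (ha : a ^ q = a) (hb : b ^ q = b) (hc : c ^ q = c) (ha0 : a ≠ 0) (hb0 : b ≠ 0) :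
    ∃ x y : F, x ^ q = x ∧ y ^ q = y ∧ a * x ^ 2 + b * y ^ 2 + c = 0 := by
  classical
  let K0 : Subfield F := (frobQ hF).eqLocusField (RingHom.id F)
  haveI : Fintype K0 := Fintype.ofFinite _
  let a' : K0 := ⟨a, ha⟩
  let b' : K0 := ⟨b, hb⟩
  let c' : K0 := ⟨c, hc⟩
  have ha' : a' ≠ 0 := fun h => ha0 (congrArg Subtype.val h)
  have hb' : b' ≠ 0 := fun h => hb0 (congrArg Subtype.val h)
  have hodd : Fintype.card K0 % 2 = 1 := by
    apply FiniteField.odd_card_of_char_ne_two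
    intro h
    have h3 : ((ringChar K0 : ℕ) : K0) = 0 := ringChar.Nat.cast_ringChar
    rw [h] at h3
    apply h2
    have h4 : (2 : K0) = 0 := by exact_mod_cast h3
    have h5 : K0.subtype 2 = 2 := map_ofNat K0.subtype 2
    rw [← h5, h4, map_zero]
  obtain ⟨x, y, hxy⟩ := FiniteField.exists_root_sum_quadratic
    (f := Polynomial.C a' * Polynomial.X ^ 2 + Polynomial.C 0 * Polynomial.X + Polynomial.C 0)
    (g := Polynomial.C b' * Polynomial.X ^ 2 + Polynomial.C 0 * Polynomial.X + Polynomial.C c')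
    (Polynomial.degree_quadratic ha') (Polynomial.degree_quadratic hb') hodd
  refine ⟨x, y, x.2, y.2, ?_⟩
  have := congrArg Subtype.val hxy
  simp only [Polynomial.eval_add, Polynomial.eval_mul, Polynomial.eval_C, Polynomial.eval_pow,
    Polynomial.eval_X, zero_mul, add_zero] at this
  have h5 : a * (x : F) ^ 2 + (b * (y : F) ^ 2 + c) = 0 := this
  linear_combination h5

/-- a semilinear involution multiplying the conjugated form by `e` -/
structure SJ (q : ℕ) (e : F) (J : (Fin n → F) → (Fin n → F)) : Prop where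
  add : ∀ u v, J (u + v) = J u + J v
  smul : ∀ (a : F) v, J (a • v) = a ^ q • J v
  invol : ∀ v, J (J v) = v
  herm : ∀ u v, Cfsg.hermForm n F q (J u) (J v) = e * Cfsg.hermForm n F q v u

theorem sj_of {β : MulAut (Cfsg.PSU n F q)} {e : F} {J : (Fin n → F) → (Fin n → F)}
    (hD : Dat2 q β e J) : SJ q e J := ⟨hD.add, hD.smul, hD.invol, hD.herm⟩

namespace SJ

variable {e : F} {J : (Fin n → F) → (Fin n → F)}

theorem zero (hJ : SJ q e J) : J 0 = 0 := by
  have := hJ.add 0 0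
  rw [add_zero] at this
  exact left_eq_add.mp this

theorem neg (hJ : SJ q e J) (v : Fin n → F) : J (-v) = -J v := by
  have := hJ.add v (-v)
  rw [add_neg_cancel, hJ.zero] at this
  exact (neg_eq_of_add_eq_zero_right this.symm).symm

theorem sub (hJ : SJ q e J) (u v : Fin n → F) : J (u - v) = J u - J v := by
  rw [sub_eq_add_neg, hJ.add, hJ.neg, sub_eq_add_neg]

theorem rat_add (hJ : SJ q e J) {u v : Fin n → F} (hu : J u = u) (hv : J v = v) :
    J (u + v) = u + v := by rw [hJ.add, hu, hv]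

theorem rat_sub (hJ : SJ q e J) {u v : Fin n → F} (hu : J u = u) (hv : J v = v) :
    J (u - v) = u - v := by rw [hJ.sub, hu, hv]

theorem rat_smul (hJ : SJ q e J) {t : F} {v : Fin n → F} (ht : t ^ q = t) (hv : J v = v) :
    J (t • v) = t • v := by rw [hJ.smul, ht, hv]

/-- the rational part -/
def re (J : (Fin n → F) → (Fin n → F)) (v : Fin n → F) : Fin n → F := (2⁻¹ : F) • (v + J v)

/-- the imaginary part (relative to `ε`) -/
def im (J : (Fin n → F) → (Fin n → F)) (ε : F) (v : Fin n → F) : Fin n → F :=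
  ((2 * ε)⁻¹ : F) • (v - J v)

theorem rat_re (hF : Fintype.card F = q ^ 2) (hJ : SJ q e J) (v : Fin n → F) :
    J (re J v) = re J v := by
  rw [re, hJ.smul, hJ.add, hJ.invol, inv_pow, two_pow_q hF, add_comm]

theorem rat_im (hF : Fintype.card F = q ^ 2) (hJ : SJ q e J) {ε : F} (hε : ε ^ q = -ε)
    (v : Fin n → F) : J (im J ε v) = im J ε v := by
  rw [im, hJ.smul, hJ.sub, hJ.invol, inv_pow, mul_pow, two_pow_q hF, hε]
  have h1 : J v - v = -(v - J v) := by abel
  rw [h1, smul_neg, ← neg_smul]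
  congr 1
  rw [mul_neg, inv_neg, neg_neg]

theorem re_add_im (h2 : (2 : F) ≠ 0) {ε : F} (hε0 : ε ≠ 0) (v : Fin n → F) :
    v = re J v + ε • im J ε v := by
  rw [re, im, smul_smul]
  have h1 : ε * (2 * ε)⁻¹ = 2⁻¹ := by
    field_simp
  rw [h1, ← smul_add]
  have h3 : v + J v + (v - J v) = (2 : F) • v := by
    rw [two_smul]
    abel
  rw [h3, smul_smul, inv_mul_cancel₀ h2, one_smul]

theorem J_eq (hF : Fintype.card F = q ^ 2) (h2 : (2 : F) ≠ 0) (hJ : SJ q e J) {ε : F}
    (hε0 : ε ≠ 0) (hε : ε ^ q = -ε) (v : Fin n → F) : J v = re J v - ε • im J ε v := by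
  conv_lhs => rw [re_add_im (J := J) h2 hε0 v]
  rw [hJ.add, hJ.smul, hJ.rat_re hF, hJ.rat_im hF hε, hε, neg_smul, sub_eq_add_neg]

theorem re_mem (U : Submodule F (Fin n → F)) (hU : ∀ u ∈ U, J u ∈ U) {v : Fin n → F}
    (hv : v ∈ U) : re J v ∈ U := U.smul_mem _ (U.add_mem hv (hU v hv))

theorem im_mem (U : Submodule F (Fin n → F)) (hU : ∀ u ∈ U, J u ∈ U) (ε : F) {v : Fin n → F}
    (hv : v ∈ U) : im J ε v ∈ U := U.smul_mem _ (U.sub_mem hv (hU v hv))

theorem rat_symm (hJ : SJ q 1 J) {u v : Fin n → F} (hu : J u = u) (hv : J v = v) :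
    Cfsg.hermForm n F q u v = Cfsg.hermForm n F q v u := by
  have := hJ.herm u v
  rwa [hu, hv, one_mul] at this

theorem rat_fix (hF : Fintype.card F = q ^ 2) (hJ : SJ q 1 J) {u v : Fin n → F} (hu : J u = u)
    (hv : J v = v) : (Cfsg.hermForm n F q u v) ^ q = Cfsg.hermForm n F q u v := by
  rw [hermForm_conj hF, hJ.rat_symm hv hu]

/-- a `J`-stable subspace on which the form does not vanish has a rational anisotropic vector -/
theorem exists_rat_aniso (hF : Fintype.card F = q ^ 2) (h2 : (2 : F) ≠ 0) (hJ : SJ q 1 J)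
    (U : Submodule F (Fin n → F)) (hU : ∀ u ∈ U, J u ∈ U) {u u' : Fin n → F} (hu : u ∈ U)
    (hu' : u' ∈ U) (h : Cfsg.hermForm n F q u u' ≠ 0) :
    ∃ w ∈ U, J w = w ∧ Cfsg.hermForm n F q w w ≠ 0 := by
  by_contra hcon
  push Not at hcon
  have hz : ∀ r ∈ U, ∀ r' ∈ U, J r = r → J r' = r' → Cfsg.hermForm n F q r r' = 0 := by
    intro r hr r' hr' h1 h1'
    have h3 := hcon (r + r') (U.add_mem hr hr') (hJ.rat_add h1 h1')
    simp only [hermForm_add_left, hermForm_add_right hF, hcon r hr h1, hcon r' hr' h1',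
      hJ.rat_symm h1' h1] at h3
    have h4 : (2 : F) * Cfsg.hermForm n F q r r' = 0 := by linear_combination h3
    exact (mul_eq_zero.mp h4).resolve_left h2
  obtain ⟨ε, hε0, hε⟩ := exists_trace_zero hF
  apply h
  rw [re_add_im (J := J) h2 hε0 u, re_add_im (J := J) h2 hε0 u']
  simp only [hermForm_add_left, hermForm_add_right hF, hermForm_smul_left, hermForm_smul_right,
    hz _ (re_mem U hU hu) _ (re_mem U hU hu') (hJ.rat_re hF _) (hJ.rat_re hF _),
    hz _ (re_mem U hU hu) _ (im_mem U hU ε hu') (hJ.rat_re hF _) (hJ.rat_im hF hε _),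
    hz _ (im_mem U hU ε hu) _ (re_mem U hU hu') (hJ.rat_im hF hε _) (hJ.rat_re hF _),
    hz _ (im_mem U hU ε hu) _ (im_mem U hU ε hu') (hJ.rat_im hF hε _) (hJ.rat_im hF hε _)]
  ring

end SJ

/-- the orthogonal complement of two vectors -/
def perp2 (q : ℕ) (a b : Fin n → F) : Submodule F (Fin n → F) where
  carrier := {v | Cfsg.hermForm n F q v a = 0 ∧ Cfsg.hermForm n F q v b = 0}
  add_mem' {u v} hu hv := by
    refine ⟨?_, ?_⟩
    · rw [hermForm_add_left, hu.1, hv.1, add_zero]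
    · rw [hermForm_add_left, hu.2, hv.2, add_zero]
  zero_mem' := ⟨herm_zero_left _, herm_zero_left _⟩
  smul_mem' c v hv := by
    refine ⟨?_, ?_⟩
    · rw [hermForm_smul_left, hv.1, mul_zero]
    · rw [hermForm_smul_left, hv.2, mul_zero]

theorem mem_perp2 {a b v : Fin n → F} : v ∈ perp2 q a b ↔
    Cfsg.hermForm n F q v a = 0 ∧ Cfsg.hermForm n F q v b = 0 := Iff.rfl

theorem exists_mem_perp2 (hn : 3 ≤ n) (a b : Fin n → F) : ∃ w ∈ perp2 q a b, w ≠ 0 := by
  let f : (Fin n → F) →ₗ[F] (Fin 2 → F) :=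
    { toFun := fun v => ![Cfsg.hermForm n F q v a, Cfsg.hermForm n F q v b]
      map_add' := by
        intro u v
        ext i
        fin_cases i <;> simp [hermForm_add_left]
      map_smul' := by
        intro c v
        ext i
        fin_cases i <;> simp [hermForm_smul_left] }
  have hker : LinearMap.ker f ≠ ⊥ := by
    apply LinearMap.ker_ne_bot_of_finrank_lt
    simp only [Module.finrank_fintype_fun_eq_card, Fintype.card_fin]
    omega
  obtain ⟨w, hw, hw0⟩ := (Submodule.ne_bot_iff _).1 hker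
  have hfw : f w = 0 := hw
  exact ⟨w, ⟨congrFun hfw 0, congrFun hfw 1⟩, hw0⟩

theorem SJ.perp2_stable {e : F} {J : (Fin n → F) → (Fin n → F)} (hF : Fintype.card F = q ^ 2)
    (hJ : SJ q e J) {a b : Fin n → F} (ha : J a = a) (hb : J b = b) :
    ∀ u ∈ perp2 q a b, J u ∈ perp2 q a b := by
  intro u hu
  refine ⟨?_, ?_⟩
  · have := hJ.herm u a
    rwa [ha, herm_zero_comm hF hu.1, mul_zero] at this
  · have := hJ.herm u b
    rwa [hb, herm_zero_comm hF hu.2, mul_zero] at this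

namespace SJ

variable {J : (Fin n → F) → (Fin n → F)}

theorem exists_herm_ne (hF : Fintype.card F = q ^ 2) {u : Fin n → F} (hu : u ≠ 0) :
    ∃ y, Cfsg.hermForm n F q u y ≠ 0 := by
  by_contra hcon
  push Not at hcon
  exact hu (hermForm_left_eq_zero hF n u hcon)

theorem exists_rat_aniso_perp (hF : Fintype.card F = q ^ 2) (hn : 3 ≤ n) (h2 : (2 : F) ≠ 0)
    (hJ : SJ q 1 J) {a b : Fin n → F} (ha : J a = a) (hb : J b = b)
    (haa : Cfsg.hermForm n F q a a ≠ 0) (hbb : Cfsg.hermForm n F q b b ≠ 0)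
    (hab : Cfsg.hermForm n F q a b = 0 ∨ a = b) :
    ∃ w, J w = w ∧ Cfsg.hermForm n F q w a = 0 ∧ Cfsg.hermForm n F q w b = 0 ∧
      Cfsg.hermForm n F q w w ≠ 0 := by
  obtain ⟨u, hu, hu0⟩ := exists_mem_perp2 (q := q) hn a b
  obtain ⟨y, hy⟩ := exists_herm_ne hF hu0
  have hua := herm_zero_comm hF hu.1
  have hub := herm_zero_comm hF hu.2
  have key : ∃ y' ∈ perp2 q a b, Cfsg.hermForm n F q u y' ≠ 0 := by
    rcases hab with hab | rfl
    · have hba := herm_zero_comm hF hab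
      refine ⟨y - (Cfsg.hermForm n F q y a / Cfsg.hermForm n F q a a) • a -
        (Cfsg.hermForm n F q y b / Cfsg.hermForm n F q b b) • b, ⟨?_, ?_⟩, ?_⟩
      · simp only [hermForm_sub_left, hermForm_smul_left, hba]
        field_simp
        ring
      · simp only [hermForm_sub_left, hermForm_smul_left, hab]
        field_simp
        ring
      · simp only [hermForm_sub_right hF, hermForm_smul_right, hu.1, hu.2]
        simpa using hy
    · refine ⟨y - (Cfsg.hermForm n F q y a / Cfsg.hermForm n F q a a) • a, ⟨?_, ?_⟩, ?_⟩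
      · simp only [hermForm_sub_left, hermForm_smul_left]
        field_simp
        ring
      · simp only [hermForm_sub_left, hermForm_smul_left]
        field_simp
        ring
      · simp only [hermForm_sub_right hF, hermForm_smul_right, hu.1]
        simpa using hy
  obtain ⟨y', hy', hne⟩ := key
  obtain ⟨w, hw, hw1, hw2⟩ := hJ.exists_rat_aniso hF h2 (perp2 q a b) (hJ.perp2_stable hF ha hb)
    hu hy' hne
  exact ⟨w, hw1, hw.1, hw.2, hw2⟩

/-- (G1) -/
theorem exists_rat_iso (hF : Fintype.card F = q ^ 2) (hn : 3 ≤ n) (h2 : (2 : F) ≠ 0)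
    (hJ : SJ q 1 J) : ∃ c, J c = c ∧ Iso q c := by
  obtain ⟨u, -, hu0⟩ := exists_mem_perp2 (q := q) hn (0 : Fin n → F) 0
  obtain ⟨y, hy⟩ := exists_herm_ne hF hu0
  obtain ⟨v1, -, h1, h11⟩ := hJ.exists_rat_aniso hF h2 ⊤ (fun _ _ => Submodule.mem_top)
    (Submodule.mem_top (x := u)) (Submodule.mem_top (x := y)) hy
  obtain ⟨v2, h2', h21, -, h22⟩ := hJ.exists_rat_aniso_perp hF hn h2 h1 h1 h11 h11 (Or.inr rfl)
  have h12 := herm_zero_comm hF h21
  obtain ⟨v3, h3, h31, h32, h33⟩ := hJ.exists_rat_aniso_perp hF hn h2 h1 h2' h11 h22 (Or.inl h12)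
  have h13 := herm_zero_comm hF h31
  have h23 := herm_zero_comm hF h32
  obtain ⟨x, y, hx, hy, hxy⟩ := exists_conic hF h2 (hJ.rat_fix hF h1 h1) (hJ.rat_fix hF h2' h2')
    (hJ.rat_fix hF h3 h3) h11 h22
  refine ⟨x • v1 + y • v2 + v3, hJ.rat_add (hJ.rat_add (hJ.rat_smul hx h1) (hJ.rat_smul hy h2')) h3,
    ?_, ?_⟩
  · intro h0
    have := congrArg (fun u => Cfsg.hermForm n F q u v3) h0
    simp only [hermForm_add_left, hermForm_smul_left, h13, h23, herm_zero_left] at this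
    apply h33
    linear_combination this
  · simp only [hermForm_add_left, hermForm_add_right hF, hermForm_smul_left, hermForm_smul_right,
      h12, h13, h21, h23, h31, h32, hx, hy]
    linear_combination hxy

/-- a rational vector not orthogonal to a given non-zero vector -/
theorem exists_rat_herm_ne (hF : Fintype.card F = q ^ 2) (h2 : (2 : F) ≠ 0) {e : F}
    (hJ : SJ q e J) {c : Fin n → F} (hc0 : c ≠ 0) :
    ∃ r, J r = r ∧ Cfsg.hermForm n F q c r ≠ 0 := by
  obtain ⟨y, hy⟩ := exists_herm_ne hF hc0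
  obtain ⟨ε, hε0, hε⟩ := exists_trace_zero hF
  by_contra hcon
  push Not at hcon
  apply hy
  rw [re_add_im (J := J) h2 hε0 y, hermForm_add_right hF, hermForm_smul_right,
    hcon _ (hJ.rat_re hF y), hcon _ (hJ.rat_im hF hε y)]
  ring

/-- (G2) -/
theorem exists_rat_HP (hF : Fintype.card F = q ^ 2) (h2 : (2 : F) ≠ 0) (hJ : SJ q 1 J)
    {c : Fin n → F} (hc : J c = c) (hiso : Iso q c) : ∃ d, J d = d ∧ HP q c d := by
  obtain ⟨r, hr, hcr⟩ := hJ.exists_rat_herm_ne hF h2 hiso.1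
  set l := Cfsg.hermForm n F q c r with hl
  have hlq : l ^ q = l := hJ.rat_fix hF hc hr
  have hr' : J (l⁻¹ • r) = l⁻¹ • r := hJ.rat_smul (by rw [inv_pow, hlq]) hr
  have h1 : Cfsg.hermForm n F q c (l⁻¹ • r) = 1 := by
    rw [hermForm_smul_right, inv_pow, hlq, ← hl, inv_mul_cancel₀ hcr]
  set r' := l⁻¹ • r with hr'def
  have h1' : Cfsg.hermForm n F q r' c = 1 := by rw [hJ.rat_symm hr' hc, h1]
  set k := Cfsg.hermForm n F q r' r' / 2 with hk
  have hkq : k ^ q = k := by rw [hk, div_pow, hJ.rat_fix hF hr' hr', two_pow_q hF]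
  refine ⟨r' - k • c, hJ.rat_sub hr' (hJ.rat_smul hkq hc), hiso.2, ?_, ?_⟩
  · simp only [hermForm_sub_left, hermForm_sub_right hF, hermForm_smul_left, hermForm_smul_right,
      h1, h1', hiso.2, hkq]
    rw [hk]
    field_simp
    ring
  · simp only [hermForm_sub_right hF, hermForm_smul_right, h1, hiso.2]
    ring

/-- (G3) -/
theorem exists_rat_W (hF : Fintype.card F = q ^ 2) (hn : 3 ≤ n) (h2 : (2 : F) ≠ 0)
    (hJ : SJ q 1 J) {c d : Fin n → F} (hc : J c = c) (hd : J d = d) (hp : HP q c d) :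
    ∃ w, J w = w ∧ Cfsg.hermForm n F q w c = 0 ∧ Cfsg.hermForm n F q w d = 0 ∧
      Cfsg.hermForm n F q w w ≠ 0 := by
  obtain ⟨w0, h1, h2', h3⟩ := W_ne hF hn hp
  obtain ⟨w, hw, hw1, hw2⟩ := hJ.exists_rat_aniso hF h2 (perp2 q c d) (hJ.perp2_stable hF hc hd)
    (u := w0) (u' := w0) ⟨h1, h2'⟩ ⟨h1, h2'⟩ h3
  exact ⟨w, hw1, hw.1, hw.2, hw2⟩

theorem rat_pw (hF : Fintype.card F = q ^ 2) (hJ : SJ q 1 J) {c d v : Fin n → F} (hc : J c = c)
    (hd : J d = d) (hv : J v = v) : J (pw q c d v) = pw q c d v := by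
  rw [pw]
  exact hJ.rat_sub (hJ.rat_sub hv (hJ.rat_smul (hJ.rat_fix hF hv hd) hc))
    (hJ.rat_smul (hJ.rat_fix hF hv hc) hd)

end SJ

/-! ### scalars -/

/-- rational part of a scalar -/
def sre (q : ℕ) (a : F) : F := (a + a ^ q) / 2

/-- imaginary part of a scalar -/
def sim (q : ℕ) (ε a : F) : F := (a - a ^ q) / (2 * ε)

theorem sre_pow (hF : Fintype.card F = q ^ 2) (a : F) : (sre q a) ^ q = sre q a := by
  rw [sre, div_pow, add_pow_q hF, pow_q_pow_q hF, two_pow_q hF, add_comm]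

theorem sim_pow (hF : Fintype.card F = q ^ 2) {ε : F} (hε : ε ^ q = -ε) (a : F) :
    (sim q ε a) ^ q = sim q ε a := by
  rw [sim, div_pow, sub_pow_q hF, pow_q_pow_q hF, mul_pow, two_pow_q hF, hε, mul_neg, div_neg,
    ← neg_div, neg_sub]

theorem sre_add_sim (h2 : (2 : F) ≠ 0) {ε : F} (hε0 : ε ≠ 0) (a : F) :
    a = sre q a + ε * sim q ε a := by
  rw [sre, sim]
  field_simp
  ring

theorem sre_sub_sim (h2 : (2 : F) ≠ 0) {ε : F} (hε0 : ε ≠ 0) (a : F) :
    a ^ q = sre q a - ε * sim q ε a := by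
  rw [sre, sim]
  field_simp
  ring

end Cfsg.Agent.Lib.Helper62.BalPSU
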