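import Cfsg.Agent.Lib.Helper62.BalPSUOW
import Cfsg.Agent.Lib.Helper62.BalPSUA

set_option autoImplicit false
set_option linter.unusedSectionVars false
set_option linter.unusedVariables false

/-! RUNG OHI of the ladder BAL-PSU. -/

namespace Cfsg.Agent.Lib.Helper62.BalPSU

open Matrix MatrixGroups Cfsg.Agent.Lib.Helper17 Cfsg.Agent.Lib.Helper99.AutPSU
  Cfsg.Agent.Lib.Helper99.BalPSU Cfsg.Agent.Lib.Helper47.AutPSU

variable {F : Type*} [Field F] [Fintype F] {n q : ℕ}

variable {J : (Fin n → F) → (Fin n → F)}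

/-- (G2) inside a `J`-stable subspace -/
theorem SJ.exists_rat_HP_in (hF : Fintype.card F = q ^ 2) (h2 : (2 : F) ≠ 0) (hJ : SJ q 1 J)
    (U : Submodule F (Fin n → F)) (hU : ∀ u ∈ U, J u ∈ U) {c y : Fin n → F} (hcU : c ∈ U)
    (hc : J c = c) (hcc : Cfsg.hermForm n F q c c = 0) (hy : y ∈ U)
    (hcy : Cfsg.hermForm n F q c y ≠ 0) : ∃ d ∈ U, J d = d ∧ HP q c d := by
  obtain ⟨ε, hε0, hε⟩ := exists_trace_zero hF
  obtain ⟨r, hrU, hr, hcr⟩ : ∃ r ∈ U, J r = r ∧ Cfsg.hermForm n F q c r ≠ 0 := by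
    by_contra hcon
    push Not at hcon
    apply hcy
    rw [SJ.re_add_im (J := J) h2 hε0 y, hermForm_add_right hF, hermForm_smul_right,
      hcon _ (SJ.re_mem U hU hy) (hJ.rat_re hF y), hcon _ (SJ.im_mem U hU ε hy) (hJ.rat_im hF hε y)]
    ring
  set l := Cfsg.hermForm n F q c r with hl
  have hlq : l ^ q = l := hJ.rat_fix hF hc hr
  have hr' : J (l⁻¹ • r) = l⁻¹ • r := hJ.rat_smul (by rw [inv_pow, hlq]) hr
  have h1 : Cfsg.hermForm n F q c (l⁻¹ • r) = 1 := by
    rw [hermForm_smul_right, inv_pow, hlq, ← hl, inv_mul_cancel₀ hcr]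
  have hr'U : l⁻¹ • r ∈ U := U.smul_mem _ hrU
  set r' := l⁻¹ • r with hr'def
  have h1' : Cfsg.hermForm n F q r' c = 1 := by rw [hJ.rat_symm hr' hc, h1]
  set k := Cfsg.hermForm n F q r' r' / 2 with hk
  have hkq : k ^ q = k := by rw [hk, div_pow, hJ.rat_fix hF hr' hr', two_pow_q hF]
  refine ⟨r' - k • c, U.sub_mem hr'U (U.smul_mem _ hcU), hJ.rat_sub hr' (hJ.rat_smul hkq hc),
    hcc, ?_, ?_⟩
  · simp only [hermForm_sub_left, hermForm_sub_right hF, hermForm_smul_left, hermForm_smul_right,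
      h1, h1', hcc, hkq]
    rw [hk]
    field_simp
    ring
  · simp only [hermForm_sub_right hF, hermForm_smul_right, h1, hcc]
    ring

theorem pm_weyl_ne_one (hF : Fintype.card F = q ^ 2) {c d : Fin n → F} (hp : HP q c d)
    {ν : ↥(Cfsg.SU n F q)} {s : F} (hs0 : s ≠ 0) (hνc : mt ν *ᵥ c = s • d) : pm ν ≠ 1 := by
  intro h
  have h1 : ν ∈ Subgroup.center ↥(Cfsg.SU n F q) := (QuotientGroup.eq_one_iff ν).mp h
  obtain ⟨ζ, hζ⟩ := center_scalar hF ν h1
  have h3 := hζ c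
  rw [hνc] at h3
  have h4 := congrArg (fun z => Cfsg.hermForm n F q z c) h3
  simp only [hermForm_smul_left, hp.ba hF, hp.a0] at h4
  apply hs0
  linear_combination h4

/-- the image of a rational point under an element of the fixed group is a rational point -/
theorem exists_rat_image (hF : Fintype.card F = q ^ 2) (h2 : (2 : F) ≠ 0)
    {β : MulAut (Cfsg.PSU n F q)} {e : F} (hD : Dat2 q β e J) {x : ↥(Cfsg.SU n F q)}
    (hx : pm x ∈ fixS β) {c : Fin n → F} (hc : J c = c) (hc0 : c ≠ 0) :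
    ∃ μ : F, μ ≠ 0 ∧ J (μ • (mt x *ᵥ c)) = μ • (mt x *ᵥ c) := by
  obtain ⟨ζ, hζ⟩ := exists_of_mem_fixS hD hx
  have hxc0 : mt x *ᵥ c ≠ 0 := mulVec_ne_zero x hc0
  have h1 := hζ c
  rw [hc] at h1
  have hζ0 : ζ ≠ 0 := by
    rintro rfl
    rw [zero_smul] at h1
    exact hxc0 h1
  have hJy : J (mt x *ᵥ c) = ζ⁻¹ • (mt x *ᵥ c) := by
    have h3 : ζ⁻¹ • (mt x *ᵥ c) = ζ⁻¹ • (ζ • J (mt x *ᵥ c)) := congrArg _ h1
    rw [h3, smul_smul, inv_mul_cancel₀ hζ0, one_smul]
  exact exists_rat_of_line hF h2 (sj_of hD) hJy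

theorem orth_HI (hF : Fintype.card F = q ^ 2) (hn : 3 ≤ n) (h2 : (2 : F) ≠ 0)
    {β : MulAut (Cfsg.PSU n F q)} {J : (Fin n → F) → (Fin n → F)} (hD : Dat2 q β 1 J) :
    2 ∣ Nat.card ↥(fixS β) ∧ HI 2 β := by
  have hJ := sj_of hD
  constructor
  · obtain ⟨c, hc, hciso⟩ := hJ.exists_rat_iso hF hn h2
    obtain ⟨d, hd, hp⟩ := hJ.exists_rat_HP hF h2 hc hciso
    obtain ⟨w, hw, hwc, hwd, hww⟩ := hJ.exists_rat_W hF hn h2 hc hd hp
    obtain ⟨a, haQ, b, hbQ, haJ, hbJ, hsq, s, hs0, hνc⟩ :=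
      exists_weyl hF h2 hJ hc hd hw hp hwc hwd hww
    have hA := mem_fixS_of_comm_J hD haJ
    have hB := mem_fixS_of_comm_J hD hbJ
    have hmem : pm (a * b * a) ∈ fixS β := (fixS β).mul_mem ((fixS β).mul_mem hA hB) hA
    have hne := pm_weyl_ne_one hF hp hs0 hνc
    have hord : orderOf (pm (a * b * a)) = 2 :=
      orderOf_eq_prime (by rw [sq, ← pm_mul, hsq, pm_one]) hne
    have h3 : orderOf (⟨_, hmem⟩ : ↥(fixS β)) = 2 := by
      rw [← Subgroup.orderOf_coe]
      exact hord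
    rw [← h3]
    exact orderOf_dvd_natCard _
  · intro M hM hodd hinv
    have hnorm : ∀ f ∈ fixS β, ∀ m ∈ M, f * m * f⁻¹ ∈ M := by
      intro f hf m hm
      have h3 := hinv (MulAut.conj f)
        (Subgroup.mem_centralizer_singleton_iff.mp (conj_mem_centralizer hf)) m hm
      rwa [MulAut.conj_apply] at h3
    have step1 : ∀ x : ↥(Cfsg.SU n F q), pm x ∈ M → ∀ c : Fin n → F, J c = c → Iso q c →
        Cfsg.hermForm n F q (mt x *ᵥ c) c = 0 := by
      intro x hx c hc hciso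
      by_contra hne
      obtain ⟨μ, hμ0, hμ⟩ := exists_rat_image hF h2 hD (hM hx) hc hciso.1
      have hl0 : Cfsg.hermForm n F q c (μ • (mt x *ᵥ c)) ≠ 0 := by
        rw [hermForm_smul_right]
        exact mul_ne_zero (pow_ne_zero _ hμ0) (fun h => hne (herm_zero_comm hF h))
      obtain ⟨l, hl⟩ : ∃ l, l = Cfsg.hermForm n F q c (μ • (mt x *ᵥ c)) := ⟨_, rfl⟩
      rw [← hl] at hl0
      have hlq : l ^ q = l := by
        rw [hl]
        exact hJ.rat_fix hF hc hμ
      obtain ⟨d, hdd⟩ : ∃ d, d = l⁻¹ • (μ • (mt x *ᵥ c)) := ⟨_, rfl⟩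
      have hd : J d = d := by
        rw [hdd]
        exact hJ.rat_smul (by rw [inv_pow, hlq]) hμ
      have hp : HP q c d := by
        refine ⟨hciso.2, ?_, ?_⟩
        · rw [hdd]
          simp only [hermForm_smul_left, hermForm_smul_right, mt_herm, hciso.2, mul_zero]
        · rw [hdd, hermForm_smul_right, ← hl, inv_pow, hlq, inv_mul_cancel₀ hl0]
      obtain ⟨w, hw, hwc, hwd, hww⟩ := hJ.exists_rat_W hF hn h2 hc hd hp
      obtain ⟨a, haQ, b, hbQ, haJ, hbJ, hsq, s, hs0, hνc⟩ :=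
        exists_weyl hF h2 hJ hc hd hw hp hwc hwd hww
      have hA := mem_fixS_of_comm_J hD haJ
      have hB := mem_fixS_of_comm_J hD hbJ
      have hX := hM hx
      have hne1 := pm_weyl_ne_one hF hp hs0 hνc
      have hg' : x⁻¹ * b * x ∈ Q q c := by
        have h5 := conjS_mem_Q (toGU x⁻¹) hbQ
        rw [conjS_toGU, toGU_val, inv_inv] at h5
        have h6 : mt x⁻¹ *ᵥ d = (l⁻¹ * μ) • c := by
          rw [hdd, mulVec_smul, mulVec_smul, mt_inv_mulVec, smul_smul]
        rwa [h6, Q_smul (mul_ne_zero (inv_ne_zero hl0) hμ0)] at h5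
      have hG' : pm (x⁻¹ * b * x) ∈ fixS β :=
        (fixS β).mul_mem ((fixS β).mul_mem ((fixS β).inv_mem hX) hB) hX
      have hyQ : a * (x⁻¹ * b * x) * a ∈ Q q c := (Q q c).mul_mem ((Q q c).mul_mem haQ hg') haQ
      have hY : pm (a * (x⁻¹ * b * x) * a) ∈ fixS β :=
        (fixS β).mul_mem ((fixS β).mul_mem hA hG') hA
      obtain ⟨p, hpc⟩ := CharP.exists F
      haveI : Fact p.Prime := ⟨CharP.char_is_prime F p⟩
      have hy := Cfsg.Agent.Lib.Helper50.AutPSUGeom.Q_pow (p := p) hciso hyQ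
      have hp2 : p ≠ 2 := by
        rintro rfl
        apply h2
        have := CharP.cast_eq_zero F 2
        exact_mod_cast this
      have hmM : pm (a * b * a) * (pm (a * (x⁻¹ * b * x) * a))⁻¹ ∈ M := by
        have h5 : pm (a * b * a) * (pm (a * (x⁻¹ * b * x) * a))⁻¹ =
            pm a * (pm x * (pm (x⁻¹ * b * x) * (pm x)⁻¹ * (pm (x⁻¹ * b * x))⁻¹)) * (pm a)⁻¹ := by
          rw [← pm_inv, ← pm_inv, ← pm_inv, ← pm_inv, ← pm_mul, ← pm_mul, ← pm_mul, ← pm_mul,
            ← pm_mul]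
          congr 1
          group
        rw [h5]
        exact hnorm _ hA _ (M.mul_mem hx (hnorm _ hG' _ (M.inv_mem hx)))
      have h7 := pow_mul_inv_mem M (fixS β) hnorm hmM hY (p ^ 2)
      rw [inv_mul_cancel_right] at h7
      have h8 : pm (a * (x⁻¹ * b * x) * a) ^ (p ^ 2) = 1 := by
        have : pm (a * (x⁻¹ * b * x) * a) ^ (p ^ 2) = pm ((a * (x⁻¹ * b * x) * a) ^ (p ^ 2)) := rfl
        rw [this, hy, pm_one]
      rw [h8, inv_one, mul_one] at h7
      have hN2 : pm (a * b * a) ^ 2 = 1 := by rw [sq, ← pm_mul, hsq, pm_one]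
      have hodd' : Odd (p ^ 2) := ((Fact.out : p.Prime).odd_of_ne_two hp2).pow
      obtain ⟨t, ht⟩ := hodd'
      rw [ht, pow_succ, pow_mul, hN2, one_pow, one_mul] at h7
      have hord : orderOf (pm (a * b * a)) = 2 := orderOf_eq_prime hN2 hne1
      have h9 : orderOf (⟨_, h7⟩ : ↥M) = 2 := by
        rw [← Subgroup.orderOf_coe]
        exact hord
      have h10 : 2 ∣ Nat.card M := by
        rw [← h9]
        exact orderOf_dvd_natCard _
      have h11 := Nat.Coprime.eq_one_of_dvd hodd.symm h10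
      omega
    have step2 : ∀ x : ↥(Cfsg.SU n F q), pm x ∈ M → ∀ c : Fin n → F, J c = c → Iso q c →
        ∃ μ : F, mt x *ᵥ c = μ • c := by
      intro x hx c hc hciso
      by_contra hcon
      push Not at hcon
      obtain ⟨μ, hμ0, hμ⟩ := exists_rat_image hF h2 hD (hM hx) hc hciso.1
      obtain ⟨c', hc'⟩ : ∃ c', c' = μ • (mt x *ᵥ c) := ⟨_, rfl⟩
      rw [← hc'] at hμ
      have hc'c : Cfsg.hermForm n F q c' c = 0 := by
        rw [hc', hermForm_smul_left, step1 x hx c hc hciso, mul_zero]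
      have hcc' := herm_zero_comm hF hc'c
      have hc'c' : Cfsg.hermForm n F q c' c' = 0 := by
        rw [hc']
        simp only [hermForm_smul_left, hermForm_smul_right, mt_herm, hciso.2, mul_zero]
      obtain ⟨d, hd, hp⟩ := hJ.exists_rat_HP hF h2 hc hciso
      obtain ⟨t, ht⟩ : ∃ t, t = Cfsg.hermForm n F q c' d := ⟨_, rfl⟩
      have htq : t ^ q = t := by
        rw [ht]
        exact hJ.rat_fix hF hμ hd
      obtain ⟨c2, hc2⟩ : ∃ c2, c2 = c' - t • c := ⟨_, rfl⟩
      have hc2J : J c2 = c2 := by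
        rw [hc2]
        exact hJ.rat_sub hμ (hJ.rat_smul htq hc)
      have hc20 : c2 ≠ 0 := by
        intro h0
        rw [hc2, sub_eq_zero, hc'] at h0
        apply hcon (μ⁻¹ * t)
        rw [mul_smul, ← h0, smul_smul, inv_mul_cancel₀ hμ0, one_smul]
      have hc2c : Cfsg.hermForm n F q c2 c = 0 := by
        rw [hc2, hermForm_sub_left, hermForm_smul_left, hc'c, hciso.2]
        ring
      have hc2d : Cfsg.hermForm n F q c2 d = 0 := by
        rw [hc2, hermForm_sub_left, hermForm_smul_left, hp.ab, ← ht]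
        ring
      have hc2c2 : Cfsg.hermForm n F q c2 c2 = 0 := by
        rw [hc2]
        simp only [hermForm_sub_left, hermForm_sub_right hF, hermForm_smul_left,
          hermForm_smul_right, hc'c, hcc', hc'c', hciso.2]
        ring
      obtain ⟨e, hec, hed, hce⟩ := W_nondeg hF hp hc2c hc2d hc20
      obtain ⟨d', hd'U, hd', hp'⟩ := hJ.exists_rat_HP_in hF h2 (perp2 q c d)
        (hJ.perp2_stable hF hc hd) (c := c2) (y := e) ⟨hc2c, hc2d⟩ hc2J hc2c2 ⟨hec, hed⟩
        (by rw [hce]; exact one_ne_zero)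
      have hd'c : Cfsg.hermForm n F q d' c = 0 := hd'U.1
      have hcd' := herm_zero_comm hF hd'c
      have hcc2 := herm_zero_comm hF hc2c
      have huu : Cfsg.hermForm n F q (c2 - d') (c2 - d') = -2 := by
        simp only [hermForm_sub_left, hermForm_sub_right hF, hp'.a0, hp'.b0, hp'.ab, hp'.ba hF]
        ring
      have huJ : J (c2 - d') = c2 - d' := hJ.rat_sub hc2J hd'
      obtain ⟨ρ, hρ⟩ := exists_refl hF huu
      have hρJ : ∀ v, (ρ : GL (Fin n) F).1 *ᵥ J v = J ((ρ : GL (Fin n) F).1 *ᵥ v) := by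
        intro v
        have h5 := hJ.herm v (c2 - d')
        rw [huJ, one_mul] at h5
        rw [hρ, hρ, hJ.add, hJ.smul, huJ, h5, hermForm_conj hF]
      have hcomm := cG_comm hD ρ hρJ
      have hx' : pm (conjS ρ x) ∈ M := by
        have := hinv (cG ρ) hcomm (pm x) hx
        rwa [cG_pm] at this
      have hz : pm (conjS ρ x * x⁻¹) ∈ M := M.mul_mem hx' (M.inv_mem hx)
      have hρc : (ρ : GL (Fin n) F).1 *ᵥ c = c := by
        rw [hρ, hermForm_sub_right hF, hcc2, hcd']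
        simp
      have hρc' : (ρ : GL (Fin n) F)⁻¹.1 *ᵥ c = c := by
        conv_lhs => rw [← hρc]
        rw [gu_inv_mulVec']
      have hc'eq : c' = c2 + t • c := by
        rw [hc2]
        abel
      have hzc : mt (conjS ρ x * x⁻¹) *ᵥ c' = t • c + d' := by
        have h5 : mt x⁻¹ *ᵥ c' = μ • c := by rw [hc', mulVec_smul, mt_inv_mulVec]
        rw [mt_mul_mulVec, h5, mulVec_smul, conjS_mulVec, hρc', ← mulVec_smul, ← hc', hρ, hc'eq]
        simp only [hermForm_add_left, hermForm_sub_right hF, hermForm_smul_left, hp'.a0, hp'.ab,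
          hcc2, hcd']
        match_scalars <;> ring
      have hc'0 : c' ≠ 0 := by
        rw [hc']
        exact smul_ne_zero hμ0 (mulVec_ne_zero x hciso.1)
      have h6 := step1 _ hz c' hμ ⟨hc'0, hc'c'⟩
      rw [hzc, hc'eq] at h6
      simp only [hermForm_add_left, hermForm_add_right hF, hermForm_smul_left, hermForm_smul_right,
        hcc2, hciso.2, hp'.ba hF, hd'c] at h6
      simp at h6
    rw [Subgroup.eq_bot_iff_forall]
    intro k hk
    obtain ⟨x, rfl⟩ := pm_surjective k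
    have hG : ∀ v, Gam (toGU x) 1 v = mt x *ᵥ v := fun v => rfl
    have hfix : ∀ c : Fin n → F, J c = c → Cfsg.hermForm n F q c c = 0 →
        ∃ μ : F, Gam (toGU x) 1 c = μ • c := by
      intro c hc hcc
      by_cases hc0 : c = 0
      · exact ⟨0, by rw [hG, hc0, mulVec_zero, smul_zero]⟩
      · rw [hG]
        exact step2 x hk c hc ⟨hc0, hcc⟩
    rcases orth_rigid hF hn h2 hD (toGU x) 1 hfix with ⟨-, μ, hμ⟩ | ⟨hτ, -⟩
    · exact (QuotientGroup.eq_one_iff x).mpr (mem_center_of_scalar (ζ := μ) hμ)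
    · exfalso
      obtain ⟨ε, hε0, hε⟩ := exists_trace_zero hF
      have h5 : ε = ε ^ q := hτ ε
      rw [hε] at h5
      have h6 : (2 : F) * ε = 0 := by linear_combination h5
      rcases mul_eq_zero.mp h6 with h7 | h7
      · exact h2 h7
      · exact hε0 h7

end Cfsg.Agent.Lib.Helper62.BalPSU
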