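import Cfsg.Agent.Lib.Helper62.BalPSUOT

set_option autoImplicit false
set_option linter.unusedSectionVars false
set_option linter.unusedVariables false

/-! RUNG OHII of the ladder BAL-PSU. -/

namespace Cfsg.Agent.Lib.Helper62.BalPSU

open Matrix MatrixGroups Cfsg.Agent.Lib.Helper17 Cfsg.Agent.Lib.Helper99.AutPSU
  Cfsg.Agent.Lib.Helper99.BalPSU Cfsg.Agent.Lib.Helper47.AutPSU

variable {F : Type*} [Field F] [Fintype F] {n q : ℕ}

theorem orth_HII (hF : Fintype.card F = q ^ 2) (hn : 3 ≤ n) (h32 : ¬(n = 3 ∧ q = 2))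
    (h2 : (2 : F) ≠ 0) {β : MulAut (Cfsg.PSU n F q)} {J : (Fin n → F) → (Fin n → F)}
    (hD : Dat2 q β 1 J) : HII 2 β := by
  intro α hα hodd
  have hJ := sj_of hD
  obtain ⟨h, τ, rfl⟩ := autForm hF hn h32 α
  have hfix : ∀ c : Fin n → F, J c = c → Cfsg.hermForm n F q c c = 0 →
      ∃ μ : F, Gam h τ c = μ • c := by
    intro c hc hcc
    by_cases hc0 : c = 0
    · refine ⟨0, ?_⟩
      rw [hc0, zero_smul]
      have := Gam_smul h τ 0 (0 : Fin n → F)
      simpa using this
    obtain ⟨d, hd, hp⟩ := hJ.exists_rat_HP hF h2 hc ⟨hc0, hcc⟩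
    obtain ⟨w, hw, hwc, hwd, hww⟩ := hJ.exists_rat_W hF hn h2 hc hd hp
    have hcw := herm_zero_comm hF hwc
    have hdw := herm_zero_comm hF hwd
    set δ := Cfsg.hermForm n F q w w with hδ
    have hδq : δ ^ q = δ := hJ.rat_fix hF hw hw
    obtain ⟨u, huQ, hu, huJ⟩ := exists_siegel hF hJ hc hd hw hp (k := -δ / 2)
      (by rw [div_pow, neg_pow_q hF, hδq, two_pow_q hF]) hwc hwd (by rw [← hδ]; field_simp; ring)
    have hpm : pm (conjS h (fldS τ u)) = pm u := by
      have := hα (pm u) (mem_fixS_of_comm_J hD huJ)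
      rwa [MulAut.mul_apply, fl_pm, cG_pm] at this
    obtain ⟨ζ, hζ⟩ := exists_scalar_of_pm_eq hF hpm
    have hcomm : ∀ v, mt u *ᵥ Gam h τ v = ζ • Gam h τ (mt u *ᵥ v) := by
      intro v
      rw [hζ, Gam_conj]
    set y := Gam h τ c with hy
    have huc : mt u *ᵥ c = c := huQ.1
    have E3 := hcomm c
    rw [huc, ← hy, hu] at E3
    have e3c := congrArg (fun z => Cfsg.hermForm n F q z c) E3
    simp only [hermForm_add_left, hermForm_smul_left, hwc, hcc] at e3c
    by_cases hζ1 : ζ = 1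
    · rw [hζ1, one_smul] at E3
      have e3w := congrArg (fun z => Cfsg.hermForm n F q z w) E3
      simp only [hermForm_add_left, hermForm_smul_left, hcw, ← hδ] at e3w
      have hyc : Cfsg.hermForm n F q y c = 0 := by
        have h5 : Cfsg.hermForm n F q y c * δ = 0 := by linear_combination e3w
        exact (mul_eq_zero.mp h5).resolve_right hww
      have E1 := hcomm d
      rw [hζ1, one_smul, hu, hu d, hp.ba hF, hdw, Gam_add, Gam_add, Gam_smul, Gam_smul, Gam_add,
        Gam_smul, ← hy] at E1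
      have e1c := congrArg (fun z => Cfsg.hermForm n F q z c) E1
      simp only [hermForm_add_left, hermForm_smul_left, hwc, hcc, hyc, map_one, map_neg,
        map_zero] at e1c
      have hwc' : Cfsg.hermForm n F q (Gam h τ w) c = 0 := by linear_combination -e1c
      have E2 := hcomm w
      rw [hζ1, one_smul, hu, hu w, hwc, hwc', ← hδ, Gam_add, Gam_add, Gam_smul, Gam_smul,
        ← hy] at E2
      simp only [zero_smul, add_zero, map_zero] at E2
      have h6 : τ (-δ) • y = (-Cfsg.hermForm n F q (Gam h τ w) w) • c := (add_left_cancel E2).symm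
      have h7 : τ (-δ) ≠ 0 := by
        simpa using hww
      refine ⟨(τ (-δ))⁻¹ * (-Cfsg.hermForm n F q (Gam h τ w) w), ?_⟩
      rw [mul_smul, ← h6, smul_smul, inv_mul_cancel₀ h7, one_smul]
    · have hyc : Cfsg.hermForm n F q y c = 0 := by
        have h5 : (ζ - 1) * Cfsg.hermForm n F q y c = 0 := by linear_combination -e3c
        exact (mul_eq_zero.mp h5).resolve_left (sub_ne_zero.mpr hζ1)
      rw [hyc, zero_smul, add_zero] at E3
      have h6 : (ζ - 1) • y = (-Cfsg.hermForm n F q y w) • c := by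
        rw [sub_smul, one_smul, ← E3]
        abel
      refine ⟨(ζ - 1)⁻¹ * (-Cfsg.hermForm n F q y w), ?_⟩
      rw [mul_smul, ← h6, smul_smul, inv_mul_cancel₀ (sub_ne_zero.mpr hζ1), one_smul]
  rcases orth_rigid hF hn h2 hD h τ hfix with ⟨hτ, μ, hμ⟩ | ⟨hτ, μ, hμ⟩
  · rw [hτ, map_one, mul_one]
    apply cG_eq_one_of_smul (c := μ)
    rw [Matrix.ext_iff_mulVec]
    intro v
    rw [smul_mulVec, one_mulVec, ← hμ, hτ]
    rfl
  · obtain ⟨c, hc, hciso⟩ := hJ.exists_rat_iso hF hn h2
    have hμ0 : μ ≠ 0 := by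
      rintro rfl
      have := hμ c
      rw [zero_smul] at this
      exact Gam_ne_zero h τ hciso.1 this
    have hαβ : cG h * fl τ = β := by
      ext k
      obtain ⟨x, rfl⟩ := pm_surjective k
      rw [MulAut.mul_apply, fl_pm, cG_pm]
      symm
      rw [hD.spec]
      refine ⟨1, fun v => ?_⟩
      have h1 := Gam_conj h τ x v
      rw [hμ, hμ, mulVec_smul] at h1
      rw [one_smul]
      exact smul_right_injective _ hμ0 h1
    have hsq : (cG h * fl τ : MulAut (Cfsg.PSU n F q)) ^ 2 = 1 := by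
      rw [hαβ, sq]
      exact beta_sq hF hD
    have h3 : orderOf (cG h * fl τ : MulAut (Cfsg.PSU n F q)) ∣ 2 := orderOf_dvd_of_pow_eq_one hsq
    have h4 : orderOf (cG h * fl τ : MulAut (Cfsg.PSU n F q)) = 1 :=
      Nat.Coprime.eq_one_of_dvd hodd h3
    exact orderOf_eq_one_iff.mp h4

end Cfsg.Agent.Lib.Helper62.BalPSU
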