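import Cfsg.Agent.Lib.Helper62.BalPSUGeo

set_option autoImplicit false
set_option linter.unusedSectionVars false
set_option linter.unusedVariables false

/-! RUNG ORIG of the ladder BAL-PSU. -/

namespace Cfsg.Agent.Lib.Helper62.BalPSU

open Matrix MatrixGroups Cfsg.Agent.Lib.Helper17 Cfsg.Agent.Lib.Helper99.AutPSU
  Cfsg.Agent.Lib.Helper99.BalPSU Cfsg.Agent.Lib.Helper47.AutPSU

variable {F : Type*} [Field F] [Fintype F] {n q : ℕ}

/-- the end of the rigidity arguments: a semilinear map which is a scalar on the rational vectors,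
with companion automorphism trivial on the fixed field -/
theorem rigid_of_rat (hF : Fintype.card F = q ^ 2) (h2 : (2 : F) ≠ 0) {e : F}
    {J : (Fin n → F) → (Fin n → F)} (hJ : SJ q e J) (h : ↥(Cfsg.GU n F q)) (τ : F ≃+* F) (μ : F)
    (hτ : ∀ t : F, t ^ q = t → τ t = t) (hrat : ∀ r, J r = r → Gam h τ r = μ • r) :
    (τ = 1 ∧ ∃ μ : F, ∀ v, Gam h τ v = μ • v) ∨
      ((∀ a, τ a = a ^ q) ∧ ∃ μ : F, ∀ v, Gam h τ v = μ • J v) := by
  obtain ⟨ε, hε0, hε⟩ := exists_trace_zero hF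
  have hε2 : τ ε ^ 2 = ε ^ 2 := by
    rw [← map_pow]
    apply hτ
    rw [← pow_mul, mul_comm, pow_mul, hε]
    ring
  have hcases : τ ε = ε ∨ τ ε = -ε := by
    have h3 : (τ ε - ε) * (τ ε + ε) = 0 := by linear_combination hε2
    rcases mul_eq_zero.mp h3 with h4 | h4
    · left
      linear_combination h4
    · right
      linear_combination h4
  have hG : ∀ v, Gam h τ v = μ • SJ.re J v + (τ ε * μ) • SJ.im J ε v := by
    intro v
    conv_lhs => rw [SJ.re_add_im (J := J) h2 hε0 v]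
    rw [Gam_add, Gam_smul, hrat _ (hJ.rat_re hF v), hrat _ (hJ.rat_im hF hε v), smul_smul]
  have hT : ∀ a, τ a = sre q a + τ ε * sim q ε a := by
    intro a
    conv_lhs => rw [sre_add_sim (q := q) h2 hε0 a]
    rw [map_add, map_mul, hτ _ (sre_pow hF a), hτ _ (sim_pow hF hε a)]
  rcases hcases with h3 | h3
  · left
    refine ⟨?_, μ, ?_⟩
    · ext a
      rw [hT, h3, ← sre_add_sim h2 hε0]
      rfl
    · intro v
      rw [hG, h3]
      conv_rhs => rw [SJ.re_add_im (J := J) h2 hε0 v]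
      rw [smul_add, smul_smul, mul_comm]
  · right
    refine ⟨?_, μ, ?_⟩
    · intro a
      rw [hT, h3, sre_sub_sim h2 hε0]
      ring
    · intro v
      rw [hG, h3, hJ.J_eq hF h2 hε0 hε, smul_sub, smul_smul, neg_mul, neg_smul, mul_comm,
        sub_eq_add_neg]

theorem orth_rigid (hF : Fintype.card F = q ^ 2) (hn : 3 ≤ n) (h2 : (2 : F) ≠ 0)
    {β : MulAut (Cfsg.PSU n F q)} {J : (Fin n → F) → (Fin n → F)} (hD : Dat2 q β 1 J)
    (h : ↥(Cfsg.GU n F q)) (τ : F ≃+* F)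
    (hfix : ∀ c : Fin n → F, J c = c → Cfsg.hermForm n F q c c = 0 →
      ∃ μ : F, Gam h τ c = μ • c) :
    (τ = 1 ∧ ∃ μ : F, ∀ v, Gam h τ v = μ • v) ∨
      ((∀ a, τ a = a ^ q) ∧ ∃ μ : F, ∀ v, Gam h τ v = μ • J v) := by
  have hJ := sj_of hD
  obtain ⟨a, ha, haiso⟩ := hJ.exists_rat_iso hF hn h2
  obtain ⟨b, hb, hp⟩ := hJ.exists_rat_HP hF h2 ha haiso
  obtain ⟨w0, hw0, hw0a, hw0b, hw00⟩ := hJ.exists_rat_W hF hn h2 ha hb hp
  obtain ⟨α, hα⟩ := hfix a ha hp.a0
  obtain ⟨β', hβ⟩ := hfix b hb hp.b0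
  have hα0 : α ≠ 0 := by
    rintro rfl
    rw [zero_smul] at hα
    exact Gam_ne_zero h τ hp.a_ne hα
  have hβ0 : β' ≠ 0 := by
    rintro rfl
    rw [zero_smul] at hβ
    exact Gam_ne_zero h τ (hp.b_ne hF) hβ
  have key : ∀ (w : Fin n → F) (k : F), J w = w → k ^ q = k → Cfsg.hermForm n F q w a = 0 →
      Cfsg.hermForm n F q w b = 0 → k + k + Cfsg.hermForm n F q w w = 0 →
      τ k * α = β' * k ∧ Gam h τ w = β' • w := by
    intro w k hw hkq hwa hwb hk
    have haw := herm_zero_comm hF hwa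
    have hbw := herm_zero_comm hF hwb
    have hv0 : Cfsg.hermForm n F q (b + w + k • a) (b + w + k • a) = 0 := by
      simp only [hermForm_add_left, hermForm_add_right hF, hermForm_smul_left,
        hermForm_smul_right, hp.a0, hp.b0, hp.ab, hp.ba hF, hwa, hwb, haw, hbw, hkq]
      linear_combination hk
    obtain ⟨c, hc⟩ := hfix _ (hJ.rat_add (hJ.rat_add hb hw) (hJ.rat_smul hkq ha)) hv0
    rw [Gam_add, Gam_add, Gam_smul, hα, hβ] at hc
    have hGa : Cfsg.hermForm n F q (Gam h τ w) a = 0 := by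
      have h1 := Gam_herm h τ w a
      rw [hα, hwa, map_zero, hermForm_smul_right] at h1
      exact (mul_eq_zero.1 h1).resolve_left (pow_ne_zero _ hα0)
    have hGb : Cfsg.hermForm n F q (Gam h τ w) b = 0 := by
      have h1 := Gam_herm h τ w b
      rw [hβ, hwb, map_zero, hermForm_smul_right] at h1
      exact (mul_eq_zero.1 h1).resolve_left (pow_ne_zero _ hβ0)
    have e1 := congrArg (fun u => Cfsg.hermForm n F q u a) hc
    have e2 := congrArg (fun u => Cfsg.hermForm n F q u b) hc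
    simp only [hermForm_add_left, hermForm_smul_left, hp.a0, hp.b0, hp.ab, hp.ba hF, hwa, hwb,
      hGa, hGb] at e1 e2
    have hcβ : c = β' := by linear_combination -e1
    rw [hcβ] at hc e2
    have e3 : τ k * α = β' * k := by linear_combination e2
    refine ⟨e3, ?_⟩
    have h5 : Gam h τ w = β' • (b + w + k • a) - β' • b - τ k • α • a := by rw [← hc]; abel
    rw [h5, smul_smul, e3]
    module
  set δ := Cfsg.hermForm n F q w0 w0 with hδ
  have hδq : δ ^ q = δ := hJ.rat_fix hF hw0 hw0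
  have hkt : ∀ t : F, t ^ q = t → τ (t ^ 2 * (-δ / 2)) * α = β' * (t ^ 2 * (-δ / 2)) := by
    intro t ht
    refine (key (t • w0) (t ^ 2 * (-δ / 2)) (hJ.rat_smul ht hw0) ?_ ?_ ?_ ?_).1
    · rw [mul_pow, div_pow, neg_pow_q hF, hδq, two_pow_q hF, ← pow_mul, mul_comm 2 q, pow_mul, ht]
    · rw [hermForm_smul_left, hw0a, mul_zero]
    · rw [hermForm_smul_left, hw0b, mul_zero]
    · rw [hermForm_smul_left, hermForm_smul_right, ht, ← hδ]
      field_simp
      ring
  have hk1 : τ (-δ / 2) * α = β' * (-δ / 2) := by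
    have := hkt 1 (one_pow q)
    simpa using this
  have hk0 : (-δ / 2 : F) ≠ 0 := div_ne_zero (neg_ne_zero.mpr hw00) h2
  have hsq : ∀ t : F, t ^ q = t → τ (t ^ 2) = t ^ 2 := by
    intro t ht
    have h3 := hkt t ht
    rw [map_mul] at h3
    have h4 : (τ (t ^ 2) - t ^ 2) * (β' * (-δ / 2)) = 0 := by
      linear_combination h3 - τ (t ^ 2) * hk1
    rcases mul_eq_zero.mp h4 with h5 | h5
    · linear_combination h5
    · exact absurd h5 (mul_ne_zero hβ0 hk0)
  have hτ : ∀ t : F, t ^ q = t → τ t = t := by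
    intro t ht
    have e1 : t = ((t + 1) / 2) ^ 2 - ((t - 1) / 2) ^ 2 := by
      field_simp
      ring
    have e2 : ((t + 1) / 2) ^ q = (t + 1) / 2 := by
      rw [div_pow, add_pow_q hF, ht, one_pow, two_pow_q hF]
    have e3 : ((t - 1) / 2) ^ q = (t - 1) / 2 := by
      rw [div_pow, sub_pow_q hF, ht, one_pow, two_pow_q hF]
    calc τ t = τ (((t + 1) / 2) ^ 2 - ((t - 1) / 2) ^ 2) := by rw [← e1]
      _ = ((t + 1) / 2) ^ 2 - ((t - 1) / 2) ^ 2 := by rw [map_sub, hsq _ e2, hsq _ e3]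
      _ = t := e1.symm
  have hαβ : α = β' := by
    rw [hτ (-δ / 2) (by rw [div_pow, neg_pow_q hF, hδq, two_pow_q hF]), mul_comm] at hk1
    exact mul_right_cancel₀ hk0 hk1
  apply rigid_of_rat hF h2 hJ h τ β' hτ
  intro r hr
  have hpw := hJ.rat_pw hF ha hb hr
  have h6 := (key (pw q a b r) (-(Cfsg.hermForm n F q (pw q a b r) (pw q a b r)) / 2) hpw
    (by rw [div_pow, neg_pow_q hF, hJ.rat_fix hF hpw hpw, two_pow_q hF])
    (pw_a hF hp r) (pw_b hF hp r) (by field_simp; ring)).2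
  conv_lhs => rw [decomp (q := q) a b r]
  rw [Gam_add, Gam_add, Gam_smul, Gam_smul, hα, hβ, h6, hαβ, hτ _ (hJ.rat_fix hF hr hb),
    hτ _ (hJ.rat_fix hF hr ha)]
  conv_rhs => rw [decomp (q := q) a b r]
  simp only [smul_add, smul_smul]
  congr 1
  congr 1 <;> rw [mul_comm]

end Cfsg.Agent.Lib.Helper62.BalPSU
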