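import Cfsg.Agent.Lib.Helper62.BalPSUORIG
import Cfsg.Agent.Lib.Helper99.BalPSU.N2

set_option autoImplicit false
set_option linter.unusedSectionVars false
set_option linter.unusedVariables false

/-! Tools for the rungs OHI, OHII of the ladder BAL-PSU. -/

namespace Cfsg.Agent.Lib.Helper62.BalPSU

open Matrix MatrixGroups Cfsg.Agent.Lib.Helper17 Cfsg.Agent.Lib.Helper99.AutPSU
  Cfsg.Agent.Lib.Helper99.BalPSU Cfsg.Agent.Lib.Helper47.AutPSU

variable {F : Type*} [Field F] [Fintype F] {n q : ℕ}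

variable {β : MulAut (Cfsg.PSU n F q)} {e : F} {J : (Fin n → F) → (Fin n → F)}

theorem mem_fixS_of_comm_J (hD : Dat2 q β e J) {g : ↥(Cfsg.SU n F q)}
    (hg : ∀ v, mt g *ᵥ J v = J (mt g *ᵥ v)) : pm g ∈ fixS β := by
  rw [mem_fixS, hD.spec]
  exact ⟨1, fun v => by rw [one_smul, hg]⟩

theorem exists_of_mem_fixS (hD : Dat2 q β e J) {g : ↥(Cfsg.SU n F q)} (hg : pm g ∈ fixS β) :
    ∃ ζ : F, ∀ v, mt g *ᵥ J v = ζ • J (mt g *ᵥ v) := (hD.spec g g).mp hg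

/-- elements of `GU` commuting with `J` induce automorphisms commuting with `β` -/
theorem cG_comm (hD : Dat2 q β e J) (g : ↥(Cfsg.GU n F q))
    (hg : ∀ v, (g : GL (Fin n) F).1 *ᵥ J v = J ((g : GL (Fin n) F).1 *ᵥ v)) :
    cG g * β = β * cG g := by
  have hg' : ∀ v, (g : GL (Fin n) F)⁻¹.1 *ᵥ J v = J ((g : GL (Fin n) F)⁻¹.1 *ᵥ v) := by
    intro v
    have h1 := hg ((g : GL (Fin n) F)⁻¹.1 *ᵥ v)
    rw [gu_mulVec_inv'] at h1
    rw [← h1, gu_inv_mulVec']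
  ext k
  obtain ⟨x, rfl⟩ := pm_surjective k
  obtain ⟨y, hy⟩ := pm_surjective (β (pm x))
  rw [MulAut.mul_apply, MulAut.mul_apply, ← hy, cG_pm, cG_pm]
  symm
  rw [hD.spec]
  obtain ⟨ζ, hζ⟩ := (hD.spec x y).mp hy.symm
  refine ⟨ζ, fun v => ?_⟩
  rw [conjS_mulVec, conjS_mulVec, hg', hζ, mulVec_smul, hg]

/-- `β ^ 2 = 1` -/
theorem beta_sq (hF : Fintype.card F = q ^ 2) (hD : Dat2 q β e J) : β * β = 1 := by
  ext k
  obtain ⟨x, rfl⟩ := pm_surjective k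
  obtain ⟨y, hy⟩ := pm_surjective (β (pm x))
  obtain ⟨z, hz⟩ := pm_surjective (β (pm y))
  rw [MulAut.mul_apply, ← hy, ← hz, MulAut.one_apply]
  obtain ⟨ζ, hζ⟩ := (hD.spec x y).mp hy.symm
  obtain ⟨ζ', hζ'⟩ := (hD.spec y z).mp hz.symm
  symm
  apply pm_eq_of_scalar (ζ := ζ' * ζ ^ q)
  intro v
  have h1 := hζ' (J v)
  rw [hD.invol, hζ, hD.smul, hD.invol, smul_smul] at h1
  exact h1

/-- a `J`-stable line contains a rational vector -/
theorem exists_rat_of_line (hF : Fintype.card F = q ^ 2) (h2 : (2 : F) ≠ 0) (hJ : SJ q e J)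
    {y : Fin n → F} {l : F} (hy : J y = l • y) : ∃ μ : F, μ ≠ 0 ∧ J (μ • y) = μ • y := by
  obtain ⟨ε, hε0, hε⟩ := exists_trace_zero hF
  by_cases hl : 1 + l = 0
  · refine ⟨ε⁻¹, inv_ne_zero hε0, ?_⟩
    have hl' : l = -1 := by linear_combination hl
    rw [hJ.smul, hy, hl', inv_pow, hε, smul_smul]
    congr 1
    field_simp
  · refine ⟨2⁻¹ * (1 + l), mul_ne_zero (inv_ne_zero h2) hl, ?_⟩
    have h1 : (2⁻¹ * (1 + l)) • y = SJ.re J y := by
      rw [SJ.re, hy, mul_smul, add_smul, one_smul]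
    rw [h1, hJ.rat_re hF]

/-- Siegel elements commuting with `J` -/
theorem exists_siegel (hF : Fintype.card F = q ^ 2) (hJ : SJ q 1 J) {c d w : Fin n → F} {k : F}
    (hc : J c = c) (hd : J d = d) (hw : J w = w) (hp : HP q c d) (hkq : k ^ q = k)
    (hwc : Cfsg.hermForm n F q w c = 0) (hwd : Cfsg.hermForm n F q w d = 0)
    (hk : k + k + Cfsg.hermForm n F q w w = 0) :
    ∃ g ∈ Q q c, (∀ x, mt g *ᵥ x = x + Cfsg.hermForm n F q x c • (w + k • c) +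
      (- Cfsg.hermForm n F q x w) • c) ∧ ∀ v, mt g *ᵥ J v = J (mt g *ᵥ v) := by
  obtain ⟨g, hg, hgd⟩ := exists_Q hF hp w k hwc hwd (by rw [hkq]; exact hk)
  have hform : ∀ x, mt g *ᵥ x = x + Cfsg.hermForm n F q x c • (w + k • c) +
      (- Cfsg.hermForm n F q x w) • c := by
    intro x
    have := Q_formula hF hp hg x
    rwa [wc_of hF hp hwd hgd, kc_of hF hp hwd hgd] at this
  refine ⟨g, hg, hform, fun v => ?_⟩
  have h1 : ∀ r, J r = r → Cfsg.hermForm n F q (J v) r = (Cfsg.hermForm n F q v r) ^ q := by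
    intro r hr
    have := hJ.herm v r
    rw [hr, one_mul] at this
    rw [this, hermForm_conj hF]
  rw [hform, hform, hJ.add, hJ.add, hJ.smul, hJ.smul, hJ.add, hJ.smul, hc, hw, hkq, h1 c hc,
    h1 w hw, neg_pow_q hF]

end Cfsg.Agent.Lib.Helper62.BalPSU
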