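import Cfsg.Agent.Lib.Helper62.BalPSUOT

set_option autoImplicit false
set_option linter.unusedSectionVars false
set_option linter.unusedVariables false

/-! Weyl involution and reflections for the rung OHI of the ladder BAL-PSU. -/

namespace Cfsg.Agent.Lib.Helper62.BalPSU

open Matrix MatrixGroups Cfsg.Agent.Lib.Helper17 Cfsg.Agent.Lib.Helper99.AutPSU
  Cfsg.Agent.Lib.Helper99.BalPSU Cfsg.Agent.Lib.Helper47.AutPSU

variable {F : Type*} [Field F] [Fintype F] {n q : ℕ}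

variable {J : (Fin n → F) → (Fin n → F)}

theorem exists_weyl (hF : Fintype.card F = q ^ 2) (h2 : (2 : F) ≠ 0) (hJ : SJ q 1 J)
    {c d w : Fin n → F} (hc : J c = c) (hd : J d = d) (hw : J w = w) (hp : HP q c d)
    (hwc : Cfsg.hermForm n F q w c = 0) (hwd : Cfsg.hermForm n F q w d = 0)
    (hww : Cfsg.hermForm n F q w w ≠ 0) :
    ∃ a ∈ Q q c, ∃ b ∈ Q q d, (∀ v, mt a *ᵥ J v = J (mt a *ᵥ v)) ∧
      (∀ v, mt b *ᵥ J v = J (mt b *ᵥ v)) ∧ (a * b * a) * (a * b * a) = 1 ∧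
      ∃ s : F, s ≠ 0 ∧ mt (a * b * a) *ᵥ c = s • d := by
  have hcw := herm_zero_comm hF hwc
  have hdw := herm_zero_comm hF hwd
  obtain ⟨k, hk⟩ : ∃ k : F, k = -Cfsg.hermForm n F q w w / 2 := ⟨_, rfl⟩
  have hδ : Cfsg.hermForm n F q w w = -2 * k := by
    rw [hk]
    field_simp
  have hk0 : k ≠ 0 := by
    rw [hk]
    exact div_ne_zero (neg_ne_zero.mpr hww) h2
  have hkq : k ^ q = k := by
    rw [hk, div_pow, neg_pow_q hF, hJ.rat_fix hF hw hw, two_pow_q hF]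
  have hsq : (-k⁻¹) ^ q = -k⁻¹ := by rw [neg_pow_q hF, inv_pow, hkq]
  obtain ⟨a, haQ, ha, haJ⟩ := exists_siegel hF hJ hc hd hw hp hkq hwc hwd (by rw [hδ]; ring)
  obtain ⟨b, hbQ, hb, hbJ⟩ := exists_siegel hF hJ hd hc (hJ.rat_smul hsq hw) (hp.symm hF)
    (k := k⁻¹) (by rw [inv_pow, hkq])
    (by rw [hermForm_smul_left, hwd, mul_zero]) (by rw [hermForm_smul_left, hwc, mul_zero])
    (by
      rw [hermForm_smul_left, hermForm_smul_right, hsq, hδ]
      field_simp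
      ring)
  have hν : ∀ x, mt (a * b * a) *ᵥ x = x + (k⁻¹ * Cfsg.hermForm n F q x w) • w +
      (k * Cfsg.hermForm n F q x c - Cfsg.hermForm n F q x d) • (c + (-k⁻¹) • d) := by
    intro x
    rw [mt_mul_mulVec, mt_mul_mulVec, ha x, hb, ha]
    simp only [hermForm_add_left, hermForm_smul_left, hermForm_smul_right, hsq, hwc, hwd, hcw, hdw,
      hδ, hp.a0, hp.b0, hp.ab, hp.ba hF]
    match_scalars <;> field_simp <;> ring
  refine ⟨a, haQ, b, hbQ, haJ, hbJ, ?_, k⁻¹, inv_ne_zero hk0, ?_⟩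
  · apply su_ext'
    intro x
    rw [mt_mul_mulVec, hν x, hν, mt_one, one_mulVec]
    simp only [hermForm_add_left, hermForm_smul_left, hermForm_smul_right, hsq, hwc, hwd, hcw, hdw,
      hδ, hp.a0, hp.b0, hp.ab, hp.ba hF]
    match_scalars <;> field_simp <;> ring
  · rw [hν]
    simp only [hcw, hp.a0, hp.ab]
    match_scalars <;> simp

/-- the reflection in a vector `u` with `H u u = -2` -/
theorem exists_refl (hF : Fintype.card F = q ^ 2) {u : Fin n → F}
    (huu : Cfsg.hermForm n F q u u = -2) :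
    ∃ g : ↥(Cfsg.GU n F q), ∀ v, (g : GL (Fin n) F).1 *ᵥ v = v + Cfsg.hermForm n F q v u • u := by
  set R : Matrix (Fin n) (Fin n) F := Cfsg.unitaryTransvection n q u 1 with hR
  have hRv : ∀ v, R *ᵥ v = v + Cfsg.hermForm n F q v u • u := by
    intro v
    rw [hR, unitaryTransvection_mulVec, one_mul]
  have hRR : R * R = 1 := by
    rw [Matrix.ext_iff_mulVec]
    intro v
    rw [← mulVec_mulVec, hRv v, hRv, one_mulVec]
    simp only [hermForm_add_left, hermForm_smul_left, huu]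
    match_scalars <;> ring
  refine ⟨⟨⟨R, R, hRR, hRR⟩, ?_⟩, hRv⟩
  intro x y
  change Cfsg.hermForm n F q (R *ᵥ x) (R *ᵥ y) = Cfsg.hermForm n F q x y
  rw [hRv, hRv]
  simp only [hermForm_add_left, hermForm_add_right hF, hermForm_smul_left, hermForm_smul_right, huu,
    hermForm_conj hF]
  ring

theorem pow_mul_inv_mem {K : Type*} [Group K] (M Fx : Subgroup K)
    (hnorm : ∀ f ∈ Fx, ∀ m ∈ M, f * m * f⁻¹ ∈ M) {m Y : K} (hm : m ∈ M) (hY : Y ∈ Fx) (j : ℕ) :
    (m * Y) ^ j * (Y ^ j)⁻¹ ∈ M := by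
  induction j with
  | zero => simp
  | succ j ih =>
    have h1 : (m * Y) ^ (j + 1) * (Y ^ (j + 1))⁻¹ =
        ((m * Y) ^ j * (Y ^ j)⁻¹) * (Y ^ j * m * (Y ^ j)⁻¹) := by
      rw [pow_succ, pow_succ]
      group
    rw [h1]
    exact M.mul_mem ih (hnorm _ (Fx.pow_mem hY j) m hm)

end Cfsg.Agent.Lib.Helper62.BalPSU
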