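import Mathlib
import Cfsg.Agent.Lib.Helper76.Hup.Defs
import Cfsg.Agent.Lib.Helper65.UnipCent

set_option autoImplicit false
set_option linter.unusedSectionVars false

namespace Cfsg.Agent.Lib.Helper62.Hup

open Cfsg.Agent.Lib.Helper76.Hup Module

variable {q : ℕ} [Fact q.Prime] {V : Type*} [AddCommGroup V] [Module (ZMod q) V] [Finite V]

theorem toLinearMap_pow (x : V ≃ₗ[ZMod q] V) (k : ℕ) :
    (x ^ k).toLinearMap = x.toLinearMap ^ k :=
  map_pow (LinearEquiv.automorphismGroup.toLinearMapMonoidHom (R := ZMod q) (M := V)) x k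

theorem finrank_eq_of_card {n : ℕ} (hV : Nat.card V = q ^ n) : finrank (ZMod q) V = n := by
  have hq : q.Prime := Fact.out
  have h1 := Module.natCard_eq_pow_finrank (K := ZMod q) (V := V)
  rw [hV, Nat.card_zmod] at h1
  exact (Nat.pow_right_injective hq.two_le h1).symm

theorem not_dvd_of_isPPD {p n : ℕ} (hn : 0 < n) (hp : IsPPD p q n) : ¬ p ∣ q := by
  intro h
  have h1 : p ∣ q ^ n := dvd_pow h hn.ne'
  have hq0 : 0 < q := (Fact.out : q.Prime).pos
  have h2 : 1 ≤ q ^ n := Nat.one_le_pow _ _ hq0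
  have h3 : p ∣ 1 := by
    have := (Nat.dvd_sub h1 hp.2.1)
    rwa [Nat.sub_sub_self h2] at this
  exact hp.1.one_lt.ne' (Nat.dvd_one.1 h3)

/-- the counting congruence -/
theorem dvd_pow_sub_one_of_invariant {p n : ℕ} (hn : 0 < n) (hp : IsPPD p q n)
    (x : V ≃ₗ[ZMod q] V) (hx : orderOf x = p) (W : Submodule (ZMod q) V)
    (hW : ∀ w ∈ W, x w ∈ W) :
    p ∣ q ^ (finrank (ZMod q) W -
      finrank (ZMod q) (W ⊓ LinearMap.ker (x.toLinearMap - 1) : Submodule (ZMod q) V)) - 1 := by
  have : Fact p.Prime := ⟨hp.1⟩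
  have hq : q.Prime := Fact.out
  have hβ : x.toLinearMap ^ p = 1 := by
    rw [← toLinearMap_pow, ← hx, pow_orderOf_eq_one]
    rfl
  have h1 := Cfsg.Agent.Lib.Helper65.UnipCent.modEq_of_invariant x.toLinearMap hβ W hW
  rw [ZMod.card] at h1
  have hle : finrank (ZMod q) (W ⊓ LinearMap.ker (x.toLinearMap - 1) : Submodule (ZMod q) V) ≤
      finrank (ZMod q) W := Submodule.finrank_mono inf_le_left
  set j := finrank (ZMod q) (W ⊓ LinearMap.ker (x.toLinearMap - 1) : Submodule (ZMod q) V)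
  set k := finrank (ZMod q) W
  have h2 : p ∣ q ^ k - q ^ j :=
    (Nat.modEq_iff_dvd' (Nat.pow_le_pow_right hq.pos hle)).1 h1.symm
  have e5 : q ^ k = q ^ j * q ^ (k - j) := by
    rw [← pow_add]; congr 1; omega
  rw [e5, ← Nat.mul_sub_one] at h2
  rcases hp.1.dvd_mul.1 h2 with h | h
  · exact absurd (hp.1.dvd_of_dvd_pow h) (not_dvd_of_isPPD hn hp)
  · exact h

theorem ker_eq_bot_of_ppd {p n : ℕ} (hp : IsPPD p q n) (hV : Nat.card V = q ^ n)
    (x : V ≃ₗ[ZMod q] V) (hx : orderOf x = p) : LinearMap.ker (x.toLinearMap - 1) = ⊥ := by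
  have hfr := finrank_eq_of_card hV
  rcases Nat.eq_zero_or_pos n with hn | hn
  · have : Subsingleton V := by
      rw [hn] at hfr
      exact Module.finrank_zero_iff.1 hfr
    exact Subsingleton.elim _ _
  have h1 := dvd_pow_sub_one_of_invariant hn hp x hx ⊤ (fun _ _ => Submodule.mem_top)
  rw [top_inf_eq, finrank_top, hfr] at h1
  set j := finrank (ZMod q) (LinearMap.ker (x.toLinearMap - 1)) with hj
  have hjn : j < n := by
    rw [← hfr]
    apply Submodule.finrank_lt
    intro htop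
    have h2 : x.toLinearMap - 1 = 0 := LinearMap.ker_eq_top.1 htop
    have h3 : x = 1 := by
      ext v
      have := LinearMap.congr_fun (sub_eq_zero.1 h2) v
      exact this
    rw [h3, orderOf_one] at hx
    exact hp.1.one_lt.ne hx
  have hj0 : j = 0 := by
    by_contra hne
    exact hp.2.2 (n - j) (by omega) (by omega) h1
  exact Submodule.finrank_eq_zero.1 hj0

theorem fpf_of_ppd {p n : ℕ} (hp : IsPPD p q n) (hV : Nat.card V = q ^ n)
    (x : V ≃ₗ[ZMod q] V) (hx : orderOf x = p) : ∀ v, x v = v → v = 0 := by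
  intro v hv
  have h1 : v ∈ LinearMap.ker (x.toLinearMap - 1) := by
    rw [LinearMap.mem_ker, LinearMap.sub_apply, sub_eq_zero]
    exact hv
  rw [ker_eq_bot_of_ppd hp hV x hx] at h1
  exact h1

theorem irr_of_ppd {p n : ℕ} (hp : IsPPD p q n) (hV : Nat.card V = q ^ n)
    (x : V ≃ₗ[ZMod q] V) (hx : orderOf x = p) : Irr (Subgroup.zpowers x) := by
  intro W hW
  have hfr := finrank_eq_of_card hV
  rcases Nat.eq_zero_or_pos n with hn | hn
  · have : Subsingleton V := by
      rw [hn] at hfr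
      exact Module.finrank_zero_iff.1 hfr
    left
    exact Subsingleton.elim _ _
  have h1 := dvd_pow_sub_one_of_invariant hn hp x hx W
    (fun w hw => hW x (Subgroup.mem_zpowers x) w hw)
  rw [ker_eq_bot_of_ppd hp hV x hx, inf_bot_eq, finrank_bot, Nat.sub_zero] at h1
  have hle : finrank (ZMod q) W ≤ n := hfr ▸ Submodule.finrank_le W
  rcases Nat.eq_zero_or_pos (finrank (ZMod q) W) with h0 | h0
  · left
    exact Submodule.finrank_eq_zero.1 h0
  · right
    apply Submodule.eq_top_of_finrank_eq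
    rw [hfr]
    by_contra hne
    exact hp.2.2 _ h0 (by omega) h1

end Cfsg.Agent.Lib.Helper62.Hup
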