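import Mathlib
import Cfsg.Agent.Lib.Helper76.Hup.Defs
import Cfsg.Agent.Lib.Helper62.HupP12

set_option autoImplicit false
set_option linter.unusedSectionVars false

namespace Cfsg.Agent.Lib.Helper62.Hup

open Cfsg.Agent.Lib.Helper76.Hup Module Finset

section grp
variable {Γ : Type*} [Group Γ]

theorem conj_pow_mem (x : Γ) (D : Subgroup Γ) (hxD : ∀ a ∈ D, x * a * x⁻¹ ∈ D) (k : ℕ) :
    ∀ a ∈ D, x ^ k * a * (x ^ k)⁻¹ ∈ D := by
  induction k with
  | zero => intro a ha; simpa using ha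
  | succ k ih =>
    intro a ha
    have := hxD _ (ih a ha)
    have e : x ^ (k + 1) * a * (x ^ (k + 1))⁻¹ = x * (x ^ k * a * (x ^ k)⁻¹) * x⁻¹ := by
      rw [pow_succ']; group
    rw [e]; exact this

theorem mem_normalizer_of_conj_mem (x : Γ) (hfin : IsOfFinOrder x) (D : Subgroup Γ)
    (hxD : ∀ a ∈ D, x * a * x⁻¹ ∈ D) : x ∈ Subgroup.normalizer (D : Set Γ) := by
  rw [Subgroup.mem_normalizer_iff]
  intro g
  refine ⟨hxD g, fun h => ?_⟩
  have hpos := hfin.orderOf_pos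
  have h1 := conj_pow_mem x D hxD (orderOf x - 1) _ h
  have e1 : x ^ (orderOf x - 1) * x = 1 := by
    rw [← pow_succ, Nat.sub_add_cancel hpos, pow_orderOf_eq_one]
  have e2 : x ^ (orderOf x - 1) = x⁻¹ := eq_inv_of_mul_eq_one_left e1
  rw [e2] at h1
  have e3 : x⁻¹ * (x * g * x⁻¹) * x⁻¹⁻¹ = g := by group
  rwa [e3] at h1

/-- `C_D(x) = 1` for an abelian group `D = [D, x]` -/
theorem cent_trivial_of_gen [Finite Γ] (x : Γ) (D : Subgroup Γ) (hxD : ∀ a ∈ D, x * a * x⁻¹ ∈ D)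
    (hab : ∀ a ∈ D, ∀ b ∈ D, a * b = b * a)
    (hgen : ∀ K : Subgroup Γ, (∀ a ∈ D, x * a * x⁻¹ * a⁻¹ ∈ K) → D ≤ K) :
    ∀ c ∈ D, x * c = c * x → c = 1 := by
  let θ : D →* D := MonoidHom.mk' (fun a => ⟨x * a * x⁻¹ * (a : Γ)⁻¹,
    D.mul_mem (hxD a a.2) (D.inv_mem a.2)⟩) (by
      intro a b
      apply Subtype.ext
      show x * (a * b : Γ) * x⁻¹ * (a * b : Γ)⁻¹ = (x * a * x⁻¹ * (a : Γ)⁻¹) * (x * b * x⁻¹ * (b : Γ)⁻¹)
      have h1 : (a : Γ)⁻¹ * (x * b * x⁻¹) = (x * b * x⁻¹) * (a : Γ)⁻¹ :=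
        hab _ (D.inv_mem a.2) _ (hxD b b.2)
      have h2 : (a : Γ)⁻¹ * (b : Γ)⁻¹ = (b : Γ)⁻¹ * (a : Γ)⁻¹ :=
        hab _ (D.inv_mem a.2) _ (D.inv_mem b.2)
      calc x * (a * b : Γ) * x⁻¹ * (a * b : Γ)⁻¹
          = x * a * x⁻¹ * ((x * b * x⁻¹) * (a : Γ)⁻¹) * (b : Γ)⁻¹ := by
            rw [mul_inv_rev, ← h2]; group
        _ = (x * a * x⁻¹ * (a : Γ)⁻¹) * (x * b * x⁻¹ * (b : Γ)⁻¹) := by
            rw [← h1]; group)
  have hθ : ∀ a : D, ((θ a : D) : Γ) = x * a * x⁻¹ * (a : Γ)⁻¹ := fun a => rfl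
  have hsurj : Function.Surjective θ := by
    intro d
    have h1 := hgen (θ.range.map D.subtype) (by
      intro a ha
      exact ⟨θ ⟨a, ha⟩, ⟨⟨a, ha⟩, rfl⟩, rfl⟩) d.2
    obtain ⟨_, ⟨a, rfl⟩, ha⟩ := h1
    exact ⟨a, Subtype.ext ha⟩
  have hinj : Function.Injective θ := Finite.injective_iff_surjective.2 hsurj
  intro c hc hxc
  have h1 : θ ⟨c, hc⟩ = θ 1 := by
    apply Subtype.ext
    rw [hθ, map_one]
    show x * c * x⁻¹ * c⁻¹ = 1
    rw [hxc]; group
  exact congrArg Subtype.val (hinj h1)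

end grp

variable {q : ℕ} [Fact q.Prime] {V : Type*} [AddCommGroup V] [Module (ZMod q) V] [Finite V]

theorem abelian_false {p n : ℕ} (hp : IsPPD p q n) (hV : Nat.card V = q ^ n)
    (x : V ≃ₗ[ZMod q] V) (hx : orderOf x = p) (D : Subgroup (V ≃ₗ[ZMod q] V))
    (hDq : ¬ q ∣ Nat.card D) (hxD : ∀ a ∈ D, x * a * x⁻¹ ∈ D)
    (hab : ∀ a ∈ D, ∀ b ∈ D, a * b = b * a)
    (hgen : ∀ K : Subgroup (V ≃ₗ[ZMod q] V), (∀ a ∈ D, x * a * x⁻¹ * a⁻¹ ∈ K) → D ≤ K)
    (hne : D ≠ ⊥) : False := by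
  classical
  have hfinG : Finite (V ≃ₗ[ZMod q] V) :=
    Finite.of_injective (fun f => (f : V → V)) DFunLike.coe_injective
  have : Fintype D := Fintype.ofFinite _
  have hpp : p.Prime := hp.1
  let T : (V ≃ₗ[ZMod q] V) →* Module.End (ZMod q) V :=
    LinearEquiv.automorphismGroup.toLinearMapMonoidHom
  have hT : ∀ g v, T g v = g v := fun _ _ => rfl
  have hTx : T x = x.toLinearMap := rfl
  have hcent := cent_trivial_of_gen x D hxD hab hgen
  have hxN : x ∈ Subgroup.normalizer (D : Set (V ≃ₗ[ZMod q] V)) :=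
    mem_normalizer_of_conj_mem x (isOfFinOrder_of_finite x) D hxD
  have hzN : Subgroup.zpowers x ≤ Subgroup.normalizer (D : Set (V ≃ₗ[ZMod q] V)) :=
    (Subgroup.zpowers_le).2 hxN
  have hconj : ∀ g ∈ Subgroup.zpowers x, ∀ a ∈ D, g⁻¹ * a * g ∈ D := by
    intro g hg a ha
    have h1 := (Subgroup.mem_normalizer_iff.1 (hzN (Subgroup.inv_mem _ hg)) a).1 ha
    rwa [inv_inv] at h1
  -- the norm vanishes
  have hN : ∑ i ∈ range p, (T x) ^ i = 0 := by
    have h1 : (T x - 1) * ∑ i ∈ range p, (T x) ^ i = 0 := by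
      rw [mul_geom_sum, ← map_pow, ← hx, pow_orderOf_eq_one, map_one, sub_self]
    apply LinearMap.ext
    intro v
    have h2 := LinearMap.congr_fun h1 v
    have h3 : (∑ i ∈ range p, (T x) ^ i) v ∈ LinearMap.ker (x.toLinearMap - 1) := h2
    rw [ker_eq_bot_of_ppd hp hV x hx] at h3
    exact h3
  -- the sum over D vanishes
  set σ : Module.End (ZMod q) V := ∑ d : D, T d with hσ
  have hbσ : ∀ b : D, T b * σ = σ := by
    intro b
    rw [hσ, Finset.mul_sum]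
    simp only [← map_mul]
    exact Equiv.sum_comp (Equiv.mulLeft b) (fun d : D => T (d : V ≃ₗ[ZMod q] V))
  let W : Submodule (ZMod q) V :=
    { carrier := {v | ∀ d ∈ D, d v = v}
      add_mem' := by
        intro a b ha hb d hd
        rw [map_add, ha d hd, hb d hd]
      zero_mem' := fun d _ => map_zero d
      smul_mem' := by
        intro c a ha d hd
        rw [map_smul, ha d hd] }
  have hWinv : ∀ h ∈ Subgroup.zpowers x, ∀ w ∈ W, h w ∈ W := by
    intro h hh w hw d hd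
    have h1 := hw _ (hconj h hh d hd)
    have h2 : d (h w) = h ((h⁻¹ * d * h) w) := by
      show d (h w) = (h * (h⁻¹ * d * h)) w
      have : h * (h⁻¹ * d * h) = d * h := by group
      rw [this]; rfl
    rw [h2, h1]
  obtain ⟨d0, hd0, hd1⟩ : ∃ d ∈ D, d ≠ 1 := by
    by_contra hcon
    push Not at hcon
    exact hne ((Subgroup.eq_bot_iff_forall D).2 hcon)
  obtain ⟨v0, hv0⟩ : ∃ v, d0 v ≠ v := by
    by_contra hcon
    push Not at hcon
    exact hd1 (LinearEquiv.ext hcon)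
  have hWbot : W = ⊥ := by
    rcases irr_of_ppd hp hV x hx W hWinv with h | h
    · exact h
    · exfalso
      have : v0 ∈ W := h ▸ Submodule.mem_top
      exact hv0 (this d0 hd0)
  have hσ0 : σ = 0 := by
    apply LinearMap.ext
    intro v
    have : σ v ∈ W := by
      intro d hd
      exact LinearMap.congr_fun (hbσ ⟨d, hd⟩) v
    rw [hWbot] at this
    exact this
  -- the double sum
  have hzero : ∑ i ∈ range p, ∑ a : D, T a * (T x) ^ i * T (a : V ≃ₗ[ZMod q] V)⁻¹ = 0 := by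
    rw [Finset.sum_comm]
    apply Finset.sum_eq_zero
    intro a _
    rw [← Finset.sum_mul, ← Finset.mul_sum, hN, mul_zero, zero_mul]
  have hterm : ∀ i ∈ range p, i ≠ 0 →
      ∑ a : D, T a * (T x) ^ i * T (a : V ≃ₗ[ZMod q] V)⁻¹ = 0 := by
    intro i hi hi0
    rw [Finset.mem_range] at hi
    set g := x ^ i with hg
    have hgz : g ∈ Subgroup.zpowers x := Subgroup.npow_mem_zpowers x i
    have hcop : Nat.Coprime i p := by
      apply Nat.Coprime.symm
      rw [hpp.coprime_iff_not_dvd]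
      intro hdvd
      exact absurd (Nat.le_of_dvd (Nat.pos_of_ne_zero hi0) hdvd) (by omega)
    -- x is a power of g
    have hxg : ∃ m : ℕ, g ^ m = x := exists_pow_eq_self_of_coprime (hx.symm ▸ hcop)
    let ψ : D → D := fun a => ⟨g⁻¹ * a * g * (a : V ≃ₗ[ZMod q] V)⁻¹,
      D.mul_mem (hconj g hgz a a.2) (D.inv_mem a.2)⟩
    have hψinj : Function.Injective ψ := by
      intro a b hab'
      have h1 : g⁻¹ * a * g * (a : V ≃ₗ[ZMod q] V)⁻¹ = g⁻¹ * b * g * (b : V ≃ₗ[ZMod q] V)⁻¹ :=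
        congrArg Subtype.val hab'
      have h2 : g * ((b : V ≃ₗ[ZMod q] V)⁻¹ * a) = ((b : V ≃ₗ[ZMod q] V)⁻¹ * a) * g := by
        have h3 : (a : V ≃ₗ[ZMod q] V) * g * (a : V ≃ₗ[ZMod q] V)⁻¹ =
            b * g * (b : V ≃ₗ[ZMod q] V)⁻¹ := by
          have := congrArg (fun z => g * z) h1
          simpa [mul_assoc] using this
        calc g * ((b : V ≃ₗ[ZMod q] V)⁻¹ * a)
            = (b : V ≃ₗ[ZMod q] V)⁻¹ * (b * g * (b : V ≃ₗ[ZMod q] V)⁻¹) * a := by group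
          _ = (b : V ≃ₗ[ZMod q] V)⁻¹ * (a * g * (a : V ≃ₗ[ZMod q] V)⁻¹) * a := by rw [h3]
          _ = _ := by group
      have h4 : x * ((b : V ≃ₗ[ZMod q] V)⁻¹ * a) = ((b : V ≃ₗ[ZMod q] V)⁻¹ * a) * x := by
        obtain ⟨k, hk⟩ := hxg
        rw [← hk]
        exact ((Commute.pow_left (show Commute g _ from h2) k)).eq
      have h5 := hcent _ (D.mul_mem (D.inv_mem b.2) a.2) h4
      apply Subtype.ext
      exact (inv_mul_eq_one.1 h5).symm
    have hψbij : Function.Bijective ψ := Finite.injective_iff_bijective.1 hψinj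
    have h6 : ∀ a : D, T a * (T x) ^ i * T (a : V ≃ₗ[ZMod q] V)⁻¹ = T g * T (ψ a) := by
      intro a
      rw [← map_pow, ← map_mul, ← map_mul, ← map_mul]
      congr 1
      show (a : V ≃ₗ[ZMod q] V) * x ^ i * (a : V ≃ₗ[ZMod q] V)⁻¹ =
        g * (g⁻¹ * a * g * (a : V ≃ₗ[ZMod q] V)⁻¹)
      rw [← hg]; group
    rw [Finset.sum_congr rfl (fun a _ => h6 a), ← Finset.mul_sum,
      hψbij.sum_comp (fun d : D => T (d : V ≃ₗ[ZMod q] V)), ← hσ, hσ0, mul_zero]
  rw [Finset.sum_eq_single 0 hterm (by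
    intro h0
    exact absurd (Finset.mem_range.2 hpp.pos) h0)] at hzero
  have h7 : ∀ a : D, T a * (T x) ^ 0 * T (a : V ≃ₗ[ZMod q] V)⁻¹ = 1 := by
    intro a
    rw [pow_zero, mul_one, ← map_mul, mul_inv_cancel, map_one]
  rw [Finset.sum_congr rfl (fun a _ => h7 a), Finset.sum_const, Finset.card_univ,
    ← Nat.card_eq_fintype_card] at hzero
  apply hDq
  rw [← ZMod.natCast_eq_zero_iff]
  have hv00 : v0 ≠ 0 := by
    intro h0
    apply hv0
    rw [h0, map_zero]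
  have h8 := LinearMap.congr_fun hzero v0
  rw [LinearMap.smul_apply, Module.End.one_apply, LinearMap.zero_apply,
    ← Nat.cast_smul_eq_nsmul (ZMod q), smul_eq_zero] at h8
  exact h8.resolve_right hv00

end Cfsg.Agent.Lib.Helper62.Hup
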