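import Mathlib
import Cfsg.Agent.Lib.Helper76.Hup.Defs

set_option autoImplicit false
set_option linter.unusedSectionVars false

namespace Cfsg.Agent.Lib.Helper62.Hup

open Cfsg.Agent.Lib.Helper76.Hup Module

variable {q : ℕ} [Fact q.Prime] {V : Type*} [AddCommGroup V] [Module (ZMod q) V] [Finite V]

/-- the group elements commuting with an endomorphism -/
def commSub (f : Module.End (ZMod q) V) : Subgroup (V ≃ₗ[ZMod q] V) where
  carrier := {h | ∀ w, f (h w) = h (f w)}
  mul_mem' := by
    intro a b ha hb w
    show f (a (b w)) = a (b (f w))
    rw [ha, hb]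
  one_mem' := fun w => rfl
  inv_mem' := by
    intro a ha w
    apply a.injective
    rw [← ha]
    show f (a (a.symm w)) = a (a.symm (f w))
    rw [LinearEquiv.apply_symm_apply, LinearEquiv.apply_symm_apply]

theorem injective_of_commute_irr (x : V ≃ₗ[ZMod q] V) (hx : Irr (Subgroup.zpowers x))
    (f : Module.End (ZMod q) V) (hf : f * x.toLinearMap = x.toLinearMap * f) (h0 : f ≠ 0) :
    Function.Injective f := by
  have hxK : x ∈ commSub f := fun w => LinearMap.congr_fun hf w
  have hle : Subgroup.zpowers x ≤ commSub f := (Subgroup.zpowers_le).2 hxK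
  rcases hx (LinearMap.ker f) (by
    intro h hh w hw
    rw [LinearMap.mem_ker] at hw ⊢
    rw [hle hh w, hw, map_zero]) with h | h
  · exact LinearMap.ker_eq_bot.1 h
  · exact absurd (LinearMap.ker_eq_top.1 h) h0

theorem isCyclic_of_commute_irr [Nontrivial V] (x : V ≃ₗ[ZMod q] V)
    (hx : Irr (Subgroup.zpowers x))
    (P : Subgroup (V ≃ₗ[ZMod q] V)) (hP : ∀ a ∈ P, x * a = a * x) : IsCyclic P := by
  have hfin : Finite (Module.End (ZMod q) V) :=
    Finite.of_injective (fun f => (f : V → V)) DFunLike.coe_injective
  let S := Subring.centralizer ({x.toLinearMap} : Set (Module.End (ZMod q) V))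
  have hSmem : ∀ s : S, (s : Module.End (ZMod q) V) * x.toLinearMap = x.toLinearMap * s := by
    intro s
    exact ((Subring.mem_centralizer_iff.1 s.2) _ rfl).symm
  have hnz : NoZeroDivisors S := by
    constructor
    intro a b hab
    by_cases ha : a = 0
    · exact Or.inl ha
    · right
      have ha' : (a : Module.End (ZMod q) V) ≠ 0 := fun h => ha (Subtype.ext h)
      have hinj := injective_of_commute_irr x hx a (hSmem a) ha'
      apply Subtype.ext
      apply LinearMap.ext
      intro v
      apply hinj
      have := LinearMap.congr_fun (congrArg Subtype.val hab) v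
      have h2 : (a : Module.End (ZMod q) V) (((0 : S) : Module.End (ZMod q) V) v) = 0 := map_zero _
      rw [h2]
      exact this
  have hdom : IsDomain S := NoZeroDivisors.to_isDomain S
  have hfield := Finite.isDomain_to_isField S
  letI : CommRing S := { (inferInstance : Ring S) with mul_comm := hfield.mul_comm }
  have hfinP : Finite P := by
    have : Finite (V ≃ₗ[ZMod q] V) :=
      Finite.of_injective (fun f => (f : V → V)) DFunLike.coe_injective
    infer_instance
  let φ : P →* S :=
    { toFun := fun a => ⟨(a : V ≃ₗ[ZMod q] V).toLinearMap, by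
        rw [Subring.mem_centralizer_iff]
        intro g hg
        rw [Set.mem_singleton_iff] at hg
        subst hg
        have := hP a a.2
        apply LinearMap.ext
        intro v
        exact LinearEquiv.congr_fun this v⟩
      map_one' := rfl
      map_mul' := fun a b => rfl }
  have hφ : Function.Injective φ := by
    intro a b hab
    apply Subtype.ext
    apply LinearEquiv.toLinearMap_injective
    exact congrArg Subtype.val hab
  exact isCyclic_of_subgroup_isDomain φ hφ

end Cfsg.Agent.Lib.Helper62.Hup
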