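import Mathlib
import Cfsg.Agent.Lib.Helper76.Hup.Defs

set_option autoImplicit false
set_option linter.unusedSectionVars false

namespace Cfsg.Agent.Lib.Helper62.Hup

open Cfsg.Agent.Lib.Helper76.Hup Module Finset

variable {q : ℕ} [Fact q.Prime] {V : Type*} [AddCommGroup V] [Module (ZMod q) V] [Finite V]

theorem dim_ne_zero_of_injective [Nontrivial V] (f : Module.End (ZMod q) V)
    (hf : Function.Injective f) : f ≠ 0 := by
  intro h0
  obtain ⟨v, hv⟩ := exists_ne (0 : V)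
  apply hv
  apply hf
  rw [h0]
  rfl

/-- elements in distinct cosets of `C₀` are independent over `S` -/
theorem dim_claim [Nontrivial V] (D C₀ : Subgroup (V ≃ₗ[ZMod q] V))
    (S : Subring (Module.End (ZMod q) V)) (hS0 : ∀ s ∈ S, s ≠ 0 → Function.Injective s)
    (hSD : ∀ s ∈ S, ∀ d ∈ D, s * d.toLinearMap = d.toLinearMap * s)
    (hCS : ∀ c ∈ C₀, c.toLinearMap ∈ S)
    (hcomm : ∀ a ∈ D, ∀ b ∈ D, a * b * a⁻¹ * b⁻¹ ∈ C₀)
    (hnd : ∀ t ∈ D, t ∉ C₀ → ∃ g ∈ D, g * t ≠ t * g)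
    {ι : Type*} [DecidableEq ι] (τ : ι → V ≃ₗ[ZMod q] V) :
    ∀ (m : ℕ) (T : Finset ι), T.card = m → T.Nonempty → (∀ i ∈ T, τ i ∈ D) →
      (∀ i ∈ T, ∀ j ∈ T, (τ i)⁻¹ * τ j ∈ C₀ → i = j) →
      ∀ c : ι → Module.End (ZMod q) V, (∀ i ∈ T, c i ∈ S ∧ c i ≠ 0) →
      ∑ i ∈ T, c i * (τ i).toLinearMap ≠ 0 := by
  classical
  let Tm : (V ≃ₗ[ZMod q] V) →* Module.End (ZMod q) V :=
    LinearEquiv.automorphismGroup.toLinearMapMonoidHom
  have hTm : ∀ g : V ≃ₗ[ZMod q] V, g.toLinearMap = Tm g := fun _ => rfl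
  have hTinj : Function.Injective Tm := fun a b h => LinearEquiv.toLinearMap_injective h
  intro m
  induction m using Nat.strong_induction_on with
  | _ m ih =>
    intro T hm hne hD hdist c hc hsum
    obtain ⟨i0, hi0⟩ := hne
    by_cases hex : ∃ i1 ∈ T, i1 ≠ i0
    · obtain ⟨i1, hi1, hne1⟩ := hex
      have htD : (τ i0)⁻¹ * τ i1 ∈ D := D.mul_mem (D.inv_mem (hD i0 hi0)) (hD i1 hi1)
      have htC : (τ i0)⁻¹ * τ i1 ∉ C₀ := fun h => hne1 (hdist i0 hi0 i1 hi1 h).symm
      obtain ⟨g, hgD, hg⟩ := hnd _ htD htC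
      let z : ι → V ≃ₗ[ZMod q] V := fun i => g * τ i * g⁻¹ * (τ i)⁻¹
      have hzC : ∀ i ∈ T, z i ∈ C₀ := fun i hi => hcomm g hgD _ (hD i hi)
      have hzS : ∀ i ∈ T, Tm (z i) ∈ S := fun i hi => hCS _ (hzC i hi)
      let c' : ι → Module.End (ZMod q) V := fun i => c i * (Tm (z i) - Tm (z i0))
      have hterm : ∀ i ∈ T, c' i * (τ i).toLinearMap =
          Tm g * (c i * (τ i).toLinearMap) * Tm g⁻¹ - (c i * (τ i).toLinearMap) * Tm (z i0) := by
        intro i hi
        have e1 : c i * Tm g = Tm g * c i := hSD _ (hc i hi).1 g hgD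
        have e2 : Tm (z i0) * Tm (τ i) = Tm (τ i) * Tm (z i0) := hSD _ (hzS i0 hi0) _ (hD i hi)
        have e3 : Tm (z i) * Tm (τ i) = Tm g * Tm (τ i) * Tm g⁻¹ := by
          rw [← map_mul, ← map_mul, ← map_mul]
          congr 1
          show g * τ i * g⁻¹ * (τ i)⁻¹ * τ i = g * τ i * g⁻¹
          group
        show c i * (Tm (z i) - Tm (z i0)) * Tm (τ i) = _
        rw [hTm, mul_assoc, sub_mul, e3, e2, mul_sub]
        congr 1
        · rw [← mul_assoc, ← mul_assoc, e1]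
          simp only [mul_assoc]
      have hsum' : ∑ i ∈ T, c' i * (τ i).toLinearMap = 0 := by
        rw [Finset.sum_congr rfl hterm, Finset.sum_sub_distrib, ← Finset.sum_mul, ← Finset.sum_mul,
          ← Finset.mul_sum, hsum]
        simp
      set T' := T.filter (fun i => z i ≠ z i0) with hT'
      have hsub : ∑ i ∈ T', c' i * (τ i).toLinearMap = 0 := by
        rw [← hsum']
        apply Finset.sum_subset (Finset.filter_subset _ _)
        intro i hi hi'
        have : z i = z i0 := by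
          by_contra hne
          exact hi' (Finset.mem_filter.2 ⟨hi, hne⟩)
        show c i * (Tm (z i) - Tm (z i0)) * _ = 0
        rw [this, sub_self, mul_zero, zero_mul]
      have hlt : T'.card < m := by
        rw [← hm]
        apply Finset.card_lt_card
        rw [hT', Finset.filter_ssubset]
        exact ⟨i0, hi0, fun h => h rfl⟩
      have hi1' : i1 ∈ T' := by
        rw [hT', Finset.mem_filter]
        refine ⟨hi1, fun heq => hg ?_⟩
        have h1 : g * τ i1 * g⁻¹ * (τ i1)⁻¹ = g * τ i0 * g⁻¹ * (τ i0)⁻¹ := heq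
        have h2 : τ i1 * g⁻¹ * (τ i1)⁻¹ = τ i0 * g⁻¹ * (τ i0)⁻¹ := by
          have := congrArg (fun w => g⁻¹ * w) h1
          simpa [mul_assoc] using this
        calc g * ((τ i0)⁻¹ * τ i1)
            = g * ((τ i0)⁻¹ * (τ i1 * g⁻¹ * (τ i1)⁻¹) * τ i1) * g := by group
          _ = g * ((τ i0)⁻¹ * (τ i0 * g⁻¹ * (τ i0)⁻¹) * τ i1) * g := by rw [h2]
          _ = (τ i0)⁻¹ * τ i1 * g := by group
      refine ih T'.card hlt T' rfl ⟨i1, hi1'⟩ (fun i hi => hD i (Finset.mem_filter.1 hi).1)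
        (fun i hi j hj => hdist i (Finset.mem_filter.1 hi).1 j (Finset.mem_filter.1 hj).1) c' ?_ hsub
      intro i hi
      obtain ⟨hiT, hiz⟩ := Finset.mem_filter.1 hi
      have hd : Tm (z i) - Tm (z i0) ∈ S := S.sub_mem (hzS i hiT) (hzS i0 hi0)
      have hd0 : Tm (z i) - Tm (z i0) ≠ 0 := fun h => hiz (hTinj (sub_eq_zero.1 h))
      refine ⟨S.mul_mem (hc i hiT).1 hd, ?_⟩
      apply dim_ne_zero_of_injective
      exact (hS0 _ (hc i hiT).1 (hc i hiT).2).comp (hS0 _ hd hd0)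
    · push Not at hex
      have hT1 : T = {i0} := Finset.eq_singleton_iff_unique_mem.2 ⟨hi0, hex⟩
      rw [hT1, Finset.sum_singleton] at hsum
      apply (hc i0 hi0).2
      have h1 := congrArg (fun f => f * Tm (τ i0)⁻¹) hsum
      simp only [zero_mul] at h1
      rw [hTm, mul_assoc, ← map_mul, mul_inv_cancel, map_one, mul_one] at h1
      exact h1

theorem card_le_sq_mul [Nontrivial V] (D C₀ : Subgroup (V ≃ₗ[ZMod q] V)) (hCD : C₀ ≤ D)
    (S : Subring (Module.End (ZMod q) V)) (hS0 : ∀ s ∈ S, s ≠ 0 → Function.Injective s)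
    (hSD : ∀ s ∈ S, ∀ d ∈ D, s * d.toLinearMap = d.toLinearMap * s)
    (hCS : ∀ c ∈ C₀, c.toLinearMap ∈ S)
    (hcomm : ∀ a ∈ D, ∀ b ∈ D, a * b * a⁻¹ * b⁻¹ ∈ C₀)
    (hnd : ∀ t ∈ D, t ∉ C₀ → ∃ g ∈ D, g * t ≠ t * g) :
    Nat.card D ≤ (Module.finrank (ZMod q) V) ^ 2 * Nat.card C₀ := by
  classical
  have hfinG : Finite (V ≃ₗ[ZMod q] V) :=
    Finite.of_injective (fun f => (f : V → V)) DFunLike.coe_injective
  let Q := D ⧸ C₀.subgroupOf D
  have : Fintype Q := Fintype.ofFinite _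
  let τ : Q → V ≃ₗ[ZMod q] V := fun ξ => ((Quotient.out ξ : D) : V ≃ₗ[ZMod q] V)
  have hτD : ∀ ξ, τ ξ ∈ D := fun ξ => (Quotient.out ξ : D).2
  have hτ : ∀ ξ η : Q, (τ ξ)⁻¹ * τ η ∈ C₀ → ξ = η := by
    intro ξ η h
    have h1 : ((Quotient.out ξ : D) : Q) = ((Quotient.out η : D) : Q) := by
      rw [QuotientGroup.eq, Subgroup.mem_subgroupOf]
      exact h
    rwa [QuotientGroup.out_eq', QuotientGroup.out_eq'] at h1
  have hscal : ∀ a : ZMod q, a • (1 : Module.End (ZMod q) V) ∈ S := by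
    intro a
    have h1 : a • (1 : Module.End (ZMod q) V) = (a.val : ℕ) • (1 : Module.End (ZMod q) V) := by
      rw [← Nat.cast_smul_eq_nsmul (ZMod q), ZMod.natCast_zmod_val]
    rw [h1]
    exact S.nsmul_mem S.one_mem _
  have hli : LinearIndependent (ZMod q) (fun ξ : Q => (τ ξ).toLinearMap) := by
    rw [linearIndependent_iff']
    intro s g hsum i hi
    by_contra hgi
    have key := dim_claim D C₀ S hS0 hSD hCS hcomm hnd τ _ (s.filter (fun j => g j ≠ 0)) rfl
      ⟨i, Finset.mem_filter.2 ⟨hi, hgi⟩⟩ (fun j _ => hτD j) (fun j _ k _ => hτ j k)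
      (fun j => g j • (1 : Module.End (ZMod q) V)) (by
        intro j hj
        refine ⟨hscal _, ?_⟩
        intro h0
        rcases smul_eq_zero.1 h0 with h | h
        · exact (Finset.mem_filter.1 hj).2 h
        · exact one_ne_zero h)
    apply key
    rw [← hsum]
    have e1 : ∀ j, g j • (1 : Module.End (ZMod q) V) * (τ j).toLinearMap =
        g j • (τ j).toLinearMap := fun j => by rw [smul_mul_assoc, one_mul]
    simp only [e1]
    apply Finset.sum_subset (Finset.filter_subset _ _)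
    intro j hj hj'
    have : g j = 0 := by
      by_contra hne
      exact hj' (Finset.mem_filter.2 ⟨hj, hne⟩)
    rw [this, zero_smul]
  have h1 := hli.fintype_card_le_finrank
  have h2 : finrank (ZMod q) (V →ₗ[ZMod q] V) = finrank (ZMod q) V ^ 2 := by
    rw [Module.finrank_linearMap, sq]
  rw [h2, ← Nat.card_eq_fintype_card] at h1
  have h3 : Nat.card D = Nat.card Q * Nat.card (C₀.subgroupOf D) :=
    Subgroup.card_eq_card_quotient_mul_card_subgroup _
  have h4 : Nat.card (C₀.subgroupOf D) = Nat.card C₀ :=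
    Nat.card_congr (Subgroup.subgroupOfEquivOfLe hCD).toEquiv
  rw [h3, h4]
  exact Nat.mul_le_mul_right _ h1

end Cfsg.Agent.Lib.Helper62.Hup
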