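import Mathlib
import Cfsg.Agent.Lib.Helper92.MdlDef

set_option autoImplicit false

namespace Cfsg.Agent.Lib.Helper92.Mdl

open Matrix

set_option linter.unusedSectionVars false

variable {ι : Type} [Fintype ι] [DecidableEq ι] (B : Matrix ι ι (ZMod 2))

theorem surj_bet_single (Δ : Matrix ι ι (ZMod 2)) (i j : ι) :
    bet Δ (Pi.single i 1) (Pi.single j 1) = Δ i j := by
  simp [bet]

theorem surj_bet_add (M N : Matrix ι ι (ZMod 2)) (u w : ι → ZMod 2) :
    bet (M + N) u w = bet M u w + bet N u w := by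
  simp [bet, add_mulVec, dotProduct_add]

theorem surj_bet_transpose (M : Matrix ι ι (ZMod 2)) (u w : ι → ZMod 2) :
    bet Mᵀ u w = bet M w u := by
  simp only [bet]
  rw [mulVec_transpose, dotProduct_comm, ← dotProduct_mulVec]

theorem surj_bet_conj (A : Matrix ι ι (ZMod 2)) (u w : ι → ZMod 2) :
    bet (Aᵀ * B * A) u w = bet B (A *ᵥ u) (A *ᵥ w) := by
  simp only [bet]
  rw [← mulVec_mulVec, ← mulVec_mulVec, dotProduct_mulVec, vecMul_transpose]

/-- a symmetric matrix with zero diagonal is the polar form of a quadratic form -/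
theorem surj_exists_quad (Δ : Matrix ι ι (ZMod 2)) (h0 : ∀ i, Δ i i = 0) (hs : ∀ i j, Δ i j = Δ j i) :
    ∃ γ : (ι → ZMod 2) → ZMod 2, ∀ u w, γ (u + w) = γ u + γ w + bet Δ u w := by
  let e := Fintype.equivFin ι
  let H : Matrix ι ι (ZMod 2) := fun i j => if e i < e j then Δ i j else 0
  have hH : H + Hᵀ = Δ := by
    ext i j
    show (if e i < e j then Δ i j else 0) + (if e j < e i then Δ j i else 0) = Δ i j
    rcases lt_trichotomy (e i) (e j) with h | h | h
    · rw [if_pos h, if_neg (not_lt.2 h.le), add_zero]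
    · have hij : i = j := e.injective h
      subst hij
      simp [h0]
    · rw [if_neg (not_lt.2 h.le), if_pos h, zero_add, hs]
  refine ⟨fun u => bet H u u, fun u w => ?_⟩
  simp only [bet_add_left, bet_add_right]
  rw [← hH, surj_bet_add, surj_bet_transpose]
  ring

theorem exists_aut (A : Matrix.GeneralLinearGroup ι (ZMod 2))
    (hA : ∀ u, qf B ((A : Matrix ι ι (ZMod 2)) *ᵥ u) = qf B u) :
    ∃ φ : MulAut (Mdl B), ∀ x : Mdl B, (φ x).v = (A : Matrix ι ι (ZMod 2)) *ᵥ x.v := by
  set M : Matrix ι ι (ZMod 2) := (A : Matrix ι ι (ZMod 2)) with hM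
  set Δ : Matrix ι ι (ZMod 2) := Mᵀ * B * M + B with hΔ
  have hD : ∀ u w, bet Δ u w = bet B (M *ᵥ u) (M *ᵥ w) + bet B u w := by
    intro u w
    rw [hΔ, surj_bet_add, surj_bet_conj]
  have hDD : ∀ u, bet Δ u u = 0 := by
    intro u
    rw [hD]
    have := hA u
    simp only [qf] at this
    rw [this, zmod2_add_self]
  have hsym : ∀ u w, bet Δ u w = bet Δ w u := by
    intro u w
    have h1 := hDD (u + w)
    rw [bet_add_left, bet_add_right, bet_add_right, hDD, hDD] at h1
    have h2 := zmod2_add_self (bet Δ w u)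
    linear_combination h1 - h2
  obtain ⟨γ, hγ⟩ := surj_exists_quad Δ (fun i => by rw [← surj_bet_single Δ i i, hDD])
    (fun i j => by rw [← surj_bet_single Δ i j, ← surj_bet_single Δ j i, hsym])
  let f : Mdl B →* Mdl B := MonoidHom.mk' (fun x => ⟨M *ᵥ x.v, x.a + γ x.v⟩) (by
    intro x y
    ext1
    · simp [mulVec_add]
    · simp only [mul_a, mul_v, hγ, hD]
      have h2 := zmod2_add_self (bet B x.v y.v)
      linear_combination h2)
  have hfv : ∀ x, (f x).v = M *ᵥ x.v := fun x => rfl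
  have hfa : ∀ x, (f x).a = x.a + γ x.v := fun x => rfl
  have hinj : Function.Injective f := by
    intro x y hxy
    have h1 : M *ᵥ x.v = M *ᵥ y.v := by rw [← hfv, ← hfv, hxy]
    have h2 : x.v = y.v := by
      have h3 := congrArg (fun z => ((A⁻¹ : Matrix.GeneralLinearGroup ι (ZMod 2)) : Matrix ι ι (ZMod 2)) *ᵥ z) h1
      simp only [mulVec_mulVec, hM] at h3
      rw [← Matrix.GeneralLinearGroup.coe_mul, inv_mul_cancel] at h3
      simpa using h3
    have h4 : x.a + γ x.v = y.a + γ y.v := by rw [← hfa, ← hfa, hxy]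
    rw [h2] at h4
    ext1
    · exact h2
    · exact add_right_cancel h4
  exact ⟨MulEquiv.ofBijective f (Finite.injective_iff_bijective.1 hinj), fun x => rfl⟩

end Cfsg.Agent.Lib.Helper92.Mdl
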