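import Mathlib
import Cfsg.Agent.Lib.Helper48.SpProj
import Cfsg.Agent.Lib.Helper48.SpExist
import Cfsg.Agent.S0245

set_option autoImplicit false
open Module LinearMap Finset

namespace Cfsg.Agent.Lib.Helper62.PG

open Cfsg.Agent.Lib.Helper48 Cfsg.Agent.Lib.Helper17

section
variable {F : Type*} [Field F]

/-- the elementary unipotent element of `Sp_2` -/
def uSp : Matrix.symplecticGroup (Fin 1) F :=
  ⟨Matrix.fromBlocks 1 1 0 1, by
    rw [SymplecticGroup.mem_iff, Matrix.J, Matrix.fromBlocks_transpose,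
      Matrix.fromBlocks_multiply, Matrix.fromBlocks_multiply]
    simp⟩

theorem uSp_pow (j : ℕ) : (((uSp : Matrix.symplecticGroup (Fin 1) F) ^ j :
    Matrix.symplecticGroup (Fin 1) F) : Matrix (Fin 1 ⊕ Fin 1) (Fin 1 ⊕ Fin 1) F) =
    Matrix.fromBlocks 1 ((j : F) • 1) 0 1 := by
  induction j with
  | zero => simp [Matrix.fromBlocks_one]
  | succ j ih =>
    rw [pow_succ]
    change ((uSp ^ j : Matrix.symplecticGroup (Fin 1) F) :
      Matrix (Fin 1 ⊕ Fin 1) (Fin 1 ⊕ Fin 1) F) * Matrix.fromBlocks 1 1 0 1 = _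
    rw [ih, Matrix.fromBlocks_multiply]
    simp [add_smul, add_comm]

theorem uSp_pow_eq_one_iff (p : ℕ) [CharP F p] (j : ℕ) :
    (uSp : Matrix.symplecticGroup (Fin 1) F) ^ j = 1 ↔ p ∣ j := by
  rw [← CharP.cast_eq_zero_iff F p j]
  constructor
  · intro h
    have h1 := congrArg (fun A : Matrix.symplecticGroup (Fin 1) F =>
      (A : Matrix (Fin 1 ⊕ Fin 1) (Fin 1 ⊕ Fin 1) F) (Sum.inl 0) (Sum.inr 0)) h
    simp only [uSp_pow] at h1
    simpa using h1
  · intro h
    apply Subtype.ext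
    rw [uSp_pow, h, zero_smul, Matrix.fromBlocks_one]
    rfl

theorem one_eq_neg_one_of_uSp_pow (j : ℕ)
    (h : (((uSp : Matrix.symplecticGroup (Fin 1) F) ^ j : Matrix.symplecticGroup (Fin 1) F) :
      Matrix (Fin 1 ⊕ Fin 1) (Fin 1 ⊕ Fin 1) F) = -1) : (1 : F) = -1 := by
  rw [uSp_pow] at h
  have h1 := congrArg (fun A : Matrix (Fin 1 ⊕ Fin 1) (Fin 1 ⊕ Fin 1) F =>
    A (Sum.inl 0) (Sum.inl 0)) h
  simpa using h1

end

variable {F : Type*} [Field F] [Fintype F]

theorem exists_PSp_orderOf_mul (p : ℕ) [Fact p.Prime] [CharP F p] {n r i : ℕ} (hr : r.Prime)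
    (hr2 : r ≠ 2) (hrp : r ≠ p) (hi : 1 ≤ i) (hin : i ≤ n - 1)
    (h : r ∣ Fintype.card F ^ (2 * i) - 1) : ∃ y : Cfsg.PSp n F, orderOf y = r * p := by
  classical
  have hp : p.Prime := Fact.out
  have : Fact r.Prime := ⟨hr⟩
  obtain ⟨n₁, rfl⟩ : ∃ n₁, n = n₁ + 1 := ⟨n - 1, by omega⟩
  rw [Nat.add_sub_cancel] at hin
  -- an element of order r
  have hcard := Cfsg.Agent.S0245.result (F := F) rfl n₁
  have hdvd : r ∣ Nat.card (Matrix.symplecticGroup (Fin n₁) F) := by
    rw [hcard]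
    apply Dvd.dvd.mul_left
    have h1 : Fintype.card F ^ (2 * (i - 1 + 1)) - 1 ∣
        ∏ i ∈ Finset.range n₁, (Fintype.card F ^ (2 * (i + 1)) - 1) :=
      Finset.dvd_prod_of_mem (fun i => Fintype.card F ^ (2 * (i + 1)) - 1)
        (Finset.mem_range.2 (by omega))
    rw [Nat.sub_add_cancel hi] at h1
    exact h.trans h1
  obtain ⟨A₁, hA₁⟩ := exists_prime_orderOf_dvd_card' r hdvd
  set A₂ : Matrix.symplecticGroup (Fin 1) F := uSp with hA₂
  set V₁ := Fin n₁ ⊕ Fin n₁ → F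
  set V₂ := Fin 1 ⊕ Fin 1 → F
  let C : LinearMap.BilinForm F (V₁ × V₂) :=
    (sympB n₁ F).comp (LinearMap.fst F _ _) (LinearMap.fst F _ _) +
      (sympB 1 F).comp (LinearMap.snd F _ _) (LinearMap.snd F _ _)
  have hC : ∀ p q, C p q = sympB n₁ F p.1 q.1 + sympB 1 F p.2 q.2 := fun p q => rfl
  have hAlt : C.IsAlt := by
    intro x
    rw [hC, sympB_isAlt, sympB_isAlt, add_zero]
  have hnd : ∀ x, (∀ y, C x y = 0) → x = 0 := by
    rintro ⟨x₁, x₂⟩ hx
    have e1 : x₁ = 0 := by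
      apply (sympB_nondegenerate (F := F) n₁).1
      intro y
      have := hx (y, 0)
      rw [hC] at this
      simpa using this
    have e2 : x₂ = 0 := by
      apply (sympB_nondegenerate (F := F) 1).1
      intro y
      have := hx (0, y)
      rw [hC] at this
      simpa using this
    rw [e1, e2]
    rfl
  have hdim : finrank F (V₁ × V₂) = 2 * (n₁ + 1) := by
    rw [finrank_prod, Module.finrank_fintype_fun_eq_card, Module.finrank_fintype_fun_eq_card]
    simp only [Fintype.card_sum, Fintype.card_fin]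
    omega
  set T₁ : End F V₁ := Matrix.mulVecLin (A₁ : Matrix (Fin n₁ ⊕ Fin n₁) (Fin n₁ ⊕ Fin n₁) F)
  set T₂ : End F V₂ := Matrix.mulVecLin (A₂ : Matrix (Fin 1 ⊕ Fin 1) (Fin 1 ⊕ Fin 1) F)
  let T : End F (V₁ × V₂) := LinearMap.prodMap T₁ T₂
  have hprod1 : ∀ (f : End F V₁) (g : End F V₂),
      (LinearMap.prodMap f g : End F (V₁ × V₂)) = 1 ↔ f = 1 ∧ g = 1 := by
    intro f g
    constructor
    · intro h
      constructor
      · apply LinearMap.ext
        intro x
        have := congrArg (fun φ : End F (V₁ × V₂) => (φ (x, 0)).1) h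
        simpa using this
      · apply LinearMap.ext
        intro x
        have := congrArg (fun φ : End F (V₁ × V₂) => (φ (0, x)).2) h
        simpa using this
    · rintro ⟨rfl, rfl⟩
      apply LinearMap.ext
      rintro ⟨x, y⟩
      rfl
  have hcop : Nat.Coprime r p := (Nat.coprime_primes hr hp).2 hrp
  have hTord : ∀ j, T ^ j = 1 ↔ r * p ∣ j := by
    intro j
    rw [prodMap_pow', hprod1, ← (sp_pow_iff A₁ j).1, ← (sp_pow_iff A₂ j).1,
      ← orderOf_dvd_iff_pow_eq_one, hA₁, hA₂, uSp_pow_eq_one_iff p j]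
    constructor
    · rintro ⟨h1, h2⟩
      exact hcop.mul_dvd_of_dvd_of_dvd h1 h2
    · intro h
      exact ⟨(dvd_mul_right r p).trans h, (dvd_mul_left p r).trans h⟩
  have hTneg : ∀ j, T ^ j = -1 → T ^ j = 1 := by
    intro j hj
    have h2 : T₂ ^ j = -1 := by
      rw [prodMap_pow'] at hj
      apply LinearMap.ext
      intro x
      have := congrArg (fun φ : End F (V₁ × V₂) => (φ (0, x)).2) hj
      simpa using this
    have h3 := one_eq_neg_one_of_uSp_pow j ((sp_pow_iff A₂ j).2.2 h2)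
    rw [hj]
    apply LinearMap.ext
    intro x
    have : (-1 : F) • x = x := by rw [← h3, one_smul]
    simpa using this
  have hTiso : IsoB C T := by
    intro x w
    rw [hC, hC]
    change sympB n₁ F (T₁ x.1) (T₁ w.1) + sympB 1 F (T₂ x.2) (T₂ w.2) = _
    rw [isoB_mulVecLin A₁, isoB_mulVecLin A₂]
  obtain ⟨A, hA⟩ := exists_sp_of_isoB C hAlt hnd hdim T hTiso
  refine ⟨QuotientGroup.mk A, ?_⟩
  have key : ∀ j, orderOf (QuotientGroup.mk A : Cfsg.PSp (n₁ + 1) F) ∣ j ↔ r * p ∣ j := by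
    intro j
    rw [orderOf_mk_sp_dvd_iff, (hA j).1, (hA j).2, ← hTord]
    constructor
    · rintro (h | h)
      · exact h
      · exact hTneg j h
    · intro h
      exact Or.inl h
  exact Nat.dvd_antisymm ((key _).2 dvd_rfl) ((key _).1 dvd_rfl)

end Cfsg.Agent.Lib.Helper62.PG
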