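import Mathlib
import Cfsg.Prelude.Def_Solvable

set_option autoImplicit false

namespace Cfsg.Agent.Lib.Helper62

open MulAction Subgroup

section

variable {H : Type*} [Group H] {X : Type*} [MulAction H X]

/-- `H` acts primitively on each orbit, and faithfully on each nontrivial orbit. -/
structure EP (H : Type*) (X : Type*) [Group H] [MulAction H X] : Prop where
  prim : ∀ x : X, IsPreprimitive H (orbit H x)
  faith : ∀ x : X, x ∉ fixedPoints H X → ∀ h : H, (∀ g : H, h • g • x = g • x) → h = 1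

theorem EP.dich (hE : EP H X) (N : Subgroup H) [N.Normal] (x : X) :
    (∀ n ∈ N, n • x = x) ∨ ∀ h : H, ∃ n ∈ N, n • x = h • x := by
  by_cases h : ∀ n ∈ N, n • x = x
  · exact Or.inl h
  · right
    have := hE.prim x
    have hne : fixedPoints N (orbit H x) ≠ Set.univ := by
      intro hu
      apply h
      intro n hn
      have h1 : (⟨x, mem_orbit_self x⟩ : orbit H x) ∈ fixedPoints N (orbit H x) := hu ▸ Set.mem_univ _
      exact congrArg Subtype.val (h1 ⟨n, hn⟩)
    have htr := IsQuasiPreprimitive.isPretransitive_of_normal (G := H) (X := orbit H x) hne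
    intro g
    obtain ⟨n, hn⟩ := htr.exists_smul_eq ⟨x, mem_orbit_self x⟩ ⟨g • x, ⟨g, rfl⟩⟩
    exact ⟨n.1, n.2, congrArg Subtype.val hn⟩

theorem EP.trans (hE : EP H X) (N : Subgroup H) [hN : N.Normal] (hne : N ≠ ⊥) {x : X}
    (hx : x ∉ fixedPoints H X) (h : H) : ∃ n ∈ N, n • x = h • x := by
  rcases hE.dich N x with h1 | h1
  · exfalso
    apply hne
    rw [eq_bot_iff_forall]
    intro n hn
    apply hE.faith x hx
    intro g
    have h2 := h1 _ (hN.conj_mem n hn g⁻¹)
    rw [inv_inv, mul_smul, mul_smul, inv_smul_eq_iff] at h2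
    exact h2
  · exact h1 h

theorem EP.semireg (hE : EP H X) (A : Subgroup H) [A.Normal] (hne : A ≠ ⊥)
    (hc : ∀ a ∈ A, ∀ b ∈ A, a * b = b * a) {x : X} (hx : x ∉ fixedPoints H X)
    {a : H} (ha : a ∈ A) (hax : a • x = x) : a = 1 := by
  apply hE.faith x hx
  intro g
  obtain ⟨b, hb, hbx⟩ := hE.trans A hne hx g
  rw [← hbx, ← mul_smul, hc a ha b hb, mul_smul, hax]

theorem EP.selfcent (hE : EP H X) (A : Subgroup H) [A.Normal] (hne : A ≠ ⊥)
    (hcA : ∀ a ∈ A, ∀ b ∈ A, a * b = b * a)
    {x : X} (hx : x ∉ fixedPoints H X) : centralizer (A : Set H) ≤ A := by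
  intro c hc
  obtain ⟨a, ha, hax⟩ := hE.trans A hne hx c
  have h1 : a⁻¹ * c = 1 := by
    apply hE.faith x hx
    intro g
    obtain ⟨b, hb, hbx⟩ := hE.trans A hne hx g
    have hcb : b * c = c * b := mem_centralizer_iff.mp hc b hb
    have hab : a⁻¹ * b = b * a⁻¹ := hcA _ (A.inv_mem ha) b hb
    have e : (a⁻¹ * c) * b = b * (a⁻¹ * c) := by
      rw [mul_assoc, ← hcb, ← mul_assoc, hab, mul_assoc]
    rw [← hbx, ← mul_smul, e, mul_smul, mul_smul, ← hax, inv_smul_smul]
  rw [inv_mul_eq_one] at h1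
  exact h1 ▸ ha

/-- a normal nilpotent subgroup is commutative -/
theorem EP.comm_of_nilpotent (hE : EP H X) (M : Subgroup H) [hM : M.Normal] (hnil : Group.IsNilpotent M)
    {x : X} (hx : x ∉ fixedPoints H X) : ∀ a ∈ M, ∀ b ∈ M, a * b = b * a := by
  by_cases hne : M = ⊥
  · intro a ha b hb
    rw [hne, mem_bot] at ha hb
    rw [ha, hb]
  have hnt : Nontrivial M := (nontrivial_iff_ne_bot M).mpr hne
  have hz : center M ≠ ⊥ := Group.IsNilpotent.center_ne_bot M
  set Z : Subgroup H := (center M).map M.subtype with hZ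
  have hZn : Z.Normal := inferInstance
  have hZne : Z ≠ ⊥ := by
    intro h
    apply hz
    rwa [hZ, map_eq_bot_iff_of_injective _ M.subtype_injective] at h
  have hZM : Z ≤ M := by
    rw [hZ]; exact map_subtype_le _
  have hMZ : ∀ m ∈ M, ∀ z ∈ Z, z * m = m * z := by
    intro m hm z hz'
    obtain ⟨z', hz'', rfl⟩ := hz'
    have := mem_center_iff.mp hz'' ⟨m, hm⟩
    exact (congrArg Subtype.val this).symm
  have hZc : ∀ a ∈ Z, ∀ b ∈ Z, a * b = b * a := fun a ha b hb => hMZ b (hZM hb) a ha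
  have hcent := hE.selfcent Z hZne hZc hx
  have hMle : M ≤ Z := by
    intro m hm
    apply hcent
    rw [mem_centralizer_iff]
    intro z hz'
    exact hMZ m hm z hz'
  intro a ha b hb
  exact hZc a (hMle ha) b (hMle hb)

/-- two nontrivial commutative normal subgroups coincide -/
theorem EP.unique_comm (hE : EP H X) (M₁ M₂ : Subgroup H) [h₁ : M₁.Normal] [h₂ : M₂.Normal]
    (hne₁ : M₁ ≠ ⊥) (hne₂ : M₂ ≠ ⊥)
    (hc₁ : ∀ a ∈ M₁, ∀ b ∈ M₁, a * b = b * a) (hc₂ : ∀ a ∈ M₂, ∀ b ∈ M₂, a * b = b * a)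
    {x : X} (hx : x ∉ fixedPoints H X) : M₁ = M₂ := by
  have hD : M₁ ⊓ M₂ ≠ ⊥ := by
    intro hD
    apply hne₂
    have hdis : Disjoint M₁ M₂ := disjoint_iff.mpr hD
    have h3 : M₂ ≤ M₁ := by
      intro m hm
      apply hE.selfcent M₁ hne₁ hc₁ hx
      rw [mem_centralizer_iff]
      intro a ha
      exact commute_of_normal_of_disjoint M₁ M₂ h₁ h₂ hdis a m ha hm
    rw [← hD]
    exact (inf_eq_right.mpr h3).symm
  have hDn : (M₁ ⊓ M₂).Normal := inferInstance
  have hDc : ∀ a ∈ M₁ ⊓ M₂, ∀ b ∈ M₁ ⊓ M₂, a * b = b * a := fun a ha b hb => hc₁ a ha.1 b hb.1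
  have hcent := hE.selfcent (M₁ ⊓ M₂) hD hDc hx
  apply le_antisymm
  · intro m hm
    have : m ∈ M₁ ⊓ M₂ := by
      apply hcent
      rw [mem_centralizer_iff]
      intro d hd
      exact hc₁ d hd.1 m hm
    exact this.2
  · intro m hm
    have : m ∈ M₁ ⊓ M₂ := by
      apply hcent
      rw [mem_centralizer_iff]
      intro d hd
      exact hc₂ d hd.2 m hm
    exact this.1

theorem EP.center_eq_bot [Finite H] (hE : EP H X) {x : X} (hx : x ∉ fixedPoints H X)
    (hcard : ¬ (Nat.card H).Prime) : center H = ⊥ := by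
  by_contra hne
  have hZc : ∀ a ∈ center H, ∀ b ∈ center H, a * b = b * a :=
    fun a ha b _ => (mem_center_iff.mp ha b).symm
  have hcent := hE.selfcent (center H) hne hZc hx
  have hall : ∀ a b : H, a * b = b * a := by
    intro a b
    have ha : a ∈ center H := by
      apply hcent
      rw [mem_centralizer_iff]
      intro z hz
      exact (mem_center_iff.mp hz a).symm
    exact (mem_center_iff.mp ha b).symm
  have hnt : Nat.card H ≠ 1 := by
    intro h1
    apply hne
    have : Subsingleton H := (Nat.card_eq_one_iff_unique.mp h1).1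
    exact Subsingleton.elim _ _
  have hq : (Nat.card H).minFac.Prime := Nat.minFac_prime hnt
  have := Fact.mk hq
  obtain ⟨y, hy⟩ := exists_prime_orderOf_dvd_card' (G := H) (Nat.card H).minFac (Nat.minFac_dvd _)
  have hAn : (zpowers y).Normal := ⟨fun n hn g => by rwa [hall g n, mul_inv_cancel_right]⟩
  have hAne : zpowers y ≠ ⊥ := by
    intro h
    rw [zpowers_eq_bot] at h
    rw [h, orderOf_one] at hy
    exact hq.one_lt.ne hy
  have hcent2 := hE.selfcent (zpowers y) hAne (fun a _ b _ => hall a b) hx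
  have htop : zpowers y = ⊤ := by
    rw [eq_top_iff]
    intro a _
    apply hcent2
    rw [mem_centralizer_iff]
    intro z _
    exact hall z a
  apply hcard
  rw [← card_top, ← htop, Nat.card_zpowers, hy]
  exact hq

theorem EP.fitting [Finite H] (hE : EP H X) {x : X} (hx : x ∉ fixedPoints H X) :
    (∀ a ∈ Cfsg.fittingSubgroup H, ∀ b ∈ Cfsg.fittingSubgroup H, a * b = b * a) ∧
    (Cfsg.fittingSubgroup H).Normal ∧
    ∃ p e : ℕ, p.Prime ∧ Nat.card (Cfsg.fittingSubgroup H) = p ^ e ∧
      (∀ a ∈ Cfsg.fittingSubgroup H, a ^ p = 1) := by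
  by_cases hex : ∃ V : Subgroup H, V.Normal ∧ Group.IsNilpotent V ∧ V ≠ ⊥
  · obtain ⟨V, hVn, hVnil, hVne⟩ := hex
    have hVc := hE.comm_of_nilpotent V hVnil hx
    have huniq : ∀ N : Subgroup H, N.Normal → Group.IsNilpotent N → N ≠ ⊥ → N = V := by
      intro N hNn hNnil hNne
      exact hE.unique_comm N V hNne hVne (hE.comm_of_nilpotent N hNnil hx) hVc hx
    have hF : Cfsg.fittingSubgroup H = V := by
      apply le_antisymm
      · apply sSup_le
        rintro N ⟨hNn, hNnil⟩
        by_cases hN : N = ⊥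
        · rw [hN]; exact bot_le
        · exact (huniq N hNn hNnil hN).le
      · exact le_sSup ⟨hVn, hVnil⟩
    rw [hF]
    refine ⟨hVc, hVn, ?_⟩
    have hcard : Nat.card V ≠ 1 := fun h => hVne (card_eq_one.mp h)
    set p := (Nat.card V).minFac with hp
    have hpp : p.Prime := Nat.minFac_prime hcard
    have := Fact.mk hpp
    obtain ⟨y, hy⟩ := exists_prime_orderOf_dvd_card' (G := V) p (Nat.minFac_dvd _)
    let W : Subgroup H :=
      { carrier := {z | z ∈ V ∧ z ^ p = 1}
        mul_mem' := by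
          rintro a b ⟨ha, ha'⟩ ⟨hb, hb'⟩
          exact ⟨V.mul_mem ha hb, by
            rw [(show Commute a b from hVc a ha b hb).mul_pow, ha', hb', one_mul]⟩
        one_mem' := ⟨V.one_mem, one_pow _⟩
        inv_mem' := by
          rintro a ⟨ha, ha'⟩
          exact ⟨V.inv_mem ha, by rw [inv_pow, ha', inv_one]⟩ }
    have hWn : W.Normal := ⟨by
      rintro n ⟨hn, hn'⟩ g
      exact ⟨hVn.conj_mem n hn g, by rw [conj_pow, hn', mul_one, mul_inv_cancel]⟩⟩
    have hWne : W ≠ ⊥ := by
      intro hW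
      have hyW : (y : H) ∈ W := ⟨y.2, by
        have := pow_orderOf_eq_one y
        rw [hy] at this
        simpa using congrArg Subtype.val this⟩
      rw [hW, mem_bot] at hyW
      have : y = 1 := Subtype.ext hyW
      rw [this, orderOf_one] at hy
      exact hpp.one_lt.ne hy
    have hWnil : Group.IsNilpotent W := by
      have hcomm : ∀ a b : W, a * b = b * a := fun a b =>
        Subtype.ext (hVc a.1 a.2.1 b.1 b.2.1)
      let _ : CommGroup W := { (inferInstance : Group W) with mul_comm := hcomm }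
      infer_instance
    have hWV : W = V := huniq W hWn hWnil hWne
    have hexp : ∀ a ∈ V, a ^ p = 1 := by
      intro a ha
      have : a ∈ W := hWV ▸ ha
      exact this.2
    have hpg : IsPGroup p V := by
      intro a
      exact ⟨1, by rw [pow_one]; exact Subtype.ext (hexp a.1 a.2)⟩
    obtain ⟨e, he⟩ := IsPGroup.iff_card.mp hpg
    exact ⟨p, e, hpp, he, hexp⟩
  · have hF : Cfsg.fittingSubgroup H = ⊥ := by
      rw [eq_bot_iff]
      apply sSup_le
      rintro N ⟨hNn, hNnil⟩
      by_contra hN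
      exact hex ⟨N, hNn, hNnil, fun h => hN (h ▸ le_rfl)⟩
    rw [hF]
    refine ⟨?_, inferInstance, 2, 0, Nat.prime_two, by simp, ?_⟩
    · intro a ha b hb
      rw [mem_bot] at ha hb
      rw [ha, hb]
    · intro a ha
      rw [mem_bot] at ha
      rw [ha, one_pow]

end

end Cfsg.Agent.Lib.Helper62
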